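import Mathlib
import Cfsg.Agent.S0493
import Cfsg.Agent.S0678
import Cfsg.Agent.S0144
import Cfsg.Agent.S0991
import Cfsg.Agent.H7.BT5
import Cfsg.Agent.H10.Sym3
import Cfsg.Agent.H10.SmallIso2
import Cfsg.Agent.H10.SmallId
import Cfsg.Agent.H16.Supp
import Cfsg.Agent.H20.MinS
/-! Subgroups of the alternating group of degree eight with trivial solvable radical. -/

set_option autoImplicit false
set_option linter.unusedSectionVars false
set_option linter.unusedVariables false

namespace Cfsg.Agent.A8s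
open Equiv Equiv.Perm Subgroup MulAction
open scoped Nat

/-- no nontrivial solvable normal subgroup -/
def Rad (G : Type*) [Group G] : Prop := ∀ N : Subgroup G, N.Normal → Group.IsSolvable N → N = ⊥

/-- the list of groups -/
def Con (G : Type*) [Group G] : Prop :=
  (∃ n : ℕ, 5 ≤ n ∧ n ≤ 8 ∧ Nonempty (G ≃* alternatingGroup (Fin n))) ∨
    Nonempty (G ≃* Perm (Fin 5)) ∨ Nonempty (G ≃* Perm (Fin 6)) ∨ Nonempty (G ≃* GL (Fin 3) (ZMod 2))

variable {G : Type*} [Group G] [Finite G]

theorem Con.of {K : Type*} [Group K] (e : G ≃* K) (h : Con K) : Con G := by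
  rcases h with ⟨n, h1, h2, ⟨f⟩⟩ | ⟨⟨f⟩⟩ | ⟨⟨f⟩⟩ | ⟨⟨f⟩⟩
  exacts [.inl ⟨n, h1, h2, ⟨e.trans f⟩⟩, .inr (.inl ⟨e.trans f⟩), .inr (.inr (.inl ⟨e.trans f⟩)),
    .inr (.inr (.inr ⟨e.trans f⟩))]

theorem Rad.of {K : Type*} [Group K] (e : G ≃* K) (h : Rad G) : Rad K := fun N hN hs => by
  have h1 := h (N.comap e.toMonoidHom) (hN.comap _) (by
    refine Group.isSolvable_of_isSolvable_injective
      (f := (e.toMonoidHom.comp (N.comap e.toMonoidHom).subtype).codRestrict N fun x => x.2) fun x y hxy => ?_
    exact Subtype.ext (e.injective (congrArg Subtype.val hxy)))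
  rw [eq_bot_iff]
  intro x hx
  obtain ⟨y, rfl⟩ := e.surjective x
  have : y ∈ N.comap e.toMonoidHom := hx
  rw [h1, mem_bot] at this
  simp [this]

theorem sol60 (G : Type*) [Group G] [Finite G] (h : Nat.card G < 60) : Group.IsSolvable G :=
  H20.sol_of_min (fun G _ => Nat.card G < 60) (fun G _ _ N h => (card_le_card_group N).trans_lt h)
    (fun G _ _ N _ _ _ _ h => (Nat.card_le_card_of_surjective _ (QuotientGroup.mk'_surjective N)).trans_lt h)
    (fun G _ _ _ h hs _ => h.ne (S0493.result (fun _ => hs (FT.sol_top.2 inferInstance)) (by omega))) G h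

theorem Rad.ge (h : Rad G) (N : Subgroup G) [hN : N.Normal] (h1 : N ≠ ⊥) : 60 ≤ Nat.card N :=
  not_lt.1 fun h2 => h1 (h N hN (sol60 N h2))

theorem Rad.not_sol (h : Rad G) [Nontrivial G] : ¬ Group.IsSolvable G := fun hs =>
  top_ne_bot (h ⊤ inferInstance inferInstance)

theorem Rad.ge' (h : Rad G) [Nontrivial G] : 60 ≤ Nat.card G := not_lt.1 fun h2 => h.not_sol (sol60 G h2)

theorem Rad.noCyc (h : Rad G) : H10.NoCycNormal G := fun N hN hc => h N hN inferInstance

/-- `SL_n(2) = GL_n(2)` -/
noncomputable def slGL (n : ℕ) : Matrix.SpecialLinearGroup (Fin n) (ZMod 2) ≃* GL (Fin n) (ZMod 2) :=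
  MulEquiv.ofBijective Matrix.SpecialLinearGroup.toGL ⟨Matrix.SpecialLinearGroup.toGL_injective, fun g =>
    ⟨⟨g.1, (by decide : ∀ x : ZMod 2, x ≠ 0 → x = 1) _ g.det_ne_zero⟩,
      Units.ext (Matrix.SpecialLinearGroup.coe_GL_coe_matrix _)⟩⟩

theorem con21 [IsSimpleGroup G] (hs : ¬ Group.IsSolvable G) {b : ℕ} (hc : Nat.card G = 21 * 2 ^ b) : Con G := by
  have hn : ¬ IsMulCommutative G := fun h => hs (by
    let _ : CommGroup G := { (inferInstance : Group G) with mul_comm := h.is_comm.comm }
    infer_instance)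
  rcases H7.simple_three (p := 7) (q := 2) (a := 1) (b := b) hn (by norm_num) Nat.prime_two (by norm_num)
    one_le_two (by rw [hc]; norm_num) with h | ⟨⟨e⟩⟩
  · exact .inl ⟨5, le_rfl, by norm_num, h⟩
  · obtain ⟨f⟩ := H10.PSL2_seven_zmod
    exact .inr (.inr (.inr ⟨(e.trans f).trans (slGL 3)⟩))

theorem idx_alt {n : ℕ} (hn : 5 ≤ n) (K : Subgroup (alternatingGroup (Fin n))) (hK : K ≠ ⊤) : n ≤ K.index := by
  have : IsSimpleGroup (alternatingGroup (Fin n)) := alternatingGroup.isSimpleGroup (by simpa using hn)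
  have : Nontrivial (Fin n) := Fin.nontrivial_iff_two_le.2 (by omega)
  obtain ⟨f, hf⟩ := S0991.result (by
    rw [alternatingGroup.isMulCommutative_iff_card_le_three]; simp; omega) K hK
  have h1 := (Nat.card_le_card_of_injective _ hf).trans (card_le_card_group _)
  have h2 := two_mul_nat_card_alternatingGroup (α := Fin n)
  rw [Nat.card_perm, Nat.card_eq_fintype_card (α := Fin _), Fintype.card_fin] at h1 h2
  by_contra h3
  obtain ⟨m, rfl⟩ : ∃ m, n = m + 1 := ⟨n - 1, by omega⟩
  have h4 := Nat.factorial_le (show K.index ≤ m by omega)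
  have h5 := Nat.factorial_pos m
  rw [Nat.factorial_succ] at h2
  nlinarith

theorem deg6 (h : Rad G) [Nontrivial G] (f : G →* Perm (Fin 6)) (hf : Function.Injective f) : Con G := by
  let N := (alternatingGroup (Fin 6)).comap f
  have i1 : N.index ∣ 2 := by
    rw [index_comap, ← alternatingGroup.index_eq_two (α := Fin 6)]
    exact relIndex_dvd_index_of_normal _ _
  have i2 : N.index * Nat.card N = Nat.card G := N.index_mul_card
  have i3 := h.ge'
  have i4 : N.index = 1 ∨ N.index = 2 := (Nat.dvd_prime Nat.prime_two).1 i1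
  have i5 : N ≠ ⊥ := fun e => by rw [e, card_bot] at i2; rw [e] at i4; omega
  have i6 := h.ge N i5
  let ph : N →* alternatingGroup (Fin 6) := (f.comp N.subtype).codRestrict _ fun x => x.2
  have hph : Function.Injective ph := fun x y hxy => Subtype.ext (hf (congrArg Subtype.val hxy))
  have i7 : Nat.card ph.range = Nat.card N := (Nat.card_congr (MonoidHom.ofInjective hph).toEquiv).symm
  have i8 : ph.range.index * Nat.card ph.range = 360 := by
    rw [index_mul_card, nat_card_alternatingGroup]; simp [Nat.factorial]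
  have i9 : Nat.card N = 360 ∨ Nat.card N = 60 := by
    by_cases ht : ph.range = ⊤
    · rw [ht, index_top, one_mul, ← ht] at i8; omega
    · have := idx_alt (by norm_num) _ ht
      right; nlinarith
  have c6 : Nat.card (Fin 6) = 6 := by simp
  rcases i9 with i9 | i9 <;> rcases i4 with i4 | i4 <;> rw [i9, i4] at i2
  · exact .inl ⟨6, by norm_num, by norm_num,
      H10.nonempty_equiv_alternating_of_injective c6 f hf (by rw [← i2]; rfl)⟩
  · exact .inr (.inr (.inl (H10.nonempty_equiv_perm_of_injective c6 f hf (by rw [← i2]; rfl))))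
  · exact .inl ⟨5, by norm_num, by norm_num, h.noCyc.equiv_A5 (by rw [← i2])⟩
  · have j1 : f.range.index * Nat.card f.range = 720 := by
      rw [index_mul_card, Nat.card_perm, c6]; rfl
    rw [← Nat.card_congr (MonoidHom.ofInjective hf).toEquiv, ← i2] at j1
    obtain ⟨ψ, -, hψ⟩ := H10.exists_outer_six (Ω := Fin 6) (by simp)
    obtain ⟨a, ha⟩ := hψ f.range (by omega)
    obtain ⟨e⟩ := H10.nonempty_stabilizer_equiv (m := 5) a (by simp)
    rcases ha with ha | ha
    · exact .inr (.inl ⟨(MonoidHom.ofInjective hf).trans ((MulEquiv.subgroupCongr ha).trans e)⟩)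
    · exact .inr (.inl ⟨(MonoidHom.ofInjective hf).trans
        (((MulEquiv.subgroupCongr ha).trans (ψ.subgroupMap _).symm).trans e)⟩)

theorem deg7 (h : Rad G) [Nontrivial G] {α : Type*} [Fintype α] [DecidableEq α] (hα : Fintype.card α = 7)
    (f : G →* Perm α) (hf : Function.Injective f) (ht : IsPretransitive f.range α) (hc : Nat.card G ≠ 5040) :
    Con G := by
  have e := MonoidHom.ofInjective hf
  have hs : ¬ Group.IsSolvable f.range := fun _ =>
    h.not_sol (Group.isSolvable_of_isSolvable_injective (f := e.toMonoidHom) e.injective)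
  have c7 : Nat.card α = 7 := by rw [Nat.card_eq_fintype_card, hα]
  by_cases hA : alternatingGroup α ≤ f.range
  · have : Nontrivial α := Fintype.one_lt_card_iff_nontrivial.1 (by omega)
    have i1 : f.range.index ∣ 2 := alternatingGroup.index_eq_two (α := α) ▸ index_dvd_of_le hA
    have j1 : f.range.index * Nat.card f.range = 5040 := by
      rw [index_mul_card, Nat.card_perm, c7]; rfl
    rw [← Nat.card_congr e.toEquiv] at j1
    rcases (Nat.dvd_prime Nat.prime_two).1 i1 with i | i <;> rw [i] at j1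
    · omega
    · exact .inl ⟨7, by norm_num, by norm_num, H10.nonempty_equiv_alternating_of_injective c7 f hf j1⟩
  · obtain ⟨h1, h2⟩ := S0678.result hα f.range hs hA
    exact Con.of e (con21 hs (b := 3) h1)

/-- normalizers of subgroups of order seven -/
def N7 (G : Type*) [Group G] : Prop :=
  ∀ P : Subgroup G, Nat.card P = 7 → Nat.card (normalizer (P : Set G)) ∣ 21

theorem N7.of {K : Type*} [Group K] (h : N7 K) (f : G →* K) (hf : Function.Injective f) : N7 G := fun P hP => by
  refine Dvd.dvd.trans ?_ (h (P.map f) (by rw [card_map_of_injective hf, hP]))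
  rw [← card_map_of_injective hf]
  exact card_dvd_of_le (le_normalizer_map f)

theorem n7_alt : N7 (alternatingGroup (Fin 8)) := fun P hP => by
  have : Fact (Nat.Prime 7) := ⟨by norm_num⟩
  have c8 : Nat.card (alternatingGroup (Fin 8)) = 20160 := by
    rw [nat_card_alternatingGroup]; simp [Nat.factorial]
  have : IsCyclic P := isCyclic_of_prime_card hP
  obtain ⟨g, hg⟩ := exists_prime_orderOf_dvd_card' (G := P) 7 (by rw [hP])
  have hg' : orderOf (g.1.1 : Perm (Fin 8)) = 7 := by rw [orderOf_coe, orderOf_coe, hg]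
  have hc : (g.1.1 : Perm (Fin 8)).IsCycle := isCycle_of_prime_order' (by rw [hg']; norm_num) (by rw [hg']; simp)
  have h1 : Nat.card (centralizer {(g.1.1 : Perm (Fin 8))}) = 7 := by
    rw [nat_card_centralizer, hc.cycleType, ← hc.orderOf, hg']; simp
  have h2 : Nat.card (centralizer (P : Set (alternatingGroup (Fin 8)))) ∣ 7 := by
    rw [← h1, ← card_map_of_injective (alternatingGroup (Fin 8)).subtype_injective]
    refine card_dvd_of_le ?_
    rintro _ ⟨x, hx, rfl⟩
    exact mem_centralizer_singleton_iff.2 (congrArg Subtype.val (hx g.1 g.2)).symm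
  have h3 : Nat.card (normalizer (P : Set (alternatingGroup (Fin 8)))) ∣ 7 * 6 := by
    rw [← P.normalizerMonoidHom.ker.card_mul_index, index_ker, normalizerMonoidHom_ker]
    refine Nat.mul_dvd_mul (Dvd.dvd.trans ?_ h2) ?_
    · rw [← card_map_of_injective (Subgroup.subtype_injective _), subgroupOf_map_subtype]
      exact card_dvd_of_le inf_le_left
    · have := card_subgroup_dvd_card P.normalizerMonoidHom.range
      rwa [IsCyclic.card_mulAut, hP] at this
  let Q : Sylow 7 (alternatingGroup (Fin 8)) := Sylow.ofCard P (by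
    rw [hP, c8, show 20160 = 7 * 2880 by norm_num, Nat.factorization_mul (by norm_num) (by norm_num)]
    simp [Nat.Prime.factorization_self (show Nat.Prime 7 by norm_num),
      Nat.factorization_eq_zero_of_not_dvd (show ¬ 7 ∣ 2880 by norm_num)])
  have h4 := card_sylow_modEq_one 7 (alternatingGroup (Fin 8))
  rw [Q.card_eq_index_normalizer] at h4
  have h5 := (normalizer (P : Set (alternatingGroup (Fin 8)))).index_mul_card
  rw [c8] at h5
  change (normalizer (P : Set (alternatingGroup (Fin 8)))).index ≡ 1 [MOD 7] at h4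
  generalize (normalizer (P : Set (alternatingGroup (Fin 8)))).index = k at *
  generalize Nat.card (normalizer (P : Set (alternatingGroup (Fin 8)))) = m at *
  have := Nat.le_of_dvd (by norm_num) h3
  unfold Nat.ModEq at h4
  interval_cases m <;> omega

theorem sol23 (hd : Nat.card G ∣ 576) : Group.IsSolvable G := by
  obtain ⟨x, y, hx, hy, e⟩ := exists_dvd_and_dvd_of_dvd_mul (show Nat.card G ∣ 2 ^ 6 * 3 ^ 2 from hd)
  obtain ⟨a, -, rfl⟩ := (Nat.dvd_prime_pow Nat.prime_two).1 hx
  obtain ⟨b, -, rfl⟩ := (Nat.dvd_prime_pow Nat.prime_three).1 hy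
  exact S0144.result 2 3 a b Nat.prime_two Nat.prime_three e

instance fact7 : Fact (Nat.Prime 7) := ⟨by norm_num⟩

theorem N7.card (h : N7 G) (hs : ¬ Group.IsSolvable G) (hd : Nat.card G ∣ 4032) (P : Sylow 7 G) :
    Nat.card P = 7 ∧ Nat.card (normalizer (P : Set G)) = 21 := by
  have h7 : 7 ∣ Nat.card G := by
    by_contra h7
    exact hs (sol23 ((Nat.Coprime.dvd_mul_right (((Nat.Prime.coprime_iff_not_dvd (by norm_num)).2 h7).symm)).1
      (show Nat.card G ∣ 576 * 7 from hd)))
  have h1 : Nat.card P = 7 := by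
    have a1 := P.dvd_card_of_dvd_card h7
    obtain ⟨k, hk⟩ := P.isPGroup'.exists_card_eq
    have a2 := (card_subgroup_dvd_card (P : Subgroup G)).trans hd
    rw [hk] at a1 a2 ⊢
    rcases k with _ | _ | k
    · simp at a1
    · rfl
    · exact absurd ((pow_dvd_pow 7 (show 2 ≤ k + 1 + 1 by omega)).trans a2) (by norm_num)
  refine ⟨h1, ?_⟩
  have h2 := h P h1
  have h3 : 7 ∣ Nat.card (normalizer (P : Set G)) :=
    (dvd_of_eq h1.symm).trans (card_dvd_of_le (le_normalizer (H := (P : Subgroup G))))
  by_contra h4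
  have h5 : Nat.card (normalizer (P : Set G)) = 7 := by
    have := Nat.le_of_dvd (by norm_num) h2
    generalize Nat.card (normalizer (P : Set G)) = m at *
    interval_cases m <;> omega
  have h6 : (P : Subgroup G) = normalizer (P : Set G) := eq_of_le_of_card_ge le_normalizer (by omega)
  have : IsCyclic P := isCyclic_of_prime_card h1
  have h8 : normalizer (P : Set G) ≤ centralizer (P : Set G) := by
    rw [← h6]; exact le_centralizer _
  have h9 := MonoidHom.ker_transferSylow_isComplement' P h8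
  have h10 := h9.card_mul
  rw [h1] at h10
  have : Group.IsSolvable (MonoidHom.transferSylow P h8).ker := sol23 (Nat.dvd_of_mul_dvd_mul_right
    (show 0 < 7 by norm_num) (h10 ▸ hd))
  exact hs (Group.isSolvable_of_ker_le_range (MonoidHom.transferSylow P h8).ker.subtype
    (MonoidHom.transferSylow P h8) (by simp))

theorem no5 (h : Rad G) [Nontrivial G] (h7 : N7 G) (hd : Nat.card G ∣ 4032) : Con G := by
  have : IsSimpleGroup G := ⟨fun N hN => or_iff_not_imp_left.2 fun h1 => by
    have hs : ¬ Group.IsSolvable N := fun hs => h1 (h N hN hs)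
    obtain ⟨P⟩ : Nonempty (Sylow 7 N) := inferInstance
    obtain ⟨a1, a2⟩ := (h7.of N.subtype N.subtype_injective).card hs ((card_subgroup_dvd_card N).trans hd) P
    have a3 := h7 ((P : Subgroup N).map N.subtype) (by rw [card_map_of_injective N.subtype_injective, a1])
    have a4 : (normalizer (P : Set N)).map N.subtype = normalizer (((P : Subgroup N).map N.subtype : Subgroup G) : Set G) :=
      eq_of_le_of_card_ge (le_normalizer_map _) (by
        rw [card_map_of_injective N.subtype_injective, a2]; exact Nat.le_of_dvd (by norm_num) a3)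
    have a5 := P.normalizer_sup_eq_top
    rw [← a4, sup_eq_right.2 (map_subtype_le _)] at a5
    exact a5⟩
  obtain ⟨P⟩ : Nonempty (Sylow 7 G) := inferInstance
  obtain ⟨a1, a2⟩ := h7.card h.not_sol hd P
  have h4 := card_sylow_modEq_one 7 G
  rw [P.card_eq_index_normalizer] at h4
  have h5 := (normalizer (P : Set G)).index_mul_card
  rw [a2] at h5
  have h6 : (normalizer (P : Set G)).index ∣ 192 :=
    Nat.dvd_of_mul_dvd_mul_right (show 0 < 21 by norm_num) (h5 ▸ hd)
  have h8 : ∀ k, k ∣ 192 → k ≡ 1 [MOD 7] → ∃ b, k = 2 ^ b := fun k h1 h2 => by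
    have h3 : k ∈ Nat.divisors 192 := Nat.mem_divisors.2 ⟨h1, by norm_num⟩
    have h4 : ∀ k ∈ Nat.divisors 192, k % 7 = 1 % 7 → ∃ b < 7, k = 2 ^ b := by decide
    exact (h4 k h3 h2).imp fun _ h => h.2
  obtain ⟨b, hb⟩ := h8 _ h6 h4
  exact con21 h.not_sol (b := b) (by rw [← h5, hb, mul_comm])

theorem main (K : Subgroup (Perm (Fin 8))) (hK : K ≤ alternatingGroup (Fin 8)) (h : Rad K) [Nontrivial K] :
    Con K := by
  classical
  have c8 : Nat.card (alternatingGroup (Fin 8)) = 20160 := by
    rw [nat_card_alternatingGroup]; simp [Nat.factorial]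
  have hd : Nat.card K ∣ 20160 := c8 ▸ card_dvd_of_le hK
  by_cases h5 : 5 ∣ Nat.card K
  swap
  · exact no5 h (n7_alt.of _ (inclusion_injective hK))
      ((Nat.Coprime.dvd_mul_right (((Nat.Prime.coprime_iff_not_dvd (by norm_num)).2 h5).symm)).1
      (show Nat.card K ∣ 4032 * 5 from hd))
  have : Fact (Nat.Prime 5) := ⟨by norm_num⟩
  obtain ⟨g, hg⟩ := exists_prime_orderOf_dvd_card' (G := K) 5 h5
  have hg' : orderOf (g.1 : Perm (Fin 8)) = 5 := by rw [orderOf_coe, hg]
  have hc : (g.1 : Perm (Fin 8)).IsCycle := isCycle_of_prime_order' (by rw [hg']; norm_num) (by rw [hg']; simp)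
  have hs : (g.1 : Perm (Fin 8)).support.card = 5 := by rw [← hc.orderOf, hg']
  obtain ⟨a, ha, ha'⟩ := id hc
  have o1 : 5 ≤ (orbit K a).ncard := by
    rw [← hs, ← Set.ncard_coe_finset]
    refine Set.ncard_le_ncard fun x hx => ?_
    obtain ⟨i, hi⟩ := ha' (mem_support.1 hx)
    exact ⟨g ^ i, hi⟩
  have o2 := Set.ncard_add_ncard_compl (orbit K a)
  rw [Nat.card_eq_fintype_card, Fintype.card_fin] at o2
  have hρ : Function.Injective (toPermHom K (orbit K a)) := by
    rw [← MonoidHom.ker_eq_bot_iff]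
    by_contra h1
    have b1 := h.ge _ h1
    have b2 : Nat.card (toPermHom K (orbit K a)).ker ≤ Nat.card (Perm {x // x ∈ (orbit K a)ᶜ}) := by
      rw [Nat.card_congr (Equiv.Perm.subtypeEquivSubtypePerm (· ∈ (orbit K a)ᶜ))]
      refine Nat.card_le_card_of_injective (fun x => ⟨x.1.1, fun y hy => ?_⟩) fun x y hxy => ?_
      · exact congrArg Subtype.val (DFunLike.congr_fun x.2 ⟨y, not_not.1 hy⟩)
      · exact Subtype.ext (Subtype.ext (Subtype.mk.inj hxy))
    rw [Nat.card_perm, Nat.card_coe_set_eq] at b2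
    have b3 := Nat.factorial_le (show (orbit K a)ᶜ.ncard ≤ 3 by omega)
    have b4 : 3 ! = 6 := rfl
    omega
  have o3 : Fintype.card (orbit K a) = (orbit K a).ncard := by
    rw [← Nat.card_eq_fintype_card, Nat.card_coe_set_eq]
  rcases (by omega : (orbit K a).ncard ≤ 6 ∨ (orbit K a).ncard = 7 ∨ (orbit K a).ncard = 8) with o | o | o
  · obtain ⟨ι⟩ := Function.Embedding.nonempty_of_card_le (α := orbit K a) (β := Fin 6) (by simpa [o3] using o)
    exact deg6 h ((viaEmbeddingHom ι).comp _) ((viaEmbeddingHom_injective ι).comp hρ)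
  · refine deg7 h (o3.trans o) _ hρ ⟨fun x y => ?_⟩ fun h1 => ?_
    · obtain ⟨k, hk⟩ := exists_smul_eq K x y
      exact ⟨⟨_, k, rfl⟩, hk⟩
    · have b1 := (K.subgroupOf (alternatingGroup (Fin 8))).index_mul_card
      rw [Nat.card_congr (subgroupOfEquivOfLe hK).toEquiv, h1, c8] at b1
      have b2 := idx_alt (by norm_num) (K.subgroupOf (alternatingGroup (Fin 8))) fun e => by
        rw [e, index_top] at b1; omega
      omega
  · have : IsPretransitive K (Fin 8) := (isPretransitive_iff_orbit_eq_univ a).2 (by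
      rw [Set.eq_univ_iff_ncard, o]; simp)
    have := isPretransitive_of_isCycle_mem hc g.2
    have b1 := H16.card_ofFixingSubgroup (G := K) ((g.1 : Perm (Fin 8)).support : Set (Fin 8))ᶜ
    rw [compl_compl, Set.ncard_coe_finset, hs] at b1
    have := IsPreprimitive.of_prime_card (G := fixingSubgroup K ((g.1 : Perm (Fin 8)).support : Set (Fin 8))ᶜ)
      (b1 ▸ Nat.prime_five)
    have hp : IsPreprimitive K (Fin 8) := IsPreprimitive.of_card_lt
      (f := SubMulAction.ofFixingSubgroup_equivariantMap K ((g.1 : Perm (Fin 8)).support : Set (Fin 8))ᶜ) (by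
        rw [Set.ncard_range_of_injective SubMulAction.ofFixingSubgroup_equivariantMap_injective, b1]; simp)
    have b2 := H16.jordan_prime_cycle hp Nat.prime_five (by simp) hc hs g.2
    exact .inl ⟨8, by norm_num, le_rfl, ⟨MulEquiv.subgroupCongr (le_antisymm hK b2)⟩⟩

end Cfsg.Agent.A8s
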