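import Cfsg.Agent.H12.Ae0
import Cfsg.Agent.FT.BG01

set_option autoImplicit false
set_option linter.unusedSectionVars false
set_option linter.unusedVariables false
set_option linter.style.haveILetI false
set_option synthInstance.maxSize 4000

namespace Cfsg.Agent.H12.Ae
open Subgroup Equiv Cfsg.Agent.FT

variable {G : Type*} [Group G] [Finite G] {ε ε' : E35 →* G} {σ : G}

def pB1v1 : E35 := el 1 (swap 0 1 * swap 2 4)
def pB1v2 : E35 := el 1 (swap 0 2 * swap 1 4)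

theorem pB1_d1 : ∀ b : Perm (Fin 5), b * u1E.1.2 = u1E.1.2 * b → b * u2E.1.2 = u2E.1.2 * b →
    Perm.sign b = 1 ∧ ∃ j k : Fin 2, b = u1E.1.2 ^ (j : ℕ) * u2E.1.2 ^ (k : ℕ) := by
  decide +kernel

theorem pB1_d2 : ∀ a : Perm (Fin 3), Perm.sign a = 1 → ∃ i : Fin 3, a = zE.1.1 ^ (i : ℕ) := by
  decide +kernel

theorem pB1_d3 : (∀ a : Perm (Fin 3), a ^ 60 = 1) ∧ ∀ b : Perm (Fin 5), b ^ 60 = 1 := by
  decide +kernel

theorem pB1_d4 : ∀ a : Perm (Fin 3), a * zE.1.1 = zE.1.1 * a → a ^ 20 = 1 → a = 1 := by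
  decide +kernel

theorem pB1_d5 : ∀ b : Perm (Fin 5), b ^ 20 = 1 → ∀ s, s = b * (zE'.1.2 * b * zE'.1.2⁻¹) →
    s ^ 20 = 1 → (s * (zE'.1.2 * s * zE'.1.2⁻¹)) ^ 20 = 1 →
    (s * (zE'.1.2 * s * zE'.1.2⁻¹)⁻¹) ^ 20 = 1 → Perm.sign b = 1 →
    (b = 1 ∨ b = u1E.1.2 ∨ b = u2E.1.2 ∨ b = u1E.1.2 * u2E.1.2) ∨
      (b = pB1v1.1.2 ∨ b = pB1v2.1.2 ∨ b = pB1v1.1.2 * pB1v2.1.2) := by
  intro b h1 s hs
  subst hs
  revert b
  decide +kernel

theorem pB1_cen (t : E35) (h1 : Commute t u1E) (h2 : Commute t u2E) :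
    ∃ i j k : ℕ, t = zE ^ i * u1E ^ j * u2E ^ k := by
  obtain ⟨h3, j, k, h4⟩ := pB1_d1 t.1.2 (congrArg (fun x : E35 => x.1.2) h1.eq)
    (congrArg (fun x : E35 => x.1.2) h2.eq)
  have h5 := mem_E35.1 t.2
  rw [h3, mul_one] at h5
  obtain ⟨i, hi⟩ := pB1_d2 _ h5
  refine ⟨i, j, k, Subtype.ext (Prod.ext ?_ ?_)⟩
  · show t.1.1 = zE.1.1 ^ (i : ℕ) * (1 : Perm (Fin 3)) ^ (j : ℕ) * (1 : Perm (Fin 3)) ^ (k : ℕ)
    rw [one_pow, one_pow, mul_one, mul_one, hi]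
  · show t.1.2 = (1 : Perm (Fin 5)) ^ (i : ℕ) * u1E.1.2 ^ (j : ℕ) * u2E.1.2 ^ (k : ℕ)
    rw [one_pow, one_mul, h4]

theorem pB1_cl (T : Subgroup E35) (h20 : ∀ t ∈ T, t ^ 20 = 1) (hz : ∀ t ∈ T, Commute t zE)
    (hc : ∀ t ∈ T, zE' * t * zE'⁻¹ ∈ T) (t : E35) (ht : t ∈ T) :
    (t = 1 ∨ t = u1E ∨ t = u2E ∨ t = u1E * u2E) ∨
      (t = pB1v1 ∨ t = pB1v2 ∨ t = pB1v1 * pB1v2) := by
  have q : ∀ t ∈ T, t.1.2 ^ 20 = 1 := fun t ht => congrArg (fun x : E35 => x.1.2) (h20 t ht)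
  have h1 : t.1.1 = 1 := pB1_d4 _ (congrArg (fun x : E35 => x.1.1) (hz t ht).eq)
    (congrArg (fun x : E35 => x.1.1) (h20 t ht))
  have h5 := mem_E35.1 t.2
  rw [h1, map_one, one_mul] at h5
  have hs := T.mul_mem ht (hc t ht)
  have := pB1_d5 t.1.2 (q t ht) _ rfl (q _ hs) (q _ (T.mul_mem hs (hc _ hs)))
    (q _ (T.mul_mem hs (T.inv_mem (hc _ hs)))) h5
  have e : ∀ u : E35, u.1.1 = 1 → t.1.2 = u.1.2 → t = u := fun u a b =>
    Subtype.ext (Prod.ext (h1.trans a.symm) b)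
  rcases this with (h | h | h | h) | (h | h | h)
  · exact Or.inl (Or.inl (e _ rfl h))
  · exact Or.inl (Or.inr (Or.inl (e _ rfl h)))
  · exact Or.inl (Or.inr (Or.inr (Or.inl (e _ rfl h))))
  · exact Or.inl (Or.inr (Or.inr (Or.inr (e _ (by decide) h))))
  · exact Or.inr (Or.inl (e _ rfl h))
  · exact Or.inr (Or.inr (Or.inl (e _ rfl h)))
  · exact Or.inr (Or.inr (Or.inr (e _ (by decide) h)))

theorem pB1_u (T : Subgroup E35) (hc : ∀ t ∈ T, zE' * t * zE'⁻¹ ∈ T) :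
    (u1E ∈ T ∨ u2E ∈ T ∨ u1E * u2E ∈ T → u1E ∈ T ∧ u2E ∈ T) ∧
    (pB1v1 ∈ T ∨ pB1v2 ∈ T ∨ pB1v1 * pB1v2 ∈ T → pB1v1 ∈ T ∧ pB1v2 ∈ T) := by
  have a1 : zE' * u1E * zE'⁻¹ = u1E * u2E := by decide
  have a2 : zE' * u2E * zE'⁻¹ = u1E := by decide
  have a3 : zE' * (u1E * u2E) * zE'⁻¹ = u2E := by decide
  have b1 : zE' * pB1v1 * zE'⁻¹ = pB1v1 * pB1v2 := by decide
  have b2 : zE' * pB1v2 * zE'⁻¹ = pB1v1 := by decide
  have b3 : zE' * (pB1v1 * pB1v2) * zE'⁻¹ = pB1v2 := by decide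
  have c1 := hc u1E; have c2 := hc u2E; have c3 := hc (u1E * u2E)
  have d1 := hc pB1v1; have d2 := hc pB1v2; have d3 := hc (pB1v1 * pB1v2)
  rw [a1] at c1; rw [a2] at c2; rw [a3] at c3; rw [b1] at d1; rw [b2] at d2; rw [b3] at d3
  tauto

theorem pB1_red (h : SA ε σ) : ∃ X : Subgroup G, X ≤ C[ε u1E] ⊓ C[ε u2E] ∧ X ≤ C[ε zE'] ∧
    PiGrp {3}ᶜ X ∧ ε zE ∈ N(X) ∧ ∀ L : Subgroup G, ε u1E ∈ L → ε u2E ∈ L → ε zE ∈ L → X ≤ L →
      C[ε u1E] ⊓ C[ε u2E] ≤ L := by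
  haveI : Fact (Nat.Prime 3) := ⟨Nat.prime_three⟩
  set z := ε zE with hz
  set z' := ε zE' with hz'
  set Cu := C[ε u1E] ⊓ C[ε u2E] with hCu
  have cm : ∀ {a b : E35}, a * b = b * a → ε a * ε b = ε b * ε a := fun {a b} e => by
    rw [← map_mul, ← map_mul, e]
  have z3 : z ^ 3 = 1 := by rw [hz, ← map_pow, show zE ^ 3 = 1 by decide, map_one]
  have z3' : z' ^ 3 = 1 := by rw [hz', ← map_pow, show zE' ^ 3 = 1 by decide, map_one]
  have oz : orderOf z = 3 := orderOf_eq_prime z3 fun e =>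
    absurd (h.inj (e.trans (map_one ε).symm)) (by decide)
  have czz : Commute z z' := cm (by decide)
  have hi : z' ∉ zpowers z := by
    rintro ⟨n, hn⟩
    have : zE ^ n = zE' := h.inj (by rw [map_zpow]; exact hn)
    have h2 : (1 : Perm (Fin 5)) ^ n = zE'.1.2 := congrArg (fun x : E35 => x.1.2) this
    rw [one_zpow] at h2
    revert h2; decide
  have zC : z ∈ Cu := ⟨mem_cen1.2 (cm (by decide)), mem_cen1.2 (cm (by decide))⟩
  have key : ∀ g ∈ Cu, g ∈ N(⟪z⟫) → ∃ i j k : ℕ, g = z ^ i * ε u1E ^ j * ε u2E ^ k := by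
    intro g hg hn
    obtain ⟨t, rfl⟩ := (h.rng g).2 hn
    obtain ⟨i, j, k, rfl⟩ := pB1_cen t (h.inj (by rw [map_mul, map_mul]; exact mem_cen1.1 hg.1))
      (h.inj (by rw [map_mul, map_mul]; exact mem_cen1.1 hg.2))
    exact ⟨i, j, k, by simp only [map_mul, map_pow, hz]⟩
  have c1 : Commute z (ε u1E) := cm (by decide)
  have c2 : Commute z (ε u2E) := cm (by decide)
  have c3 : Commute (ε u1E) (ε u2E) := cm (by decide)
  have s1 : ε u1E ^ 2 = 1 := by rw [← map_pow, show u1E ^ 2 = 1 by decide, map_one]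
  have s2 : ε u2E ^ 2 = 1 := by rw [← map_pow, show u2E ^ 2 = 1 by decide, map_one]
  have pz : PGrp 3 ⟪z⟫ := (pElt_of_pow_eq_one Nat.prime_three z3).zpowers
  have pz' : PGrp 3 ⟪z'⟫ := (pElt_of_pow_eq_one Nat.prime_three z3').zpowers
  have hS : Syl 3 ⟪z⟫ Cu := by
    refine syl_of_subnorm (zpowers_le.2 zC) (syl_of_max pz
      (le_inf (zpowers_le.2 zC) (le_nrm _)) fun Q hQ h1 h2 => le_antisymm (fun g hg => ?_) h1)
    obtain ⟨i, j, k, e⟩ := key g (h2 hg).1 (h2 hg).2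
    have h3 : ε u1E ^ j * ε u2E ^ k ∈ Q := by
      have := Q.mul_mem (Q.inv_mem (h1 (pow_mem (mem_zpowers z) i))) hg
      rwa [e, mul_assoc, inv_mul_cancel_left] at this
    have h4 : (ε u1E ^ j * ε u2E ^ k) ^ 2 = 1 := by
      rw [(c3.pow_pow j k).mul_pow, ← pow_mul, ← pow_mul, mul_comm j, mul_comm k, pow_mul, pow_mul,
        s1, s2, one_pow, one_pow, one_mul]
    have h5 := (hQ.piElt h3).eq_one ((pElt_of_pow_eq_one Nat.prime_two h4).pi (by simp))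
    rw [e, mul_assoc, h5, mul_one]
    exact pow_mem (mem_zpowers z) i
  have hB : Cu ⊓ N(⟪z⟫) ≤ C(⟪z⟫) := by
    intro g hg
    obtain ⟨i, j, k, rfl⟩ := key g hg.1 hg.2
    refine mem_cen.2 ?_
    rintro _ ⟨n, rfl⟩
    exact ((((Commute.refl z).pow_right i).mul_right (c1.pow_right j)).mul_right
      (c2.pow_right k)).zpow_left n
  have hsd := (Burnside_normal_complement hS hB).sd hS
  set K := O[{3}ᶜ](Cu) with hK
  have z'N : z' ∈ N(Cu) := by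
    have a1 : zE'⁻¹ * u1E * zE' = u2E := by decide
    have a2 : zE'⁻¹ * u2E * zE' = u1E * u2E := by decide
    refine mem_nrm.2 fun x hx => ⟨mem_cen1.2 ?_, mem_cen1.2 ?_⟩
    · have := mem_cen1.1 hx.2
      rw [← a1, map_mul, map_mul, map_inv, ← hz'] at this
      calc z' * x * z'⁻¹ * ε u1E = z' * (x * (z'⁻¹ * ε u1E * z')) * z'⁻¹ := by group
        _ = _ := by rw [this]; group
    · have : x * ε (u1E * u2E) = ε (u1E * u2E) * x := by
        rw [map_mul]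
        exact (Commute.mul_right (mem_cen1.1 hx.1) (mem_cen1.1 hx.2)).eq
      rw [← a2, map_mul, map_mul, map_inv, ← hz'] at this
      calc z' * x * z'⁻¹ * ε u2E = z' * (x * (z'⁻¹ * ε u2E * z')) * z'⁻¹ := by group
        _ = _ := by rw [this]; group
  let D : Subgroup G :=
    { carrier := {a | ∃ i j : ℕ, a = z ^ i * z' ^ j}
      mul_mem' := by
        rintro _ _ ⟨i, j, rfl⟩ ⟨k, l, rfl⟩
        refine ⟨i + k, j + l, ?_⟩
        rw [pow_add, pow_add]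
        calc z ^ i * z' ^ j * (z ^ k * z' ^ l) = z ^ i * (z' ^ j * z ^ k) * z' ^ l := by group
          _ = _ := by rw [← (czz.pow_pow k j).eq]; group
      one_mem' := ⟨0, 0, by simp⟩
      inv_mem' := by
        rintro _ ⟨i, j, rfl⟩
        refine ⟨2 * i, 2 * j, inv_eq_of_mul_eq_one_right ?_⟩
        calc z ^ i * z' ^ j * (z ^ (2 * i) * z' ^ (2 * j))
            = z ^ i * (z' ^ j * z ^ (2 * i)) * z' ^ (2 * j) := by group
          _ = (z ^ 3) ^ i * (z' ^ 3) ^ j := by rw [← (czz.pow_pow (2 * i) j).eq]; group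
          _ = 1 := by rw [z3, z3']; simp }
  have zD : z ∈ D := ⟨1, 0, by simp⟩
  have z'D : z' ∈ D := ⟨0, 1, by simp⟩
  have hD : D = ⟪z⟫ ⊔ ⟪z'⟫ := le_antisymm (by
      rintro _ ⟨i, j, rfl⟩
      exact mul_mem (mem_sup_left (pow_mem (mem_zpowers z) i))
        (mem_sup_right (pow_mem (mem_zpowers z') j)))
    (sup_le (zpowers_le.2 zD) (zpowers_le.2 z'D))
  have hzz : ⟪z'⟫ ≤ C(⟪z⟫) := zpowers_le.2 (mem_cen.2 (by
    rintro _ ⟨n, rfl⟩
    exact czz.zpow_left n))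
  have abD : Ab D := hD ▸ (ab_zpowers z).sup (ab_zpowers z') hzz
  have pD : PGrp 3 D := hD ▸ pz.sup pz' (hzz.trans (centralizer_le_normalizer _))
  have ncD : ¬ Cyc D := fun hc => by
    have := hc.mem_of_pow_card (zpowers_le.2 zD) z'D (by rw [card_zpowers', oz, z3'])
    exact hi this
  have DN : D ≤ N(K) := norms_pcore _ (hD ▸ sup_le (zpowers_le.2 (le_nrm _ zC)) (zpowers_le.2 z'N))
  have pK : PiGrp {3}ᶜ K := pcore_pi _ _
  have KC : K ≤ Cu := pcore_le _ _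
  refine ⟨K ⊓ C[z'], inf_le_left.trans KC, inf_le_right, pK.inf_left _, ?_, ?_⟩
  · refine mem_nrm.2 fun x hx => ⟨mem_nrm.1 (DN zD) x hx.1, mem_cen1.2 ?_⟩
    exact ((czz.mul_left (mem_cen1.1 hx.2)).mul_left czz.inv_left).eq
  intro L l1 l2 l3 hX
  have k1 : ∀ x ∈ K, x * z * x⁻¹ ∈ D → x ∈ L := by
    intro x hx hd
    have h1 : x * z * x⁻¹ * z⁻¹ ∈ K ⊓ D := ⟨by
      have := K.mul_mem hx (mem_nrm.1 (DN zD) _ (K.inv_mem hx))
      simpa [mul_assoc] using this, D.mul_mem hd (D.inv_mem zD)⟩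
    rw [pK.inf_eq_bot' pD, mem_bot, mul_inv_eq_one] at h1
    obtain ⟨i, j, k, rfl⟩ := key x (KC hx) (mem_nrm.2 (by
      rintro _ ⟨n, rfl⟩
      exact ⟨n, by simp only [← conj_zpow, h1]⟩))
    exact mul_mem (mul_mem (pow_mem l3 i) (pow_mem l1 j)) (pow_mem l2 k)
  have k2 : ∀ x, Commute x (z * z') → x * z * x⁻¹ ∈ D := by
    intro x hx
    obtain ⟨i, j, rfl | rfl⟩ := cen_y oz czz hi h.ss h.sz h.cy hx
    · exact D.mul_mem (D.mul_mem ⟨i, j, rfl⟩ zD) (D.inv_mem ⟨i, j, rfl⟩)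
    · have : z ^ i * z' ^ j * σ * z * (z ^ i * z' ^ j * σ)⁻¹ =
          z ^ i * z' ^ j * (σ * z * σ⁻¹) * (z ^ i * z' ^ j)⁻¹ := by group
      rw [this, h.sz]
      exact D.mul_mem (D.mul_mem ⟨i, j, rfl⟩ z'D) (D.inv_mem ⟨i, j, rfl⟩)
  have ez : ε eE * z * (ε eE)⁻¹ = z := by
    rw [hz, ← map_inv, ← map_mul, ← map_mul]; congr 1; decide
  have ez' : ε eE * z' ^ 2 * (ε eE)⁻¹ = z' := by
    rw [hz', ← map_inv, ← map_pow, ← map_mul, ← map_mul]; congr 1; decide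
  have k3 : ∀ x, Commute x (z * z' ^ 2) → x * z * x⁻¹ ∈ D := by
    intro x hx
    have h1 : Commute (ε eE * x * (ε eE)⁻¹) (z * z') := by
      have := hx.map (MulAut.conj (ε eE))
      simpa only [map_mul, MulAut.conj_apply, ez, ez'] using this
    obtain ⟨i, j, e⟩ := k2 _ h1
    refine ⟨i, 2 * j, ?_⟩
    calc x * z * x⁻¹ = (ε eE)⁻¹ * (ε eE * x * (ε eE)⁻¹ * (ε eE * z * (ε eE)⁻¹) *
          (ε eE * x * (ε eE)⁻¹)⁻¹) * ε eE := by group
      _ = (ε eE)⁻¹ * ((ε eE * z * (ε eE)⁻¹) ^ i * (ε eE * z' ^ 2 * (ε eE)⁻¹) ^ j) * ε eE := by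
        rw [ez, ez', e]
      _ = _ := by rw [conj_pow, conj_pow, pow_mul]; group
  have z4 : z ^ 4 = z := by rw [pow_succ, z3, one_mul]
  have z4' : z' ^ 4 = z' := by rw [pow_succ, z3', one_mul]
  have hKL : K ≤ L := by
    refine coprime_abelian_gen_cent1 abD ncD DN (pK.cop' pD) ?_
    rintro _ ⟨i, j, rfl⟩ h1 x hx
    have h2 : Commute x (z ^ i * z' ^ j) := mem_cen1.1 hx.2
    rw [pow_eq_pow_mod i z3, pow_eq_pow_mod j z3'] at h1 h2
    have hi3 : i % 3 < 3 := Nat.mod_lt _ (by norm_num)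
    have hj3 : j % 3 < 3 := Nat.mod_lt _ (by norm_num)
    generalize i % 3 = a at *
    generalize j % 3 = b at *
    have h3 := h2.pow_right 2
    rw [(czz.pow_pow a b).mul_pow, ← pow_mul, ← pow_mul] at h3
    have kz : Commute x z → x ∈ L := fun e => k1 x hx.1 (by rw [e.eq, mul_inv_cancel_right]; exact zD)
    interval_cases a <;> interval_cases b
    · simp at h1
    · exact hX ⟨hx.1, mem_cen1.2 (by simpa using h2.eq)⟩
    · exact hX ⟨hx.1, mem_cen1.2 (by simpa [z4'] using h3.eq)⟩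
    · exact kz (by simpa using h2)
    · exact k1 x hx.1 (k2 x (by simpa using h2))
    · exact k1 x hx.1 (k3 x (by simpa using h2))
    · exact kz (by simpa [z4] using h3)
    · exact k1 x hx.1 (k3 x (by simpa [z4] using h3))
    · exact k1 x hx.1 (k2 x (by simpa [z4, z4'] using h3))
  rw [← hsd.sup]
  exact sup_le hKL (zpowers_le.2 l3)

theorem pB1 (h : SA ε σ) : (∀ g, Commute g (ε u1E) → Commute g (ε u2E) → g ∈ ε.range) ∨ ∃ ε', SB ε ε' ∧ ∀ g, Commute g (ε u1E) → Commute g (ε u2E) → g ∈ closure {ε u1E, ε u2E, ε' u1E, ε' u2E, ε zE} := by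
  obtain ⟨X, x1, x2, x3, x4, x5⟩ := pB1_red h
  have hs : σ⁻¹ = σ := inv_eq_of_mul_eq_one_right h.ss
  have sw : ∀ a b : G, σ * a * σ⁻¹ = b → σ * b * σ⁻¹ = a := fun a b e => by
    rw [← e, hs]
    calc σ * (σ * a * σ) * σ = (σ * σ) * a * (σ * σ) := by group
      _ = a := by rw [h.ss]; group
  let ψ : E35 →* G := (MulAut.conj σ).toMonoidHom.comp ε
  have hψ : ∀ t, ψ t = σ * ε t * σ⁻¹ := fun t => rfl
  have iψ : Function.Injective ψ := (MulAut.conj σ).injective.comp h.inj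
  have p1 : ψ zE = ε zE' := h.sz
  have p2 : ψ zE' = ε zE := sw _ _ h.sz
  have p3 : ψ eE = ε eE' := h.se
  have p4 : ψ eE' = ε eE := sw _ _ h.se
  have rg : ∀ x ∈ X, ∃ t, ψ t = x := by
    intro x hx
    have h1 : x * ε zE' = ε zE' * x := mem_cen1.1 (x2 hx)
    have h2 : σ⁻¹ * x * σ * ε zE * (σ⁻¹ * x * σ)⁻¹ = ε zE := by
      calc _ = σ⁻¹ * (x * (σ * ε zE * σ⁻¹)) * x⁻¹ * σ := by group
        _ = σ⁻¹ * (σ * ε zE * σ⁻¹) * σ := by rw [h.sz, h1]; group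
        _ = _ := by group
    obtain ⟨t, ht⟩ := (h.rng (σ⁻¹ * x * σ)).2 (mem_nrm.2 (by
      rintro _ ⟨n, rfl⟩
      exact ⟨n, by simp only [← conj_zpow, h2]⟩))
    exact ⟨t, by rw [hψ, ht]; group⟩
  let T := X.comap ψ
  have t20 : ∀ t ∈ T, t ^ 20 = 1 := by
    intro t ht
    have h1 : t ^ 60 = 1 := Subtype.ext (Prod.ext (pB1_d3.1 _) (pB1_d3.2 _))
    have h2 : (ψ t ^ 20) ^ 3 = 1 := by rw [← pow_mul, ← map_pow, h1, map_one]
    have h3 := (pElt_of_pow_eq_one Nat.prime_three h2).eq_one (x3.piElt (X.pow_mem ht 20))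
    exact iψ (by rw [map_pow, h3, map_one])
  have tz : ∀ t ∈ T, Commute t zE := fun t ht => iψ (by
    rw [map_mul, map_mul, p1]; exact mem_cen1.1 (x2 ht))
  have tc : ∀ t ∈ T, zE' * t * zE'⁻¹ ∈ T := fun t ht => by
    show ψ _ ∈ X
    rw [map_mul, map_mul, map_inv, p2]
    exact mem_nrm.1 x4 _ ht
  have cl := pB1_cl T t20 tz tc
  obtain ⟨tu, tv⟩ := pB1_u T tc
  have fin : ∀ φ : E35 →* G, φ zE = ε zE' → φ zE' = ε zE → φ eE = ε eE' → φ eE' = ε eE →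
      φ u1E ∈ X → φ u2E ∈ X → (∀ x ∈ X, x = 1 ∨ x = φ u1E ∨ x = φ u2E ∨ x = φ u1E * φ u2E) →
      ∃ ε', SB ε ε' ∧ ∀ g, Commute g (ε u1E) → Commute g (ε u2E) →
        g ∈ closure {ε u1E, ε u2E, ε' u1E, ε' u2E, ε zE} := by
    intro φ q1 q2 q3 q4 m1 m2 hX
    refine ⟨φ, ⟨h.inj, q1, q2, q3, q4, (mem_cen1.1 (x1 m1).1).symm, (mem_cen1.1 (x1 m2).1).symm,
      (mem_cen1.1 (x1 m1).2).symm, (mem_cen1.1 (x1 m2).2).symm⟩, fun g g1 g2 => ?_⟩
    refine x5 _ (subset_closure (by simp)) (subset_closure (by simp)) (subset_closure (by simp))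
      (fun x hx => ?_) ⟨mem_cen1.2 g1, mem_cen1.2 g2⟩
    rcases hX x hx with rfl | rfl | rfl | rfl
    · exact one_mem _
    · exact subset_closure (by simp)
    · exact subset_closure (by simp)
    · exact mul_mem (subset_closure (by simp)) (subset_closure (by simp))
  by_cases hu : u1E ∈ T ∨ u2E ∈ T ∨ u1E * u2E ∈ T
  · right
    refine fin ψ p1 p2 p3 p4 (tu hu).1 (tu hu).2 fun x hx => ?_
    obtain ⟨t, rfl⟩ := rg x hx
    rcases cl t hx with (rfl | rfl | rfl | rfl) | hv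
    · simp
    · simp
    · simp
    · simp
    · exfalso
      have h1 := (tv (by rcases hv with rfl | rfl | rfl <;> tauto)).1
      have h2 := t20 _ (T.mul_mem (tu hu).1 h1)
      revert h2; decide +kernel
  by_cases hv : pB1v1 ∈ T ∨ pB1v2 ∈ T ∨ pB1v1 * pB1v2 ∈ T
  · right
    let κ : E35 →* E35 := (MulAut.conjNormal (H := E35) (1, swap 3 4)).toMonoidHom
    have k1 : κ zE = zE := Subtype.ext (by decide)
    have k2 : κ zE' = zE' := Subtype.ext (by decide)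
    have k3 : κ eE = eE := Subtype.ext (by decide)
    have k4 : κ eE' = eE' := Subtype.ext (by decide)
    have k5 : κ u1E = pB1v1 := Subtype.ext (by decide)
    have k6 : κ u2E = pB1v2 := Subtype.ext (by decide)
    have e : ∀ t, (ψ.comp κ) t = ψ (κ t) := fun t => rfl
    refine fin (ψ.comp κ) (by rw [e, k1, p1]) (by rw [e, k2, p2]) (by rw [e, k3, p3])
      (by rw [e, k4, p4]) (by rw [e, k5]; exact (tv hv).1) (by rw [e, k6]; exact (tv hv).2)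
      fun x hx => ?_
    obtain ⟨t, rfl⟩ := rg x hx
    rw [e, e, k5, k6]
    rcases cl t hx with (rfl | hu') | (rfl | rfl | rfl)
    · simp
    · exact absurd (by rcases hu' with rfl | rfl | rfl <;> tauto) hu
    · simp
    · simp
    · simp
  · left
    intro g g1 g2
    refine x5 ε.range ⟨_, rfl⟩ ⟨_, rfl⟩ ⟨_, rfl⟩ (fun x hx => ?_) ⟨mem_cen1.2 g1, mem_cen1.2 g2⟩
    obtain ⟨t, rfl⟩ := rg x hx
    rcases cl t hx with (rfl | hu') | hv'
    · rw [map_one]; exact one_mem _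
    · exact absurd (by rcases hu' with rfl | rfl | rfl <;> tauto) hu
    · exact absurd (by rcases hv' with rfl | rfl | rfl <;> tauto) hv

end Cfsg.Agent.H12.Ae
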