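import Cfsg.Agent.H24.Cs1
import Cfsg.Agent.H8.Ito4
/-! Groups with class sizes `1, n, m, n m` (`n`, `m` coprime), I: `n` and `m` are prime powers. -/
set_option autoImplicit false
set_option linter.unusedSectionVars false
namespace Cfsg.Agent.Cm
open Cfsg Subgroup Cfsg.Agent.FT Cfsg.Agent.H28 Cfsg.Agent.H23.Ito Cfsg.Agent.Cs3
open scoped commutatorElement

variable {G : Type*} [Group G] [Finite G] {n m p q r s t : ℕ} {e f g h u v w x y z : G} {π : Set ℕ} {H K : Subgroup G}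

/-- class sizes `1, n, m, n m` -/
structure St (G : Type*) [Group G] (n m : ℕ) : Prop where
  all : ∀ x : G, x ∉ center G → C[x].index = n ∨ C[x].index = m ∨ C[x].index = n * m
  exn : ∃ x : G, C[x].index = n
  exm : ∃ x : G, C[x].index = m
  exl : ∃ x : G, C[x].index = n * m
  cop : n.Coprime m
  n1 : 1 < n
  m1 : 1 < m

theorem ne2 (h : s ≠ t) : ({s} : Set ℕ) ⊆ {t}ᶜ := by simpa using h.symm

namespace St

theorem symm (S : St G n m) : St G m n :=
  ⟨fun x hx => by rcases S.all x hx with k | k | k <;> simp [k, mul_comm], S.exm, S.exn, mul_comm n m ▸ S.exl,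
    S.cop.symm, S.m1, S.n1⟩

theorem nm (S : St G n m) : ¬ n ∣ m := fun e => S.n1.ne' (S.cop.eq_one_of_dvd e)

theorem ln (S : St G n m) : ¬ n * m ∣ n := fun e => S.symm.nm ((dvd_mul_left m n).trans e)

theorem nd (S : St G n m) (ht : t.Prime) (h : t ∣ m) : ¬ t ∣ n := fun h2 => coprime_iff_forall.1 S.cop _ ht h2 h

theorem nz (S : St G n m) (h : n ∣ C[x].index) : x ∉ center G := fun e =>
  S.n1.ne' (Nat.eq_one_of_dvd_one (cs_eq_one.2 e ▸ h))

theorem mult (S : St G n m) (h : n ∣ C[x].index) : C[x].index = n ∨ C[x].index = n * m := by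
  rcases S.all x (S.nz h) with k | k | k
  exacts [.inl k, absurd (k ▸ h) S.nm, .inr k]

theorem eqn (S : St G n m) (e : C[x].index = n) (h : C[x] ≤ C[y]) (hy : y ∉ center G) : C[y] = C[x] := by
  have d := index_dvd_of_le h
  rcases S.all y hy with k | k | k
  · exact (eqi h (e.trans k.symm)).symm
  · exact absurd (by rwa [k, e] at d) S.symm.nm
  · exact absurd (by rwa [k, e] at d) S.ln

theorem inf_idx (S : St G n m) (e : C[x].index = n) (hx : PiElt π x) (hg : PiElt πᶜ g) (hc : g ∈ C[x])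
    (hn : ¬ C[x] ≤ C[g]) : (C[x] ⊓ C[g]).index = n * m := by
  have e1 := cen_mul hx hg hc
  rcases S.mult (x := x * g) (by rw [e1, ← e]; exact index_dvd_of_le inf_le_left) with k | k
  · exact absurd (by rw [← eqi (e1.le.trans inf_le_left) (k.trans e.symm), e1]; exact inf_le_right) hn
  · rwa [e1] at k

theorem rel (e : C[x].index = n) (h : (C[x] ⊓ C[g]).index = n * m) : C[g].relIndex C[x] = m := by
  have := relIndex_mul_index (inf_le_left : C[x] ⊓ C[g] ≤ C[x])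
  rw [h, e, inf_relIndex_left, mul_comm n] at this
  exact Nat.eq_of_mul_eq_mul_right (e ▸ index_pos' _) this

theorem lea (S : St G n m) (e : C[u].index = n * m) (hu : PiElt π u) (hv : PiElt πᶜ v) (hc : v ∈ C[u]) :
    C[u] ≤ C[v] := by
  have e1 := cen_mul hu hv hc
  have d : n * m ∣ C[u * v].index := by rw [e1, ← e]; exact index_dvd_of_le inf_le_left
  rcases S.mult ((dvd_mul_right n m).trans d) with k | k
  · exact absurd (k ▸ d) S.ln
  · rw [← eqi (e1.le.trans inf_le_left) (k.trans e.symm), e1]; exact inf_le_right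

theorem pk (S : St G n m) (hs : s.Prime) (hx : PiElt {s} x) (e : C[x].index = n) (hq : q.Prime)
    (hr : r.Prime) (qr : q ≠ r) (qs : q ≠ s) (rs : r ≠ s) (hg : g ∈ C[x]) (g1 : PiElt {q} g) (g2 : ¬ C[x] ≤ C[g])
    (hh : h ∈ C[x]) (h1 : PiElt {r} h) (h2 : ¬ C[x] ≤ C[h]) : PiNat {s} m := by
  refine H29.PReg.Hy.pk (G := C[x]) (fun y hy hy' => ?_) hs fun t => ?_
  · rw [← rel e (S.inf_idx e hx (H8.Ito.piElt_coe.1 hy) y.2 (mt H8.Ito.mem_center_sub.2 hy'))]
    congr 1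
    ext z
    simp only [mem_cen1, mem_subgroupOf, Subtype.ext_iff, coe_mul]
  · by_cases h : q = t
    · exact ⟨r, hr, fun e => qr (h.trans e.symm), rs, ⟨_, hh⟩, H8.Ito.piElt_coe.2 h1, mt H8.Ito.mem_center_sub.1 h2⟩
    · exact ⟨q, hq, h, qs, ⟨_, hg⟩, H8.Ito.piElt_coe.2 g1, mt H8.Ito.mem_center_sub.1 g2⟩

theorem nc (e : C[x].index = n) (hg : g ∈ C[x]) (h : (C[x] ⊓ C[g]).index = n * m)
    (ht : t.Prime) (hd : t ∣ m) : ∃ h ∈ C[x], PiElt {t} h ∧ ¬ C[x] ≤ C[h] := by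
  by_contra! hc
  obtain ⟨T, hT⟩ := exists_syl t C[x]
  have := hT.relIndex_of_le (K := C[g]) fun y hy => sym (hc y (hT.le hy) (hT.pi.piElt hy) hg)
  rw [rel e h] at this
  exact this.not_dvd ht rfl hd

theorem inf_ne (S : St G n m) (ex : C[x].index = n) (ey : C[y].index = m) :
    ∃ t e, t.Prime ∧ e ∈ C[x] ∧ e ∈ C[y] ∧ PiElt {t} e ∧ e ∉ center G := by
  by_contra! hc
  obtain ⟨u, eu⟩ := S.exl
  have h0 : C[x] ⊓ C[y] ≤ center G := le_of_forall_pElt fun t ht e he h => hc t e ht he.1 he.2 h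
  have := H1.index_inf_of_coprime (H := C[x]) (K := C[y]) (by rw [ex, ey]; exact S.cop)
  rw [ex, ey, ← eu] at this
  exact S.nz (eu ▸ dvd_mul_right n m) (h0 ((eqi (h0.trans fun z hz => mem_cen1.2 (mem_center_iff.1 hz u).symm) this).ge
    (self_mem_cen1 u)))

theorem prim (S : St G n m) : ∃ (s : ℕ) (x : G), s.Prime ∧ PiElt {s} x ∧ C[x].index = n := by
  obtain ⟨x, e⟩ := S.exn
  by_contra! hc
  exact S.nz e.symm.dvd (mem_of_forall_constt fun s hs _ => by_contra fun h =>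
    hc s _ hs (piElt_constt _ x) (by rw [S.eqn e (cen1_le_cen1_constt _ x) h, e]))

theorem cen (S : St G n m) (ht : t.Prime) (h1 : ¬ t ∣ n) (h2 : ¬ t ∣ m) (hy : PiElt {t} y) : y ∈ center G :=
  mem_center_of_pElt ht (fun x hd => by
    by_cases hx : x ∈ center G
    · exact ht.not_dvd_one (cs_eq_one.2 hx ▸ hd)
    rcases S.all x hx with k | k | k <;> rw [k] at hd
    exacts [h1 hd, h2 hd, ((Nat.Prime.dvd_mul ht).1 hd).elim h1 h2]) hy

theorem exnc (S : St G n m) (ht : t.Prime) (h1 : t ∣ m) (h2 : ¬ t ∣ H.index) : ∃ h ∈ H, PiElt {t} h ∧ h ∉ center G := by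
  obtain ⟨y, e⟩ := S.exm
  exact pelt_out ht (h1.trans (e ▸ index_dvd_of_le fun z hz => mem_cen1.2 (mem_center_iff.1 hz y).symm)) h2

/-- noncentral `t`-elements in centralisers -/
theorem trans (ht : t.Prime) (hw : w ∈ C[x]) (w1 : PiElt {t} w) (w2 : w ∉ center G) {j k : ℕ}
    (e : C[y].index * j = C[x].index * k) (hk : ¬ t ∣ k) : ∃ v ∈ C[y], PiElt {t} v ∧ v ∉ center G := by
  have d := dvd_relIndex_of_pElt (K := center G) (le_top.trans (normalizer_eq_top _).ge) hw w1 w2 ht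
  have a := (H8.Ito.rel_center x).trans (H8.Ito.rel_center y).symm
  have b : (center G).relIndex C[y] * k = (center G).relIndex C[x] * j :=
    Nat.eq_of_mul_eq_mul_right (index_pos' C[x]) (by
      rw [mul_assoc, mul_comm k, ← e, ← mul_assoc, ← a]; ring)
  exact exists_pElt_not_mem ht (((Nat.Prime.dvd_mul ht).1 (b ▸ d.mul_right j)).resolve_right hk)

theorem one_prime (S : St G n m) (hq : q.Prime) (hr : r.Prime) (dq : q ∣ m) (dr : r ∣ m) : q = r := by
  by_contra qr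
  have np : ∀ s, ¬ PiNat {s} m := fun s h => qr ((h q hq dq).trans (h r hr dr).symm)
  obtain ⟨y0, ey0⟩ := S.exm
  have A : ∀ (s : ℕ) (x : G), PiElt {s} x → C[x].index = n →
      ∃ t g, t.Prime ∧ t ≠ s ∧ g ∈ C[x] ∧ PiElt {t} g ∧ ¬ C[x] ≤ C[g] := fun s x hx e => by
    by_contra! hc
    obtain ⟨q', hq', dq', qs⟩ : ∃ q', q'.Prime ∧ q' ∣ m ∧ q' ≠ s := by
      by_contra! h
      exact np s fun t ht hd => h t ht hd
    obtain ⟨w, w1, w2, w3⟩ := S.exnc (H := C[x]) hq' dq' (e ▸ S.nd hq' dq')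
    have e1 := S.eqn e (hc q' w hq' qs w1 w2) w3
    have ab : C[x] ≤ C(C[x]) := le_of_forall_pElt fun t ht h hh h1 => le_cen1.1 (by
      by_cases c : t = s
      · subst c
        by_contra h2
        rw [← e1] at e hh h2 hc
        obtain ⟨v, v1, v2, v3⟩ := nc e hh (S.inf_idx e w2 (h1.sub (ne2 qs.symm)) hh h2) hq' dq'
        exact v3 (hc q' v hq' qs v1 v2)
      · exact hc t h ht c hh h1)
    obtain ⟨t, f, -, f1, f2, -, f3⟩ := S.inf_ne e ey0
    have e2 := S.eqn e (le_cen1.2 (ab f1)) f3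
    have e3 := S.eqn e (le_cen1.2 (ab (e2.le (sym f2)))) (S.symm.nz ey0.symm.dvd)
    exact S.nm (by rw [← e, ← ey0, e3])
  have B : ∀ (s : ℕ) (x : G), s.Prime → PiElt {s} x → C[x].index = n →
      s ∣ m ∧ ∀ t h, t.Prime → ¬ t ∣ m → h ∈ C[x] → PiElt {t} h → C[x] ≤ C[h] := fun s x hs hx e => by
    obtain ⟨t, g, ht, ts, g1, g2, g3⟩ := A s x hx e
    have i := S.inf_idx e hx (g2.sub (ne2 ts)) g1 g3
    have one : ∀ t' h, t'.Prime → t' ≠ s → h ∈ C[x] → PiElt {t'} h → ¬ C[x] ≤ C[h] → t' = t :=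
      fun t' h ht' ts' h1 h2 h3 => by_contra fun c => np s (S.pk hs hx e ht' ht c ts' ts h1 h2 h3 g1 g2 g3)
    have two : ∀ t', t'.Prime → t' ∣ m → t' = s ∨ t' = t := fun t' ht' hd => or_iff_not_imp_left.2 fun c =>
      let ⟨v, v1, v2, v3⟩ := nc e g1 i ht' hd
      one t' v ht' c v1 v2 v3
    have both : s ∣ m ∧ t ∣ m := by
      rcases two q hq dq with a | a <;> rcases two r hr dr with b | b
      exacts [absurd (a.trans b.symm) qr, ⟨a ▸ dq, b ▸ dr⟩, ⟨b ▸ dr, a ▸ dq⟩, absurd (a.trans b.symm) qr]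
    exact ⟨both.1, fun t' h ht' hd h1 h2 => by_contra fun h3 =>
      hd (one t' h ht' (fun c => hd (c ▸ both.1)) h1 h2 h3 ▸ both.2)⟩
  obtain ⟨s, x, hs, hx, e⟩ := S.prim
  obtain ⟨p, hp, pn⟩ := Nat.exists_prime_and_dvd S.n1.ne'
  have pm := S.symm.nd hp pn
  have D : ∀ h ∈ C[x], PiElt {p} h → h ∈ center G := fun h h1 h2 => by_contra fun h3 =>
    pm (B p h hp h2 (by rw [S.eqn e ((B s x hs hx e).2 p h hp pm h1 h2) h3, e])).1
  obtain ⟨y, -, y1, y2⟩ := S.symm.exnc (H := ⊤) hp pn (by rw [index_top]; exact hp.not_dvd_one)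
  have E : ∀ u : G, y ∈ C[u] → ¬ n ∣ C[u].index := fun u hu hd => by
    obtain ⟨j, hj⟩ : ∃ j, C[x].index * j = C[u].index * 1 := by
      rcases S.mult hd with k | k
      exacts [⟨1, by rw [k, e]⟩, ⟨m, by rw [k, e, mul_one]⟩]
    obtain ⟨v, v1, v2, v3⟩ := trans hp hu y1 y2 hj hp.not_dvd_one
    exact v3 (D v v1 v2)
  have F : ∀ u : G, y ∈ C[u] → u ∉ center G → C[u].index = m := fun u hu h => by
    rcases S.all u h with k | k | k
    exacts [absurd k.symm.dvd (E u hu), k, absurd (k ▸ dvd_mul_right n m) (E u hu)]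
  have ey := F y (self_mem_cen1 y) y2
  obtain ⟨t, f, ht, f1, f2, f3, f4⟩ := S.inf_ne e ey
  have tp : t ≠ p := fun c => f4 (D f f1 (c ▸ f3))
  have le : C[y] ≤ C[f] := by_contra fun c => by
    have i := S.symm.inf_idx ey y1 (f3.sub (ne2 tp)) f2 c
    rw [← cen_mul y1 (f3.sub (ne2 tp)) f2] at i
    refine E (y * f) ?_ (i ▸ dvd_mul_left n m)
    rw [cen_mul y1 (f3.sub (ne2 tp)) f2]
    exact ⟨self_mem_cen1 y, sym f2⟩
  exact y2 (D y (sym ((S.symm.eqn ey le f4).le (sym f1))) y1)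

end St

end Cfsg.Agent.Cm
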