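import Cfsg.Agent.H24.Cs1
/-! Centreless groups with three nontrivial class sizes, II. -/
set_option autoImplicit false
set_option linter.unusedSectionVars false
namespace Cfsg.Agent.Cs3
open Cfsg Subgroup Cfsg.Agent.FT Cfsg.Agent.H28 Cfsg.Agent.H23.Ito
open scoped commutatorElement

variable {G : Type*} [Group G] [Finite G] {a b c k p q r s t : ℕ} {g h u v w x y z : G} {π : Set ℕ}
  {A H K N T Y : Subgroup G}

theorem cen_nml (h : N ⊴ ⊤) : C(N) ⊴ ⊤ := by simpa using subcent_nml h.nrm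

theorem idx_sup (hY : Hall π Y ⊤) (hn : Y ⊴ ⊤) (H : Subgroup G) : (Y ⊔ H).index = partn πᶜ H.index := by
  have h1 : PiNat πᶜ (Y ⊔ H).index := relIndex_top_right (Y ⊔ H) ▸ hY.relIndex_of_le le_sup_left
  have h2 : PiNat πᶜᶜ (H.relIndex (Y ⊔ H)) := by
    rw [compl_compl, (mulEq_of_sup (le_top.trans hn.nrm) rfl).relIndex_right]
    exact PiNat.of_dvd hY.pi (relIndex_dvd _ _)
  have h3 := relIndex_mul_index (le_sup_right : H ≤ Y ⊔ H)
  rw [← h3, mul_comm, partn_eq_of_mul h1 h2 (by rw [mul_comm, h3]; exact (index_pos' _).ne')]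

theorem hallq (hY : Hall π Y ⊤) (hn : Y ⊴ ⊤) (hs : Sol Y) (hb : PiNat π b)
    (h : ∀ u : G, u ≠ 1 → PiElt πᶜ u → C[u].index = a ∨ C[u].index = b) : Group.IsSolvable G := by
  have hT : (⊤ : Subgroup G) /ₛ Y = ⊤ := top_le_iff.1 ((quo_nrm Y).ge.trans (quo_mono Y le_top))
  refine sol_top.1 (sol_of_quo hn.nrm hs (hT ▸ sol_top.2 (H8.Ito.ito (m := partn πᶜ a) (fun x hx => Or.inl ?_)
    (Nat.lt_succ_self _))))
  obtain ⟨g, -, rfl⟩ := exists_coset x
  have m : ∀ g : G, g ∈ N(Y) := fun g => hn.nrm (mem_top g)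
  have e : coset(Y, g) = coset(Y, constt πᶜ g) := by
    nth_rw 1 [← constt_mul_compl π g]
    rw [coset_mul (m _) (m _), coset_of_mem (hY.mem_of_nml hn.nrm (mem_top _) (piElt_constt π g)), one_mul]
  rw [e] at hx ⊢
  have pu := piElt_constt πᶜ g
  generalize constt πᶜ g = u at *
  have e1 := coprime_quotient_cent1 (M := ⊤) le_top (m u) (hY.pi.coprime pu)
  rw [hT, top_inf_eq, top_inf_eq] at e1
  have e2 : C[coset(Y, u)].index = partn πᶜ C[u].index := by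
    rw [← e1, ← relIndex_top_right, ← hT, relIndex_quo (le_top.trans hn.nrm) hn.nrm, relIndex_top_right, idx_sup hY hn]
  rcases h u (fun e => hx (by rw [e, coset_one]; exact one_mem _)) pu with k | k
  · rw [e2, k]
  · exact absurd (cs_eq_one.1 (by rw [e2, k]; exact PiNat.partn_eq_one (by rwa [compl_compl]))) hx

theorem fin (hT : Hall π T ⊤) (nT : Nil T) (hK : K ⊴ ⊤) (sK : Sol K) (hA : Nil A) (h : PiNat π (K ⊔ A).index) :
    Group.IsSolvable G :=
  sol_top.1 (sol_of_quo hK.nrm sK (H1.kegel_wielandt ((hT.quo hK.nrm).mulEq_of_relIndex (quo_mono K le_top) (by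
    rwa [relIndex_quo (le_top.trans hK.nrm) hK.nrm, relIndex_top_right])) (nT.quo K) (hA.quo K)))

/-- the setting with a nontrivial normal `π'`-subgroup -/
structure KC (a b c : ℕ) (π : Set ℕ) (K : Subgroup G) : Prop where
  st : St G a b c
  nK : K ⊴ ⊤
  pK : PiGrp πᶜ K
  cK : ∀ N : Subgroup G, N ⊴ ⊤ → PiGrp πᶜ N → N ≠ ⊥ → C(N) ≤ K
  nil : Nil K
  hc : ∀ y : G, C[y].index = c → PiGrp π C[y]
  hb : PiNat π b
  ne : K ≠ ⊥

/-- the primes of `π'` dividing `|G : K|` -/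
def Sg (π : Set ℕ) (K : Subgroup G) (r : ℕ) : Prop := r.Prime ∧ r ∉ π ∧ r ∣ K.index

namespace KC

theorem out (h : KC a b c π K) (hu : PiElt πᶜ u) (h2 : u ∉ K) : C[u].index = a := by
  haveI := nml_top_iff.1 h.nK
  rcases h.st.all u (fun e => h2 (e ▸ one_mem _)) with k | k | k
  · exact k
  · exact absurd (h.cK K h.nK h.pK h.ne (le_cen1.1 (H27.le_centralizer_of_coprime_index
      (PiNat.coprime' h.pK (k ▸ h.hb))))) h2
  · exact absurd (hu.eq_one_of_mem' (h.hc u k) (mem_cen1.2 rfl) ▸ one_mem _) h2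

theorem cY (h : KC a b c π K) (h1 : O[{r}](K) ≠ ⊥) : C(O[{r}](K)) ≤ K :=
  h.cK _ (h.nK.pcore _) (h.pK.mono (pcore_le _ _)) h1

theorem AB (h : KC a b c π K) (hr : r ∉ π) (rs : r ≠ s) (hu : PiElt {r} u) (hv : PiElt {s} v) (u1 : u ∉ K) (v1 : v ∉ K)
    (e : v ∈ C[u]) : O[{r}](K) = ⊥ := by
  by_contra h2
  have pv : PiElt {r}ᶜ v := PiNat.p' hv rs.symm
  refine v1 (h.cY h2 (p_times_q hu.zpowers (pcore_pi _ _) pv.zpowers ?_ (le_top.trans (h.nK.pcore _).nrm)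
    (le_top.trans (h.nK.pcore _).nrm) ?_ (mem_zpowers v)))
  · rw [cen_zpowers]; exact zpowers_le.2 (sym e)
  · rw [cen_zpowers, cen_zpowers]
    exact inf_le_right.trans (h.st.lea (h.out (hu.pi hr) u1) hu pv e)

theorem ex (h : KC a b c π K) (hr : Sg π K r) : ∃ u, PiElt {r} u ∧ u ∉ K :=
  haveI := nml_top_iff.1 h.nK
  let ⟨u, _, h⟩ := pelt_out hr.1 hr.2.2 (H := ⊤) (by rw [index_top]; exact hr.1.not_dvd_one); ⟨u, h⟩

theorem nda (h : KC a b c π K) (hs : Sg π K s) (e : O[{s}](K) = ⊥) : ¬ s ∣ a := by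
  obtain ⟨z, z1, z2⟩ := central hs.1 (hs.2.2.trans (index_dvd_card _))
  rwa [h.out ((pElt hs.1 z1).pi hs.2.1) fun q => h.nil.pcore_ne_bot (π := {s}) ⟨hs.1, z1 ▸ orderOf_dvd_card' q⟩ rfl e] at z2

theorem key (h : KC a b c π K) (hs : Sg π K s) (e : O[{s}](K) = ⊥) (hr : Sg π K r) :
    ∃ u v : G, PiElt {r} u ∧ PiElt {s} v ∧ u ∉ K ∧ v ∉ K ∧ v ∈ C[u] := by
  haveI := nml_top_iff.1 h.nK
  obtain ⟨u, u1, u2⟩ := h.ex hr
  obtain ⟨v, v1, v2, v3⟩ := pelt_out hs.1 hs.2.2 (H := C[u]) (h.out (u1.pi hr.2.1) u2 ▸ h.nda hs e)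
  exact ⟨u, v, u1, v2, u2, v3, v1⟩

theorem one (h : KC a b c π K) (hT : Hall π T ⊤) (nT : Nil T) (hs : Sg π K s) (e : O[{s}](K) = ⊥) (hr : Sg π K r)
    (rs : r ≠ s) : Group.IsSolvable G := by
  obtain ⟨u, v, u1, v1, u2, v2, e1⟩ := h.key hs e hr
  have iu := h.out (u1.pi hr.2.1) u2
  have iv := h.out (v1.pi hs.2.1) v2
  have e2 : C[u] = C[v] := eqi (h.st.lea iu u1 (PiNat.p' v1 rs.symm) e1) (iu.trans iv.symm)
  have ab : Ab C[u] := ab_iff_forall.2 fun g hg w hw => mem_cen1.1 ((cen1_constt_inf {r} w).le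
    ⟨h.st.lea iv v1 (PiNat.p' (piElt_constt _ _) rs) (e2.le (constt_mem _ hw)) (e2.le hg),
      h.st.lea iu u1 (piElt_constt _ _) (constt_mem _ hw) hg⟩)
  refine fin hT nT h.nK h.nil.sol ab.nil fun t ht hd => by_contra fun tp => ?_
  have td : Sg π K t := ⟨ht, tp, hd.trans (index_dvd_of_le le_sup_left)⟩
  have ta : t ∣ a := iu ▸ hd.trans (index_dvd_of_le le_sup_right)
  by_cases ts : t = s
  · exact h.nda hs e (ts ▸ ta)
  · obtain ⟨u, v, u1, v1, u2, v2, e1⟩ := h.key hs e td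
    exact h.nda td (h.AB tp ts u1 v1 u2 v2 e1) ta

theorem cen (h : KC a b c π K) (hr : Sg π K r) (rs : r ≠ s) (ir : O[{r}](K) ≠ ⊥) (is : O[{s}](K) ≠ ⊥) (w1 : w ≠ 1)
    (w2 : PiElt πᶜ w) (w3 : w ∈ C(O[{s}](K))) : C[w].index = b := by
  rcases h.st.all w w1 with k | k | k
  · exfalso
    obtain ⟨u, u1, u2⟩ := h.ex hr
    obtain ⟨U, hU⟩ := exists_syl s C[u]
    have h2 : U ≤ O[{s}](K) := h.nil.le_pcore hU.pi fun v hv => by_contra fun v2 =>
      ir (h.AB hr.2.1 rs u1 (hU.pi.piElt hv) u2 v2 (hU.le hv))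
    have h3 := (pcore_pi {s} K).card_dvd_partn (le_cen1.2 w3)
    rw [card_eq_of_index (k.trans (h.out (u1.pi hr.2.1) u2).symm), ← hU.card] at h3
    have h4 := eq_of_card_le h2 (Nat.le_of_dvd (card_pos _) h3)
    exact u2 (h.cY is (le_cen1.1 (h4 ▸ hU.le)))
  · exact k
  · exact absurd (w2.eq_one_of_mem' (h.hc w k) (mem_cen1.2 rfl)) w1

theorem two (h : KC a b c π K) (hr : Sg π K r) (rs : r ≠ s) (ir : O[{r}](K) ≠ ⊥) (is : O[{s}](K) ≠ ⊥) : False := by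
  have pY := pcore_pi {s} K
  have pX := pcore_pi {r} K
  have lY := pcore_le {s} K
  have lX := pcore_le {r} K
  have c0 : O[{r}](K) ≤ C(O[{s}](K)) := by
    have : ({r} : Set ℕ) ⊆ {s}ᶜ := by simpa using rs.symm
    exact (pcore_sub this K).trans (pcore_cents' {s} K)
  have cen := fun w => h.cen (w := w) hr rs ir is
  have cY := h.cY ir
  generalize O[{s}](K) = Y at *
  generalize O[{r}](K) = X at *
  obtain ⟨z, ⟨hz, hz'⟩, z1⟩ := exists_ne_one (pY.center_ne_bot is)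
  have iz := cen z z1 (h.pK.piElt (lY hz)) hz'
  have h2 : C[z] ≤ C(X) := fun g hg => mem_cen.2 fun w hw => by
    have pw : PiElt {s}ᶜ w := PiNat.p' (pX.piElt hw) rs
    have c2 : w ∈ C[z] := sym (le_cen1.2 (c0 hw) hz)
    have e := cen_mul (pY.piElt hz) pw c2
    have i := cen _ (mul_ne (pY.piElt hz) pw c2 z1) (h.pK.piElt (mul_mem (lY hz) (lX hw))) (mul_mem hz' (c0 hw))
    have e2 : C[z * w] = C[z] := eqi (e.le.trans inf_le_left) (i.trans iz.symm)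
    have q : g ∈ C[w] := (e.le (e2.ge hg)).2
    exact mem_cen1.1 (sym q)
  have h3 := hr.2.2.trans (index_dvd_of_le (h2.trans cY))
  rw [iz] at h3
  exact hr.2.1 (h.hb r hr.1 h3)

theorem sol (h : KC a b c π K) (hT : Hall π T ⊤) (nT : Nil T) : Group.IsSolvable G := by
  by_cases two : ∃ r s, Sg π K r ∧ Sg π K s ∧ r ≠ s
  · obtain ⟨r, s, hr, hs, rs⟩ := two
    by_cases is : O[{s}](K) = ⊥
    · exact h.one hT nT hs is hr rs
    by_cases ir : O[{r}](K) = ⊥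
    · exact h.one hT nT hr ir hs rs.symm
    exact (h.two hr rs ir is).elim
  push Not at two
  obtain ⟨r, hr⟩ : ∃ r, ∀ t, Sg π K t → t = r := by
    by_cases e : ∃ r, Sg π K r
    · exact let ⟨r, hr⟩ := e; ⟨r, fun t h1 => two t r h1 hr⟩
    · exact ⟨0, fun t h1 => absurd ⟨t, h1⟩ e⟩
  obtain ⟨A, hA⟩ := exists_syl r (⊤ : Subgroup G)
  refine fin hT nT h.nK h.nil.sol hA.pi.nil fun t ht hd => by_contra fun tp => ?_
  obtain rfl := hr t ⟨ht, tp, hd.trans (index_dvd_of_le le_sup_left)⟩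
  exact (relIndex_top_right (K ⊔ A) ▸ hA.relIndex_of_le le_sup_right).not_dvd ht rfl hd

end KC

namespace St

theorem kcase (S : St G a b c) (hc : ∀ y : G, C[y].index = c → PiGrp π C[y])
    (hN : ∀ N : Subgroup G, N ⊴ ⊤ → ¬ PiGrp πᶜ N → ∃ y ∈ N, C[y].index = c) (hT : Hall π T ⊤) (nT : Nil T)
    (hb : PiNat π b) (h1 : O[πᶜ]((⊤ : Subgroup G)) ≠ ⊥) : Group.IsSolvable G := by
  have nK := pcore_nml πᶜ (⊤ : Subgroup G)
  have pK := pcore_pi πᶜ (⊤ : Subgroup G)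
  refine KC.sol ⟨S, nK, pK, fun N h1 h2 h3 => pcore_max (by_contra fun h4 => ?_) (cen_nml h1), ?_, hc, hb, h1⟩ hT nT
  · obtain ⟨y, y1, y2⟩ := hN _ (cen_nml h1) h4
    exact h3 (((hc y y2).mono (le_cen1.2 y1)).eq_bot h2)
  · obtain ⟨y, y1, y2⟩ := S.exc
    refine H5b.nil_of_semiReg (R := ⟪y⟫) (le_top.trans nK.nrm) (by rwa [Ne, zpowers_eq_bot]) (semiReg_iff.2
      fun h hh h1 v hv e => (pK.piElt hv).eq_one_of_mem' (hc y y2) ?_)
    rw [← S.eqc y2 (cen_zp hh) h1]; exact mem_cen1.2 e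

theorem b_dvd (S : St G a b c) (ey : C[y].index = c) : b ∣ #C[y] :=
  S.cop.dvd_of_dvd_mul_right (by rw [← ey, card_mul_index]; exact S.bG)

theorem caseP (S : St G a b c) (hp : p.Prime) (ey : C[y].index = c) (hy : PGrp p C[y]) : Group.IsSolvable G := by
  haveI := Fact.mk hp
  have hb : PiNat {p} b := PiNat.of_dvd hy (S.b_dvd ey)
  have pb : p ∣ b := hb.dvd_of_ne_one S.b1
  have hc : ∀ z : G, C[z].index = c → PGrp p C[z] := fun z e => by
    rw [PGrp, PiGrp, card_eq_of_index (e.trans ey.symm)]; exact hy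
  have hs : ∀ z : G, C[z].index = c → Syl p C[z] ⊤ := fun z e => syl_of_not_dvd le_top (hc z e) (by
    rw [relIndex_top_right, e]; exact coprime_iff_forall.1 S.cop p hp pb)
  have hN : ∀ N : Subgroup G, N ⊴ ⊤ → ¬ PiGrp {p}ᶜ N → ∃ z ∈ N, C[z].index = c := fun N h1 h2 => by
    obtain ⟨z, hz, z1⟩ := exists_ne_one (hy.nil.meet_center (nml_inf_of_norms' (K := C[y]) (le_top.trans h1.nrm))
      fun e => h2 (by have := (hs y ey).inf_nml' h1; rw [e] at this; simpa [PiGrp] using this.idx))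
    exact ⟨z, hz.1.1, by rw [S.eqc ey (le_cen1.2 hz.2.2) z1, ey]⟩
  obtain ⟨k, hk⟩ := hb.exists_pow (Nat.pos_of_dvd_of_pos S.bG Nat.card_pos).ne'
  have nY := pcore_nml {p} (⊤ : Subgroup G)
  have pY := pcore_pi {p} (⊤ : Subgroup G)
  have eY : O[{p}]((⊤ : Subgroup G)) = pCore p G := by rw [pcore_top, piCore_singleton hp]
  by_cases h1 : O[{p}]((⊤ : Subgroup G)) = ⊥
  · refine S.kcase hc hN (hs y ey) hy.nil hb fun e => ?_
    obtain ⟨x, x1, ex⟩ := S.exb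
    have := (H27.mem_fitting_of_index_pow (eY ▸ h1) (ex.trans hk).dvd).1
    rw [← fitting_top, fitting_eq_pcore e, h1] at this
    exact x1 this
  obtain ⟨z, hz, ez⟩ := hN _ nY fun e => h1 (pY.eq_bot e)
  have cY : C(O[{p}]((⊤ : Subgroup G))) ≤ O[{p}]((⊤ : Subgroup G)) :=
    pcore_max ((hc z ez).mono (centralizer_le (Set.singleton_subset_iff.2 hz))) (cen_nml nY)
  have h3 : ∀ u : G, u ≠ 1 → PiElt {p}ᶜ u → C[u].index = a ∨ C[u].index = b := fun u u1 hu => by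
    rcases S.all u u1 with k | k | k
    exacts [Or.inl k, Or.inr k, absurd (hu.eq_one_of_mem' (hc u k) (mem_cen1.2 rfl)) u1]
  by_cases h2 : ∃ v : G, PiElt {p} v ∧ C[v].index = a
  · obtain ⟨v, hv, ev⟩ := h2
    have pv : PGrp p C[v] := fun t ht hd => by_contra fun tp => by
      obtain ⟨u, hu, uo⟩ := exists_elt_of_prime_dvd ht hd
      have pu : PiElt {p}ᶜ u := (piElt_of_orderOf_prime ht uo).2 tp
      refine ne_one ht uo (pu.eq_one_of_mem' pY (cY (p_times_q hv.zpowers pY pu.zpowers ?_ (le_top.trans nY.nrm)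
        (le_top.trans nY.nrm) ?_ (mem_zpowers u))))
      · rw [cen_zpowers]; exact zpowers_le.2 (sym hu)
      · rw [cen_zpowers, cen_zpowers]; exact inf_le_right.trans (S.lea ev hv pu hu)
    haveI := H2.solvableRadical_characteristic (G := G)
    refine H8.Ito.sol_of_index hp hp H2.solvableRadical_isSolvable fun t ht hd => Or.inl (by_contra fun tp => ?_)
    obtain ⟨u, -, u1, u2⟩ := pelt_out ht hd (H := ⊤) (by rw [index_top]; exact ht.not_dvd_one)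
    have pu : PiElt {p}ᶜ u := PiNat.p' u1 tp
    have n1 : u ≠ 1 := fun e => u2 (e ▸ one_mem _)
    rcases h3 u n1 pu with k | k
    · refine n1 (pu.eq_one_of_mem' (H := C[u]) ?_ (mem_cen1.2 rfl))
      rw [PiGrp, card_eq_of_index (k.trans ev.symm)]; exact pv
    · exact u2 (mem_rad hp (k ▸ hb))
  push Not at h2
  refine hallq ((hs y ey).pcore_le.antisymm (fun v hv => ?_) ▸ hs y ey) nY pY.nil.sol hb h3
  have pv := hy.piElt hv
  by_cases v1 : v = 1
  · exact v1 ▸ one_mem _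
  rcases S.all v v1 with k | k | k
  · exact absurd k (h2 v pv)
  · obtain ⟨l, hl⟩ := pv.exists_pow
    exact eY ▸ H27.mem_pCore_of_index_pow hl (k.trans hk).dvd
  · exact cY (le_cen1.1 (hs v k).pcore_le)

end St

end Cfsg.Agent.Cs3
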