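import Cfsg.Agent.H24.Cm1
import Cfsg.Agent.H24.Cs2
import Cfsg.Agent.S4127
import Cfsg.Agent.GW.CC
/-! Groups with class sizes `1, n, m, n m` (`n`, `m` coprime), II: nilpotency (Camina). -/
set_option autoImplicit false
set_option linter.unusedSectionVars false
namespace Cfsg.Agent.Cm
open Cfsg Subgroup Cfsg.Agent.FT Cfsg.Agent.H28 Cfsg.Agent.H23.Ito Cfsg.Agent.Cs3
open scoped commutatorElement

variable {G : Type*} [Group G] [Finite G] {n m p q r s t : ℕ} {e f g h u v w x y z : G} {π : Set ℕ} {H K L : Subgroup G}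

theorem zc (hz : z ∈ center G) (x : G) : z ∈ C[x] := mem_cen1.2 (mem_center_iff.1 hz x).symm

theorem conj_comm (ht : t.Prime) (h : ¬ t ∣ C[x].index) (hv : PiElt {t} v) : ∃ g, v ∈ C[g * x * g⁻¹] := by
  obtain ⟨T, hT, le⟩ := exists_syl_le_of_not_dvd ht h
  obtain ⟨g, -, hg⟩ := hT.syl_elt (mem_top v) hv
  refine ⟨g⁻¹, mem_cen1.2 ?_⟩
  have := mem_cen1.1 (le hg)
  calc v * (g⁻¹ * x * g⁻¹⁻¹) = g⁻¹ * (g * v * g⁻¹ * x) * g := by group
    _ = _ := by rw [this]; group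

theorem syl_core (h : ∀ r, r.Prime → r ≠ p → ∀ v ∈ L, PiElt {r} v → L ≤ C[v]) : Syl p O[{p}](L) L :=
  GW.syl_pcore_of_npc fun r hr rp => let ⟨_, hT⟩ := exists_syl r L
    npc_of_syl_center hT (le_cen_iff_forall.2 fun v hv => h r hr rp v (hT.le hv) (hT.pi.piElt hv))

theorem pgrp_closure {s : Set G} (h : ∀ r, r.Prime → r ≠ p → ∀ v ∈ L, PiElt {r} v → L ≤ C[v])
    (hs : ∀ x ∈ s, x ∈ L ∧ PiElt {p} x) : PGrp p (closure s) :=
  (pcore_pi _ L).mono ((closure_le _).2 fun x hx => (syl_core h).mem_pcore (hs x hx).1 (hs x hx).2)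

theorem syl_of_idx (ht : t.Prime) (h : H ≤ K) {k : ℕ} (e : H.index = K.index * k) (hk : ¬ t ∣ k) :
    ∃ T, Syl t T K ∧ T ≤ H := by
  have := relIndex_mul_index h
  rw [e, mul_comm _ k] at this
  refine (p'nat_relIndex_iff h).1 fun r _ hd c => hk ?_
  rw [← Nat.eq_of_mul_eq_mul_right (index_pos' K) this]
  exact c ▸ hd

namespace St

theorem comm (S : St G n m) (ex : C[x].index = n) (ey : C[y].index = m) (h : C[x * y].index = n * m) : y ∈ C[x] := by
  have a := H1.index_inf_of_coprime (H := C[x]) (K := C[y]) (by rw [ex, ey]; exact S.cop)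
  rw [ex, ey, ← h] at a
  have b : C[x] ⊓ C[y] ≤ C[x * y] := fun g hg => sym (mul_mem (sym hg.1) (sym hg.2))
  exact (mul_mem_cancel_left (self_mem_cen1 x)).1 ((eqi b a).ge (self_mem_cen1 _)).1

theorem comm_conj (S : St G n m) (ex : C[x].index = n) (ey : C[y].index = m) (h : C[x * y].index = n * m) (g : G) :
    y ∈ C[g * x * g⁻¹] := by
  obtain ⟨c, hc⟩ := isConj_iff.1 (isConj_mul_of_coprime (x := x) (y := y) (by rw [ex, ey]; exact S.cop) g 1)
  refine S.comm ((index_cen1_conj g x).trans ex) ey ?_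
  rw [← h, ← index_cen1_conj c (x * y), hc]
  simp

theorem syl_sub (S : St G n m) (e : C[x].index = n) (h : C[u] ≤ C[x]) (ht : t.Prime) (hd : ¬ t ∣ m) :
    ∃ T, Syl t T C[x] ∧ T ≤ C[u] := by
  rcases S.mult (e ▸ index_dvd_of_le h) with k | k
  · exact syl_of_idx ht h (k := 1) (by rw [k, e, mul_one]) ht.not_dvd_one
  · exact syl_of_idx ht h (by rw [k, e]) hd

theorem syl_in (S : St G n m) (e : C[x].index = n) (hx : PiElt π x) (hg : PiElt πᶜ g) (hc : g ∈ C[x]) (ht : t.Prime)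
    (hd : ¬ t ∣ m) : ∃ T, Syl t T C[x] ∧ T ≤ C[g] :=
  let ⟨T, h1, h2⟩ := S.syl_sub e ((cen_mul hx hg hc).le.trans inf_le_left) ht hd
  ⟨T, h1, h2.trans ((cen_mul hx hg hc).le.trans inf_le_right)⟩

end St

/-- class sizes `1, p ^ a, q ^ b, p ^ a q ^ b` -/
structure PQ (G : Type*) [Group G] (n m p q : ℕ) : Prop where
  st : St G n m
  hp : p.Prime
  hq : q.Prime
  hn : PiNat {p} n
  hm : PiNat {q} m

namespace PQ

theorem symm (S : PQ G n m p q) : PQ G m n q p := ⟨S.st.symm, S.hq, S.hp, S.hm, S.hn⟩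

theorem pn (S : PQ G n m p q) : p ∣ n := S.hn.dvd_of_ne_one S.st.n1.ne'

theorem qn (S : PQ G n m p q) : ¬ q ∣ n := S.st.nd S.hq S.symm.pn

theorem pq (S : PQ G n m p q) : p ≠ q := fun e => S.qn (e ▸ S.pn)

theorem cen (S : PQ G n m p q) (ht : t.Prime) (h1 : t ≠ p) (h2 : t ≠ q) (hy : PiElt {t} y) : y ∈ center G :=
  S.st.cen ht (fun h => h1 (S.hn t ht h)) (fun h => h2 (S.hm t ht h)) hy

theorem prim (S : PQ G n m p q) (hA : ∀ x : G, PiElt {p} x → C[x].index ≠ n) :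
    ∃ x : G, PiElt {q} x ∧ C[x].index = n := by
  obtain ⟨s, x, hs, hx, e⟩ := S.st.prim
  obtain rfl : s = q := by_contra fun c => S.st.nz e.symm.dvd (S.cen hs (fun h => hA x (h ▸ hx) e) c hx)
  exact ⟨x, hx, e⟩

theorem npc (S : PQ G n m p q) (hx : PiElt {p} x) (e : C[x].index = n) : NPC p (⊤ : Subgroup G) := by
  haveI := Fact.mk S.hp
  obtain ⟨a, ha⟩ := S.hn.exists_pow (by have := S.st.n1; omega)
  refine (npc_top_iff S.hp).2 (S4127.result p a (fun y hy => ?_) ⟨x, PiNat.exists_pow hx (orderOf_pos x).ne', e.trans ha⟩)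
  have d : C[y].index ∣ n * m := by
    by_cases h : y ∈ center G
    · exact cs_eq_one.2 h ▸ one_dvd _
    rcases S.st.all y h with k | k | k <;> rw [k]
    exacts [dvd_mul_right _ _, dvd_mul_left _ _]
  have := (Nat.Coprime.pow_left (a + 1) ((Nat.Prime.coprime_iff_not_dvd S.hp).2 S.symm.qn)).dvd_of_dvd_mul_right
    (hy.trans d)
  rw [ha, Nat.pow_dvd_pow_iff_le_right S.hp.one_lt] at this
  omega

theorem npc' (S : PQ G n m p q) (hr : r.Prime) (h1 : r ≠ p) (h2 : r ≠ q) : NPC r (⊤ : Subgroup G) :=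
  let ⟨_, hT⟩ := exists_syl r (⊤ : Subgroup G)
  npc_of_syl_center hT (le_cen_iff_forall.2 fun _ hv _ _ => sym (zc (S.cen hr h1 h2 (hT.pi.piElt hv)) _))

theorem caseB (S : PQ G n m p q) (hA : ∀ x : G, PiElt {p} x → C[x].index ≠ n) (hy : PiElt {q} y)
    (ey : C[y].index = m) : False := by
  have hP : Syl p O[{p}]((⊤ : Subgroup G)) ⊤ := GW.syl_pcore_of_npc fun r hr rp => by
    by_cases c : r = q
    exacts [c ▸ S.symm.npc hy ey, S.npc' hr rp c]
  obtain ⟨x0, h0, e0⟩ := S.prim hA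
  obtain ⟨c, hc⟩ := conj_comm S.hq (e0 ▸ S.qn) hy
  have hx := h0.conj c
  have e := (index_cen1_conj c x0).trans e0
  generalize c * x0 * c⁻¹ = x at hc hx e
  obtain ⟨P, hP', le⟩ := exists_syl_le_of_not_dvd S.hp (H := C[y]) (ey ▸ S.symm.qn)
  have hM := hP.mulEq_of_relIndex' le_top (R := C[x]) (by rw [relIndex_top_right, e]; exact S.hn)
  refine not_dvd_index_of_syl_le S.hp hP (H := C[x]) (subgroupOf_eq_top.1 (jordan_cover fun w => ?_)) (e ▸ S.pn)
  obtain ⟨T, hT, hT'⟩ := S.st.symm.syl_in ey hy (((pcore_pi _ _).piElt w.2).sub (ne2 S.pq)) (le (pcore_le_syl hP' w.2))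
    S.hq S.qn
  obtain ⟨g, -, hg⟩ := hT.syl_elt (sym hc) hx
  obtain ⟨a, ha, b, hb, hab⟩ := hM.mul g⁻¹ (mem_top _)
  refine ⟨⟨b, hb⟩, mem_subgroupOf.2 (mem_cen1.2 ?_)⟩
  have h1 := mem_cen1.1 (hT' hg)
  have h2 := mem_cen1.1 ha
  have h3 : g * x * g⁻¹ = b⁻¹ * x * b := by
    rw [← inv_inv g, hab]
    calc (a * b)⁻¹ * x * (a * b)⁻¹⁻¹ = b⁻¹ * a⁻¹ * (x * a) * b := by group
      _ = _ := by rw [← h2]; group
  rw [h3] at h1
  simp only [coe_mul, coe_inv]
  calc b * w * b⁻¹ * x = b * (w * (b⁻¹ * x * b)) * b⁻¹ := by group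
    _ = _ := by rw [← h1]; group

theorem noncomm (S : PQ G n m p q) (hA : ∀ x : G, PiElt {p} x → C[x].index ≠ n)
    (hB : ∀ x : G, PiElt {q} x → C[x].index ≠ m) (lt : n < m) (hx : PiElt {q} x) (ex : C[x].index = n)
    (hy : PiElt {p} y) (ey : C[y].index = m) : y ∈ C[x] := by
  by_contra hc
  have co : C[x].index.Coprime C[y].index := by rw [ex, ey]; exact S.st.cop
  have hy' : PiElt {q}ᶜ y := hy.sub (ne2 S.pq)
  have i : C[x * y].index = m := by
    have a := cs_le_cs_mul co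
    rcases S.st.all (x * y) (fun h => by rw [cs_eq_one.2 h, ey] at a; have := S.st.m1; omega) with k | k | k
    exacts [by omega, k, absurd (S.st.comm ex ey k) hc]
  have nK : clsStab y ⊴ ⊤ := nml_top_iff.2 inferInstance
  have hK : PGrp q (clsStab y) := S.hm.of_dvd (ey ▸ card_clsStab_dvd y)
  have K1 : clsStab y ≠ ⊥ := fun h => S.st.nz ex.symm.dvd (mem_center_iff.2 fun g =>
    commutatorElement_eq_one_iff_mul_comm.1 (h.le (comm_mem_clsStab co (i.trans ey.symm).le g)))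
  have fp : ∀ k ∈ clsStab y, k ∈ C[y] → k = 1 := fun k h1 h2 => by
    obtain ⟨c, hc⟩ := isConj_iff.1 (mem_clsStab.1 h1 y (IsConj.refl y))
    rw [← constt_mul_of_pi (hK.piElt h1) hy' (mem_cen1.1 h2), ← hc, (hy'.conj c).constt_eq_one]
  generalize clsStab y = K at nK hK K1 fp
  obtain ⟨f, f1, f2, f3⟩ : ∃ f ∈ C[y], PiElt {q} f ∧ f ∉ center G := by
    obtain ⟨t, f, ht, f1, f2, f3, f4⟩ := S.st.inf_ne ex ey
    by_cases c : t = q
    · exact ⟨f, f2, c ▸ f3, f4⟩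
    obtain rfl : t = p := by_contra fun d => f4 (S.cen ht d c f3)
    obtain ⟨j, hj⟩ : ∃ j, C[y].index * j = C[f].index * 1 := by
      rcases S.st.all f f4 with k | k | k
      exacts [absurd k (hA f f3), ⟨1, by rw [k, ey]⟩, ⟨n, by rw [k, ey, mul_one, mul_comm]⟩]
    exact St.trans S.hq (sym f1) hx (S.st.nz ex.symm.dvd) hj S.hq.not_dvd_one
  rcases S.st.all f f3 with k | k | k
  · have i := S.st.inf_idx k f2 hy' (sym f1) fun h => S.st.nm (by
      rw [← k, ← ey, S.st.eqn k h (S.st.symm.nz ey.symm.dvd)])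
    rw [← cen_mul f2 hy' (sym f1)] at i
    obtain ⟨u, u1, u2⟩ := exists_ne_one K1
    have le : C[u * f] ≤ C[u] := fun g hg => by
      have a := mem_cen1.1 hg
      have b : u⁻¹ * (g * u * g⁻¹) = f * (g * f * g⁻¹)⁻¹ := by
        calc u⁻¹ * (g * u * g⁻¹) = u⁻¹ * (g * (u * f)) * f⁻¹ * g⁻¹ := by group
          _ = _ := by rw [a]; group
      have := fp _ (mul_mem (inv_mem u1) (nK.conj_mem (mem_top g) u1))
        (b ▸ mul_mem f1 (inv_mem (sym (S.st.comm_conj k ey i g))))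
      exact mem_cen1.2 (eq_mul_inv_iff_mul_eq.1 (inv_mul_eq_one.1 this)).symm
    have le' : C[u * f] ≤ C[f] := fun g hg => sym ((mul_mem_cancel_left (sym (le hg))).1 (sym hg))
    obtain ⟨T, hT, hT'⟩ := S.st.syl_sub k le' S.hp S.symm.qn
    obtain ⟨g, -, hg⟩ := hT.syl_elt (sym f1) hy
    have a := mem_cen1.1 (le (hT' hg))
    have := fp _ (nK.conj_mem (mem_top g⁻¹) u1) (mem_cen1.2 (by
      calc g⁻¹ * u * g⁻¹⁻¹ * y = g⁻¹ * (u * (g * y * g⁻¹)) * g := by group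
        _ = _ := by rw [← a]; group))
    exact u2 (conj_eq_one_iff.1 this)
  · exact hB f f2 k
  · obtain ⟨Q, hQ, le⟩ := f2.zpowers.exists_syl le_top
    obtain ⟨u, ⟨u1, u2⟩, u3⟩ := exists_ne_one (hQ.pi.nil.meet_center (nK.mono (hQ.ge_of_nml hK nK) le_top) K1)
    exact u3 (fp u u1 (S.st.lea k f2 hy' (sym f1) (cen_le_cen1 (le (mem_zpowers f)) u2.2)))

end PQ

/-- the remaining configuration -/
structure CC (G : Type*) [Group G] (n m p q : ℕ) : Prop where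
  s : PQ G n m p q
  hA : ∀ x : G, PiElt {p} x → C[x].index ≠ n
  hB : ∀ x : G, PiElt {q} x → C[x].index ≠ m
  hc : ∀ x y : G, PiElt {q} x → C[x].index = n → PiElt {p} y → C[y].index = m → y ∈ C[x]

/-- the subgroup generated by the `q`-elements of class size `n` -/
def NN (G : Type*) [Group G] (q n : ℕ) : Subgroup G := closure {x | PiElt {q} x ∧ C[x].index = n}

theorem NN_nml : NN G q n ⊴ ⊤ :=
  ⟨le_top, norms_closure fun g _ x hx => ⟨hx.1.conj g, (index_cen1_conj g x).trans hx.2⟩⟩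

namespace CC

theorem symm (S : CC G n m p q) : CC G m n q p :=
  ⟨S.s.symm, S.hB, S.hA, fun _ _ a b c d => sym (S.hc _ _ c d a b)⟩

theorem le (S : CC G n m p q) (hy : PiElt {p} y) (e : C[y].index = m) : NN G q n ≤ C[y] :=
  (closure_le _).2 fun _ hx => sym (S.hc _ _ hx.1 hx.2 hy e)

theorem claimA (S : CC G n m p q) (hw : PiElt {p} w) : ∃ x : G, PiElt {q} x ∧ C[x].index = n ∧ w ∈ C[x] := by
  obtain ⟨x, hx, ex⟩ := S.s.prim S.hA
  obtain ⟨y, hy, ey⟩ := S.s.symm.prim S.hB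
  by_cases c : w ∈ center G
  · exact ⟨x, hx, ex, zc c x⟩
  rcases S.s.st.all w c with k | k | k
  · exact absurd k (S.hA w hw)
  · exact ⟨x, hx, ex, S.hc x w hx ex hw k⟩
  obtain ⟨v, v1, v2, v3⟩ := St.trans (y := w) (j := 1) S.s.hq (sym (S.hc x y hx ex hy ey)) hx (S.s.st.nz ex.symm.dvd)
    (by rw [k, ey, mul_one, mul_comm]) S.s.qn
  rcases S.s.st.all v v3 with l | l | l
  · exact ⟨v, v2, l, sym v1⟩
  · exact absurd l (S.hB v v2)
  obtain ⟨g, hg⟩ := conj_comm S.s.hq (ex ▸ S.s.qn) v2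
  exact ⟨_, hx.conj g, (index_cen1_conj g x).trans ex,
    sym ((eqi (S.s.st.lea k hw (v2.sub (ne2 S.s.pq.symm)) v1) (k.trans l.symm)).ge (sym hg))⟩

theorem claimB (S : CC G n m p q) : PGrp q (NN G q n) ∨ PGrp p (NN G p m) := by
  refine or_iff_not_imp_right.2 fun h => ?_
  obtain ⟨r, hr, rp, v, v1, v2, v3⟩ : ∃ r, r.Prime ∧ r ≠ p ∧ ∃ v ∈ NN G p m, PiElt {r} v ∧ ¬ NN G p m ≤ C[v] := by
    by_contra! hc
    exact h (pgrp_closure hc fun x hx => ⟨subset_closure hx, hx.1⟩)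
  have v4 : v ∉ center G := fun c => v3 fun g _ => sym (zc c g)
  obtain rfl : r = q := by_contra fun c => v4 (S.s.cen hr rp c v2)
  rcases S.s.st.all v v4 with l | l | l
  · exact absurd (S.symm.le v2 l) v3
  · exact absurd l (S.hB v v2)
  · exact pgrp_closure (L := C[v]) (fun t _ c u u1 u2 => S.s.st.lea l v2 (u2.sub (ne2 c)) u1)
      fun x hx => ⟨sym (S.symm.le hx.1 hx.2 v1), hx.1⟩

theorem fin (S : CC G n m p q) (hN : PGrp q (NN G q n)) : False := by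
  have nN : NN G q n ⊴ ⊤ := NN_nml
  have mem : ∀ x : G, PiElt {q} x → C[x].index = n → x ∈ NN G q n := fun x a b => subset_closure ⟨a, b⟩
  have allq : ∀ v : G, PiElt {q} v → v ∈ C(NN G q n) := fun v hv => by
    obtain ⟨y, hy, ey, h⟩ := S.symm.claimA hv
    obtain ⟨T, hT, le⟩ := S.s.st.symm.syl_in ey hy (hv.sub (ne2 S.s.pq.symm)) h S.s.hq S.s.qn
    exact le_cen1.1 ((hT.ge_of_nml hN (nN.mono (S.le hy ey) le_top)).trans le)
  have cA := fun w => S.claimA (w := w)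
  obtain ⟨x0, h0, e0⟩ := S.s.prim S.hA
  generalize NN G q n = N at hN nN mem allq
  have iD : PiNat {p} C(N).index := relIndex_top_right C(N) ▸ piNat_relIndex_of_forall fun r hr rp v _ hv => by
    by_cases c : r = q
    · exact allq v (c ▸ hv)
    · exact le_cen1.1 fun g _ => sym (zc (S.s.cen hr rp c hv) g)
  have idx : ∀ a ∈ N, a ∉ center G → C[a].index = n := fun a ha h => by
    have d := (iD.of_dvd (index_dvd_of_le (cen_le_cen1 ha))).not_dvd' S.s.hq S.s.pq.symm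
    rcases S.s.st.all a h with k | k | k <;> rw [k] at d
    exacts [k, absurd S.s.symm.pn d, absurd (S.s.symm.pn.mul_left n) d]
  haveI := nml_top_iff.1 (cen_nml nN)
  haveI := Fact.mk S.s.hp
  obtain ⟨j, hj⟩ := iD.exists_pow (index_pos' _).ne'
  haveI : Nontrivial (G ⧸ C(N)) := QuotientGroup.nontrivial_iff.2 fun h => S.s.st.nz e0.symm.dvd
    (mem_center_iff.2 fun g => mem_cen1.1 (cen_le_cen1 (mem x0 h0 e0) (h.ge (mem_top g))))
  haveI := (IsPGroup.of_card (G := G ⧸ C(N)) hj).center_nontrivial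
  obtain ⟨⟨z, hz⟩, z1⟩ := exists_ne (1 : center (G ⧸ C(N)))
  obtain ⟨g0, rfl⟩ := QuotientGroup.mk_surjective z
  obtain ⟨P, hP⟩ := exists_syl p (⊤ : Subgroup G)
  obtain ⟨w, w1, d, hd, rfl⟩ := (hP.mulEq_of_relIndex le_top (relIndex_top_right C(N) ▸ iD)).mul g0 (mem_top _)
  have ew : ((w * d : G) : G ⧸ C(N)) = w := QuotientGroup.mk_mul_of_mem w hd
  simp only [ne_eq, Subtype.ext_iff, ew, OneMemClass.coe_one, QuotientGroup.eq_one_iff] at z1
  rw [ew] at hz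
  have hw := hP.pi.piElt w1
  have cw : ∀ g : G, g * w * g⁻¹ * w⁻¹ ∈ C(N) := fun g => (QuotientGroup.eq_one_iff _).1 (by
    simp only [QuotientGroup.mk_mul, QuotientGroup.mk_inv, mem_center_iff.1 hz g]
    group)
  have key : ∀ a ∈ N, w ∉ C[a] → C[⁅a, w⁆] = C[a] := fun a ha h => by
    refine S.s.st.eqn (idx a ha fun c => h (sym (zc c w))) (fun g hg => mem_cen1.2 ?_) fun c => h (mem_cen1.2 ?_)
    · have h1 := mem_cen1.1 hg
      have h2 := mem_cen.1 (cw g) _ (nN.conj_mem (mem_top w) (inv_mem ha))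
      have h3 : g * a⁻¹ * g⁻¹ = a⁻¹ := by
        calc g * a⁻¹ * g⁻¹ = a⁻¹ * (a * g) * a⁻¹ * g⁻¹ := by group
          _ = _ := by rw [← h1]; group
      rw [commutatorElement_def]
      calc g * (a * w * a⁻¹ * w⁻¹) = g * a * g⁻¹ * ((g * w * g⁻¹ * w⁻¹) * (w * (g * a⁻¹ * g⁻¹) * w⁻¹)) *
            (g * w * g⁻¹ * w⁻¹)⁻¹ * g := by group
        _ = _ := by rw [h3, ← h2, h1]; group
    · exact (commute_of_mod_center c (by rw [pow_orderOf_eq_one]; exact one_mem _)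
        (by rw [pow_orderOf_eq_one]; exact one_mem _) ((hN.piElt ha).coprime (hw.sub (ne2 S.s.pq)))).symm
  obtain ⟨x, hx, ex, h1⟩ := cA w hw
  obtain ⟨a, ha, h2⟩ : ∃ a ∈ N, w ∉ C[a] := by
    by_contra! hc
    exact z1 (mem_cen.2 fun a ha => (mem_cen1.1 (hc a ha)).symm)
  have h3 : ⁅a * x, w⁆ = ⁅a, w⁆ := by
    rw [commutatorElement_def, commutatorElement_def]
    calc a * x * w * (a * x)⁻¹ * w⁻¹ = a * (x * w) * x⁻¹ * a⁻¹ * w⁻¹ := by group
      _ = _ := by rw [← mem_cen1.1 h1]; group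
  have h4 := key _ (mul_mem ha (mem x hx ex)) fun c => h2 (sym ((mul_mem_cancel_right (sym h1)).1 (sym c)))
  rw [h3, key a ha h2] at h4
  exact h2 ((S.s.st.eqn (idx a ha fun c => h2 (sym (zc c w)))
    (fun g hg => sym ((mul_mem_cancel_left (sym hg)).1 (sym (h4.le hg)))) (S.s.st.nz ex.symm.dvd)).le h1)

end CC

theorem PQ.nil (S : PQ G n m p q) : Nil (⊤ : Subgroup G) := by
  by_cases hA : ∃ x : G, PiElt {p} x ∧ C[x].index = n <;> by_cases hB : ∃ x : G, PiElt {q} x ∧ C[x].index = m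
  · obtain ⟨x, hx, ex⟩ := hA
    obtain ⟨y, hy, ey⟩ := hB
    refine nil_of_forall_pcore fun t _ _ => GW.syl_pcore_of_npc fun r hr _ => ?_
    by_cases c : r = p
    · exact c ▸ S.npc hx ex
    by_cases d : r = q
    exacts [d ▸ S.symm.npc hy ey, S.npc' hr c d]
  · obtain ⟨x, hx, ex⟩ := hA
    exact (S.symm.caseB (fun y a b => hB ⟨y, a, b⟩) hx ex).elim
  · obtain ⟨x, hx, ex⟩ := hB
    exact (S.caseB (fun y a b => hA ⟨y, a, b⟩) hx ex).elim
  have hA' : ∀ x : G, PiElt {p} x → C[x].index ≠ n := fun y a b => hA ⟨y, a, b⟩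
  have hB' : ∀ x : G, PiElt {q} x → C[x].index ≠ m := fun y a b => hB ⟨y, a, b⟩
  have T : CC G n m p q := ⟨S, hA', hB', fun x y a b c d => by
    rcases lt_trichotomy n m with h | h | h
    exacts [S.noncomm hA' hB' h a b c d, absurd h.dvd S.st.nm, sym (S.symm.noncomm hB' hA' h c d a b)]⟩
  exact (T.claimB.elim T.fin T.symm.fin).elim

theorem St.main (S : St G n m) : Group.IsNilpotent G ∧ IsPrimePow n ∧ IsPrimePow m := by
  have key : ∀ {n m : ℕ}, St G n m → ∃ q, q.Prime ∧ PiNat {q} m ∧ IsPrimePow m := fun {n m} S => by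
    obtain ⟨q, hq, d⟩ := Nat.exists_prime_and_dvd S.m1.ne'
    have h : PiNat {q} m := fun t ht hd => S.one_prime ht hq hd d
    obtain ⟨k, hk⟩ := h.exists_pow (by have := S.m1; omega)
    refine ⟨q, hq, h, q, k, hq.prime, Nat.pos_of_ne_zero fun e => S.m1.ne' (by rw [hk, e, pow_zero]), hk.symm⟩
  obtain ⟨q, hq, h1, h2⟩ := key S
  obtain ⟨p, hp, h3, h4⟩ := key S.symm
  exact ⟨nil_top.1 (PQ.nil ⟨S, hp, hq, h3, h1⟩), h4, h2⟩

end Cfsg.Agent.Cm
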