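import Cfsg.Agent.H23.Ito1
/-! A conjugacy class on which an abelian self-centralising subgroup acts regularly (non-simple version of
`H23.reg_class`). -/
set_option autoImplicit false
set_option linter.unusedSectionVars false
namespace Cfsg.Agent.Cs3
open Cfsg Cfsg.Agent.FT Cfsg.Agent.H6 Cfsg.Agent.H23 Subgroup

variable {G : Type*} [Group G]

theorem reg_class' [Finite G] {H Q : Subgroup G} {x : G} (hmin : ∀ N : Subgroup G, N.Normal → N ≠ ⊥ → H ≤ N) (hH : Ab H)
    (hc : ∀ h ∈ H, h ≠ 1 → C[h] ≤ H) (hQ : Q ≤ H) (hQ1 : Q ≠ ⊥) (hQ2 : ¬ H ≤ Q) (hQn : N(H) ≤ N(Q))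
    (hx : x ∉ center G) (hm : ∀ g, ∃ a ∈ C[x], ∃ b ∈ H, g = a * b) (hi : C[x] ⊓ H = ⊥) {g : G}
    (hg : g⁻¹ * x * g ∈ C[x]) : g ∈ C[x] := by
  classical
  have := Fintype.ofFinite G
  have := Fintype.ofFinite (IrrCharacter G)
  have hN : H ≤ N(H) := le_nrm H
  have hcm : ∀ a b : H, a * b = b * a := fun a b => Subtype.ext (hH.comm a.2 b.2)
  have hπ : IsCharacter G (indFun C[x] fun _ => 1) := isCharacter_indFun _ isCharacter_one
  obtain ⟨a, ha, hs⟩ := isCharacter_exists_mult hπ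
  choose m hm' using fun (ψ : IrrCharacter G) (l : IrrCharacter H) =>
    classInner_nat (isCharacter_restrict H (isCharacter_of_irr ψ.2)) (isCharacter_of_irr l.2)
  have hreg : (fun h : H => indFun C[x] (fun _ => 1) h) = regChar H := by
    have : ∀ L : Subgroup H, L = ⊥ → indFun L (fun _ => 1) = regChar H := by
      rintro _ rfl; exact indFun_bot
    rw [← this (C[x].subgroupOf H) (subgroupOf_eq_bot.2 (disjoint_iff.2 hi))]
    exact funext fun k => indFun_restrict_of_mul _ H hm (isClassFunction_const 1) k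
  have hS : ∀ l, ∑ ψ, a ψ * m ψ l = 1 := fun l => by
    have h1 := classInner_regChar_left (l : H → ℂ)
    have h2 : regChar H = ∑ ψ : IrrCharacter G, (a ψ : ℂ) • fun h : H => (ψ : G → ℂ) h := by
      rw [← hreg, hs]; funext h; simp
    rw [isIrr_degree_one_of_comm hcm l.2, map_one, h2, classInner_sum_left] at h1
    simp only [classInner_smul_left, hm'] at h1
    exact_mod_cast h1
  choose c hc1 hc2 using fun l => exists_of_sum_eq_one (hS l)
  have hca : ∀ l, a (c l) = 1 := fun l => Nat.eq_one_of_mul_eq_one_right (hc1 l)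
  have hcm1 : ∀ l, m (c l) l = 1 := fun l => Nat.eq_one_of_mul_eq_one_left (hc1 l)
  have hu : ∀ ψ l, a ψ ≠ 0 → m ψ l ≠ 0 → ψ = c l := fun ψ l h1 h2 => by_contra fun e =>
    mul_ne_zero h1 h2 (hc2 l ψ e)
  let o : IrrCharacter G := ⟨fun _ => 1, isIrr_one⟩
  let i : IrrCharacter H := ⟨fun _ => 1, isIrr_one⟩
  have ao : a o = 1 := by
    have := ha o
    rw [classInner_indFun_left _ _ (isClassFunction_of_irr o.2)] at this
    exact_mod_cast this.symm.trans classInner_one_one
  have ci : c i = o := (hu o i (by omega) fun e => by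
    have := (hm' o i).symm.trans classInner_one_one
    rw [e] at this; simp at this).symm
  have co : ∀ l, l ≠ i → c l ≠ o := fun l hl e => by
    have h1 := hm' o l
    rw [← e, hcm1, e] at h1
    exact hl (Subtype.ext (irr_eq_of_classInner_ne_zero isIrr_one l.2 (h1.trans_ne (by simp))).symm)
  have : (H.subgroupOf N(H)).Normal := normal_in_normalizer
  let θ : IrrCharacter H → N(H) → ℂ := fun l =>
    indFun (H.subgroupOf N(H)) fun y => (l : H → ℂ) ⟨(y : N(H)), mem_subgroupOf.mp y.2⟩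
  have hl' : ∀ l : IrrCharacter H, IsIrrCharacter (H.subgroupOf N(H))
      fun y => (l : H → ℂ) ⟨(y : N(H)), mem_subgroupOf.mp y.2⟩ := fun l =>
    isIrr_comp_equiv (subgroupOfEquivOfLe hN) l.2
  have hθ : ∀ l, l ≠ i → IsIrrCharacter N(H) (θ l) := fun l hl =>
    isIrr_indFun_of_centralizer_le (H.subgroupOf N(H)) (fun k hk k1 y e => hc k hk (fun e => k1 (Subtype.ext e))
      (mem_cen1.2 (congrArg Subtype.val e))) (hl' l) fun e =>
        hl (Subtype.ext (funext fun y => congrFun e ⟨⟨y, hN y.2⟩, y.2⟩))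
  have hθc : ∀ l l', IsClassFunction N(H) (θ l - θ l') := fun l l' =>
    isClassFunction_sub (isClassFunction_indFun _ _) (isClassFunction_indFun _ _)
  have hθ0 : ∀ l l' (y : N(H)), (y : G) ∉ (H : Set G) → (θ l - θ l') y = 0 := fun l l' y hy => by
    simp only [θ, Pi.sub_apply]
    rw [indFun_of_not_mem_normal (H.subgroupOf N(H)) _ hy, indFun_of_not_mem_normal (H.subgroupOf N(H)) _ hy, sub_zero]
  have hθ1 : ∀ l l', (θ l - θ l') 1 = 0 := fun l l' => by
    simp only [θ, Pi.sub_apply, indFun_one]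
    exact sub_eq_zero.2 (congrArg _ ((isIrr_degree_one_of_comm hcm l.2).trans (isIrr_degree_one_of_comm hcm l'.2).symm))
  have hn : ∀ l l', classInner (indFun N(H) (θ l - θ l')) (indFun N(H) (θ l - θ l')) =
      classInner (θ l - θ l') (θ l - θ l') := fun l l' =>
    classInner_indFun_of_TI _ H (fun y hy t ht e => by_contra fun t1 => hy (cj_eq_self.1 (by
      rw [← le_antisymm (hc t ht t1) (hH.le_cen1 ht), cj_cen1]
      refine (le_antisymm (hc _ e fun e' => t1 (by simpa using e')) (hH.le_cen1 e)).trans ?_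
      exact le_antisymm (hH.le_cen1 ht) (hc t ht t1)))) (hθc l l') (hθ0 l l') (hθ0 l l') (hθ1 l l')
  have hin : ∀ l l' (ψ : IrrCharacter G), classInner (indFun N(H) (θ l - θ l')) ψ = m ψ l - m ψ l' := fun l l' ψ => by
    have k : ∀ l : IrrCharacter H, classInner (indFun N(H) (θ l)) ψ = m ψ l := fun l => by
      rw [indFun_subgroupOf H N(H) hN, classInner_indFun_left _ _ (isClassFunction_of_irr ψ.2), ← conj_classInner, hm',
        map_natCast]
    rw [indFun_sub, classInner_sub_left, k, k]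
  have hA : ∀ l l', l ≠ i → l' ≠ i → c l ≠ c l' → indFun N(H) (θ l - θ l') = c l - c l' := fun l l' hl hl' e => by
    have z1 : m (c l) l' = 0 := by_contra fun z => e (hu _ _ (by rw [hca]; omega) z)
    have z2 : m (c l') l = 0 := by_contra fun z => e (hu _ _ (by rw [hca]; omega) z).symm
    have i1 := hin l l' (c l)
    have i2 := hin l l' (c l')
    rw [hcm1, z1, Nat.cast_one, Nat.cast_zero, sub_zero] at i1
    rw [hcm1, z2, Nat.cast_one, Nat.cast_zero, zero_sub] at i2
    have ne : θ l ≠ θ l' := fun z => by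
      rw [z, sub_self, indFun_zero, classInner_zero_left] at i1; exact zero_ne_one i1
    obtain ⟨α, β, hα, hβ, -, e'⟩ := exists_sub_of_norm_two (isGen_indFun _ (isGen_sub
      (isGen_of_irr (hθ l hl)) (isGen_of_irr (hθ l' hl')))) (by
        rw [hn, classInner_sub_left, classInner_sub_right, classInner_sub_right, classInner_irr_self (hθ l hl),
          classInner_irr_self (hθ l' hl'), classInner_irr_of_ne (hθ l hl) (hθ l' hl') ne,
          classInner_irr_of_ne (hθ l' hl') (hθ l hl) ne.symm]; norm_num) (by rw [indFun_one, hθ1, mul_zero])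
    rw [e'] at i1 i2 ⊢
    rw [eq_of_sub_irr hα hβ (c l).2 i1, eq_of_sub_irr hβ hα (c l').2 (by
      rw [← neg_sub, classInner_neg_left, i2, neg_neg])]
  have : (Q.subgroupOf H).Normal := ⟨fun n hn y => by rwa [hcm y, mul_inv_cancel_right]⟩
  obtain ⟨h, hh, hhQ⟩ := SetLike.not_le_iff_exists.1 hQ2
  obtain ⟨l₀, hl₀, hk, hk'⟩ : ∃ χ, IsIrrCharacter H χ ∧ Q.subgroupOf H ≤ charKer χ ∧ ⟨h, hh⟩ ∉ charKer χ := by
    by_contra! e
    exact hhQ (mem_of_forall_irr_charKer (Q.subgroupOf H) e)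
  let l : IrrCharacter H := ⟨l₀, hl₀⟩
  have hl : l ≠ i := fun e => hk' (by rw [show l₀ = fun _ => 1 from congrArg Subtype.val e, charKer_one]; trivial)
  have kb : charKer (c l : G → ℂ) = ⊥ := by_contra fun e => hk' (charKer_le_of_constituent
    (isCharacter_restrict H (isCharacter_of_irr (c l).2)) hl₀ ((hm' (c l) l).trans_ne (by rw [hcm1]; simp))
    ((charKer_restrict H (isCharacter_of_irr (c l).2)).ge
      (hmin _ (charKer_normal (isClassFunction_of_irr (c l).2)) e hh)))
  have hB : ∀ l', l' ≠ i → c l' = c l := fun l' hl'' => by_contra fun e => hQ1 (eq_bot_iff.2 fun q hq => kb.le (by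
    refine mem_subgroupOf.1 ((charKer_restrict H (isCharacter_of_irr (c l).2)).le
      (mem_charKer_of_forall_constituent (g := ⟨q, hQ hq⟩)
        (isClassFunction_restrict H (isClassFunction_of_irr (c l).2)) fun ψ hψ e' => ?_))
    have e1 : c l = c ⟨ψ, hψ⟩ := hu _ _ (by rw [hca]; omega) fun z => e' ((hm' _ ⟨ψ, hψ⟩).trans (by rw [z]; simp))
    have e2 : (⟨ψ, hψ⟩ : IrrCharacter H) ≠ i := fun z => co l hl (by rw [e1, z, ci])
    have e3 : θ ⟨ψ, hψ⟩ - θ l = 0 := by
      rw [← classInner_self_eq_zero, ← hn, ← sub_sub_sub_cancel_right _ _ (θ l'), indFun_sub,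
        hA _ _ e2 hl'' (e1 ▸ Ne.symm e), hA _ _ hl hl'' (Ne.symm e), ← e1, sub_self, classInner_zero_left]
    have e4 : (⟨q, hN (hQ hq)⟩ : N(H)) ∈ charKer (θ l) :=
      (mem_charKer_indFun_iff _ (isCharacter_of_irr (hl' l)) (isIrr_one_ne_zero (hl' l) :)).2 fun y =>
        ⟨hQ (conj_mem (hQn y.2) hq), (mem_charKer_iff_irr (hl' l)).2
          ((mem_charKer_iff_irr hl₀).1 (hk (conj_mem (hQn y.2) hq)))⟩
    rw [← sub_eq_zero.1 e3] at e4
    obtain ⟨hy, e5⟩ := (mem_charKer_indFun_iff _ (isCharacter_of_irr (hl' _)) (isIrr_one_ne_zero (hl' ⟨ψ, hψ⟩) :)).1 e4 1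
    refine (mem_charKer_iff_irr hψ).2 (Eq.trans (congrArg ψ (Subtype.ext ?_)) ((mem_charKer_iff_irr (hl' _)).1 e5))
    simp))
  have hv : ∀ y, indFun C[x] (fun _ => 1) y = 1 + (c l : G → ℂ) y := fun y => by
    rw [hs, Finset.sum_apply, Fintype.sum_eq_add o (c l) (co l hl).symm fun ψ hψ => ?_, ao, hca]
    · simp [o]
    by_cases z : a ψ = 0
    · simp [z]
    obtain ⟨χ, hχ, e⟩ := exists_irr_constituent (isCharacter_restrict H (isCharacter_of_irr ψ.2))
      fun e => isIrr_one_ne_zero ψ.2 (congrFun e 1)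
    have e1 := hu ψ ⟨χ, hχ⟩ z fun z => e ((hm' _ ⟨χ, hχ⟩).trans (by rw [z]; simp))
    by_cases e2 : (⟨χ, hχ⟩ : IrrCharacter H) = i
    · exact absurd (by rw [e1, e2, ci]) hψ.1
    · exact absurd (e1.trans (hB _ e2)) hψ.2
  obtain ⟨n, -, hn1⟩ := isIrr_degree (c l).2
  have hd : C[x].index = n + 1 := by
    have := hv 1
    rw [indFun_one, hn1, mul_one, add_comm] at this
    exact_mod_cast this
  have h0 := (eq_zero_or_mem_charCenter_of_coprime (c l).2 hn1 (g := x) (by
    rw [show (centralizer {x}).index = n + 1 from hd]; simp)).resolve_right (by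
      rwa [charCenter_eq_center (c l).2 kb])
  have h1 := hv x
  rw [h0, add_zero, indFun_const_one, inv_mul_eq_one₀ (card_ne_zero_complex _), Nat.cast_inj] at h1
  refine (Set.eq_of_subset_of_ncard_le (s := {y | y ∈ C[x]}) (t := {y | y⁻¹ * x * y ∈ C[x]}) (fun y hy => ?_)
    h1.ge).ge hg
  exact mul_mem (mul_mem (inv_mem hy) (mem_cen1.2 rfl)) hy

end Cfsg.Agent.Cs3
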