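import Cfsg.Agent.H23.Ito2
import Cfsg.Agent.H29.PReg
import Cfsg.Agent.H8.Ito3
import Cfsg.Agent.H28.Cls2
/-! Centreless groups with three nontrivial class sizes, I. -/
set_option autoImplicit false
set_option linter.unusedSectionVars false
namespace Cfsg.Agent.Cs3
open Cfsg Subgroup Cfsg.Agent.FT Cfsg.Agent.H28 Cfsg.Agent.H23.Ito
open scoped commutatorElement

variable {G : Type*} [Group G] [Finite G] {a b c k p q r s t : ℕ} {g h u v w x y z : G} {π : Set ℕ} {H K : Subgroup G}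

/-- class sizes `1, a, b, c` with `b ∣ a` -/
structure St (G : Type*) [Group G] (a b c : ℕ) : Prop where
  z : center G = ⊥
  all : ∀ x : G, x ≠ 1 → C[x].index = a ∨ C[x].index = b ∨ C[x].index = c
  exa : ∃ x : G, x ≠ 1 ∧ C[x].index = a
  exb : ∃ x : G, x ≠ 1 ∧ C[x].index = b
  exc : ∃ x : G, x ≠ 1 ∧ C[x].index = c
  dvd : b ∣ a
  ne : b ≠ a

theorem pelt_out [K.Normal] (ht : t.Prime) (h1 : t ∣ K.index) (h2 : ¬ t ∣ H.index) : ∃ h ∈ H, PiElt {t} h ∧ h ∉ K := by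
  obtain ⟨T, hT, hle⟩ := exists_syl_le_of_not_dvd ht h2
  obtain ⟨h, hh, h3⟩ := SetLike.not_le_iff_exists.1 fun e : T ≤ K =>
    (relIndex_top_right K ▸ hT.relIndex_of_le e).not_dvd ht rfl h1
  exact ⟨h, hle hh, hT.pi.piElt hh, h3⟩

theorem card_eq_of_index (h : H.index = K.index) : #H = #K :=
  Nat.eq_of_mul_eq_mul_right (index_pos' K) (by rw [card_mul_index K, ← h, card_mul_index H])

theorem mem_rad (hp : p.Prime) (h : PiNat {p} C[x].index) : x ∈ solvableRadical G := by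
  obtain ⟨k, hk⟩ := h.exists_pow (index_pos' _).ne'
  exact H2.le_solvableRadical (H27.kazarin hp hk.dvd) (subset_normalClosure rfl)

theorem cen_mul (hx : PiElt π x) (hy : PiElt πᶜ y) (hc : y ∈ C[x]) : C[x * y] = C[x] ⊓ C[y] := by
  have e := (mem_cen1.1 hc).symm
  rw [← cen1_constt_inf π (x * y), constt_mul_of_pi hx hy e, constt_mul_of_pi' hx hy e]

theorem mul_ne (hx : PiElt π x) (hy : PiElt πᶜ y) (hc : y ∈ C[x]) (h1 : x ≠ 1) : x * y ≠ 1 := fun e =>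
  h1 (by rw [← constt_mul_of_pi hx hy (mem_cen1.1 hc).symm, e, constt_one])

namespace St

theorem ne1 (S : St G a b c) (hx : x ≠ 1) : C[x].index ≠ 1 := fun e => hx (S.z.le (cs_eq_one.1 e))

theorem b1 (S : St G a b c) : b ≠ 1 := let ⟨_, h, e⟩ := S.exb; e ▸ S.ne1 h

theorem c1 (S : St G a b c) : c ≠ 1 := let ⟨_, h, e⟩ := S.exc; e ▸ S.ne1 h

theorem bG (S : St G a b c) : b ∣ Nat.card G := let ⟨_, _, e⟩ := S.exb; e ▸ index_dvd_card _

theorem cG (S : St G a b c) : c ∣ Nat.card G := let ⟨_, _, e⟩ := S.exc; e ▸ index_dvd_card _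

theorem cop (S : St G a b c) : b.Coprime c := coprime_iff_forall.2 fun p hp h1 h3 => by
  obtain ⟨z, zp, hz⟩ := central hp (h1.trans S.bG)
  rcases S.all z (ne_one hp zp) with e | e | e <;> rw [e] at hz
  exacts [hz (h1.trans S.dvd), hz h1, hz h3]

theorem bc (S : St G a b c) : ¬ b ∣ c := fun e => S.b1 (S.cop.eq_one_of_dvd e)

theorem cb (S : St G a b c) : ¬ c ∣ b := fun e => S.c1 (S.cop.symm.eq_one_of_dvd e)

theorem ab (S : St G a b c) : ¬ a ∣ b := fun e => S.ne (Nat.dvd_antisymm S.dvd e)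

theorem bnc (S : St G a b c) : b ≠ c := fun e => S.bc (e ▸ dvd_rfl)

theorem Ma (S : St G a b c) : Mx G a := fun y hy e => by
  rcases S.all y hy with k | k | k <;> rw [k] at e ⊢
  exacts [absurd e S.ab, absurd (S.dvd.trans e) S.bc]

theorem mb (S : St G a b c) : Mn G b := fun y hy e => by
  rcases S.all y hy with k | k | k <;> rw [k] at e ⊢
  exacts [absurd e S.ab, absurd e S.cb]

theorem mc (S : St G a b c) : Mn G c := fun y hy e => by
  rcases S.all y hy with k | k | k <;> rw [k] at e ⊢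
  exacts [absurd (S.dvd.trans e) S.bc, absurd e S.bc]

theorem eqb (S : St G a b c) (e : C[x].index = b) (h : C[x] ≤ C[y]) (h1 : y ≠ 1) : C[y] = C[x] :=
  Mn.eq (e ▸ S.mb) h h1

theorem eqc (S : St G a b c) (e : C[x].index = c) (h : C[x] ≤ C[y]) (h1 : y ≠ 1) : C[y] = C[x] :=
  Mn.eq (e ▸ S.mc) h h1

theorem lea (S : St G a b c) (e : C[u].index = a) (hu : PiElt π u) (hv : PiElt πᶜ v) (hc : v ∈ C[u]) : C[u] ≤ C[v] :=
  Mx.le (e ▸ S.Ma) hu hv (fun h => S.b1 (Nat.eq_one_of_dvd_one (by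
    have := S.dvd; rwa [← e, h, cs_eq_one.2 (one_mem _)] at this))) hc

theorem cenb (S : St G a b c) (hp : p.Prime) (hd : p ∣ b) : ∃ y : G, orderOf y = p ∧ C[y].index = c := by
  obtain ⟨y, yp, hy⟩ := central hp (hd.trans S.bG)
  rcases S.all y (ne_one hp yp) with k | k | k <;> rw [k] at hy
  exacts [absurd (hd.trans S.dvd) hy, absurd hd hy, ⟨y, yp, k⟩]

theorem symm (S : St G a b c) (h : c ∣ a) : St G a c b :=
  ⟨S.z, fun x hx => by rcases S.all x hx with k | k | k <;> simp [k], S.exa, S.exc, S.exb, h,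
    fun e => S.bc (e ▸ S.dvd)⟩

theorem inf_idx (S : St G a b c) (e : C[x].index = b) (hx : PiElt π x) (hg : PiElt πᶜ g) (hc : g ∈ C[x])
    (hn : ¬ C[x] ≤ C[g]) : (C[x] ⊓ C[g]).index = a := by
  have x1 : x ≠ 1 := fun h => S.b1 (by rw [← e, h, cs_eq_one.2 (one_mem _)])
  have e1 := cen_mul hx hg hc
  have d : b ∣ C[x * g].index := by rw [e1, ← e]; exact index_dvd_of_le inf_le_left
  rcases S.all _ (mul_ne hx hg hc x1) with k | k | k
  · rwa [e1] at k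
  · exact absurd (by rw [← eqi (e1.le.trans inf_le_left) (k.trans e.symm), e1]; exact inf_le_right) hn
  · exact absurd (k ▸ d) S.bc

theorem rel (S : St G a b c) (hk : a = k * b) (e : C[x].index = b) (h : (C[x] ⊓ C[g]).index = a) :
    C[g].relIndex C[x] = k := by
  have := relIndex_mul_index (inf_le_left : C[x] ⊓ C[g] ≤ C[x])
  rw [h, e, hk, inf_relIndex_left] at this
  exact Nat.eq_of_mul_eq_mul_right (e ▸ index_pos' _) this

theorem pk (S : St G a b c) (hk : a = k * b) (hs : s.Prime) (hx : PiElt {s} x) (e : C[x].index = b) (hq : q.Prime)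
    (hr : r.Prime) (qr : q ≠ r) (qs : q ≠ s) (rs : r ≠ s) (hg : g ∈ C[x]) (g1 : PiElt {q} g) (g2 : ¬ C[x] ≤ C[g])
    (hh : h ∈ C[x]) (h1 : PiElt {r} h) (h2 : ¬ C[x] ≤ C[h]) : PiNat {s} k := by
  refine H29.PReg.Hy.pk (G := C[x]) (fun y hy hy' => ?_) hs fun t => ?_
  · rw [← S.rel hk e (S.inf_idx e hx (H8.Ito.piElt_coe.1 hy) y.2 (mt H8.Ito.mem_center_sub.2 hy'))]
    congr 1
    ext z
    simp only [mem_cen1, mem_subgroupOf, Subtype.ext_iff, coe_mul]
  · by_cases h : q = t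
    · exact ⟨r, hr, fun e => qr (h.trans e.symm), rs, ⟨_, hh⟩, H8.Ito.piElt_coe.2 h1, mt H8.Ito.mem_center_sub.1 h2⟩
    · exact ⟨q, hq, h, qs, ⟨_, hg⟩, H8.Ito.piElt_coe.2 g1, mt H8.Ito.mem_center_sub.1 g2⟩

theorem nc (S : St G a b c) (hk : a = k * b) (e : C[x].index = b) (hg : g ∈ C[x]) (h : (C[x] ⊓ C[g]).index = a)
    (ht : t.Prime) (hd : t ∣ k) : ∃ h ∈ C[x], PiElt {t} h ∧ ¬ C[x] ≤ C[h] := by
  by_contra! hc
  obtain ⟨T, hT⟩ := exists_syl t C[x]
  have := hT.relIndex_of_le (K := C[g]) fun y hy => sym (hc y (hT.le hy) (hT.pi.piElt hy) hg)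
  rw [S.rel hk e h] at this
  exact this.not_dvd ht rfl hd

theorem inf_ne (S : St G a b c) (ca : c ∣ a) (ex : C[x].index = b) (ey : C[y].index = c) : C[x] ⊓ C[y] ≠ ⊥ := fun e => by
  obtain ⟨u, u1, eu⟩ := S.exa
  have := H1.index_inf_of_coprime (H := C[x]) (K := C[y]) (by rw [ex, ey]; exact S.cop)
  rw [e, ex, ey] at this
  exact u1 ((eqi bot_le (Nat.dvd_antisymm (by rw [this, eu]; exact S.cop.mul_dvd_of_dvd_of_dvd S.dvd ca)
    (index_dvd_of_le bot_le))).ge (mem_cen1.2 rfl))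

theorem card_dvd (S : St G a b c) (hk : a = k * b) (e : C[x].index = b) (eu : C[u].index = a) : #C[u] ∣ #C[x] :=
  ⟨k, Nat.eq_of_mul_eq_mul_right (e ▸ index_pos' C[x] : 0 < b) (by
    rw [mul_assoc, ← hk, ← eu, card_mul_index, ← e, card_mul_index])⟩

theorem one_prime (S : St G a b c) (ca : c ∣ a) (hq : q.Prime) (hr : r.Prime) (dq : q ∣ c) (dr : r ∣ c) : q = r := by
  by_contra qr
  obtain ⟨k, hk⟩ := S.dvd
  rw [mul_comm] at hk
  have ck : c ∣ k := S.cop.symm.dvd_of_dvd_mul_right (hk ▸ ca)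
  obtain ⟨x, xq, e⟩ := (S.symm ca).cenb hq dq
  have x1 := ne_one hq xq
  have px := pElt hq xq
  have nd : ∀ {t : ℕ}, t.Prime → t ∣ c → ¬ t ∣ b := fun ht h1 h2 => coprime_iff_forall.1 S.cop _ ht h2 h1
  obtain ⟨p, hp, pb⟩ := Nat.exists_prime_and_dvd S.b1
  obtain ⟨y, yp, ey⟩ := S.cenb hp pb
  have y1 := ne_one hp yp
  obtain ⟨z, hz, z1⟩ := exists_ne_one (S.inf_ne ca e ey)
  obtain ⟨g, hg, g1, g2⟩ : ∃ g ∈ C[x], PiElt {q}ᶜ g ∧ ¬ C[x] ≤ C[g] := by
    by_contra! hc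
    obtain ⟨g, hg, gr⟩ := exists_elt_of_prime_dvd (H := C[x]) hr (((Nat.Prime.dvd_mul hr).1
      (card_mul_index C[x] ▸ dr.trans S.cG)).resolve_right (e ▸ nd hr dr))
    have e1 := S.eqb e (hc g hg ((piElt_of_orderOf_prime hr gr).2 (Ne.symm qr))) (ne_one hr gr)
    have hc' : ∀ h ∈ C[x], PiElt {r}ᶜ h → C[x] ≤ C[h] := fun h hh h1 => by_contra fun h2 => by
      rw [← e1] at hh h2 e
      obtain ⟨v, v1, v2, v3⟩ := S.nc hk e hh (S.inf_idx e (pElt hr gr) h1 hh h2) hr (dr.trans ck)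
      rw [e1] at v1 v3
      exact v3 (hc v v1 (v2.sub fun t ht e => qr (e.symm.trans ht)))
    have ab : ∀ h ∈ C[x], C[x] ≤ C[h] := fun h hh => cen1_constt_inf {q} h ▸ le_inf
      (hc' _ (constt_mem _ hh) ((piElt_constt _ _).sub fun t ht e => qr (ht.symm.trans e)))
      (hc _ (constt_mem _ hh) (piElt_constt _ _))
    have e2 := S.eqb e (ab z hz.1) z1
    have e3 := S.eqb e (ab y (e2.le (sym hz.2))) y1
    exact S.bnc (by rw [← e, ← ey, e3])
  have i := S.inf_idx e px g1 hg g2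
  obtain ⟨v, v1, v2, v3⟩ := S.nc hk e hg i hq (dq.trans ck)
  obtain ⟨w, w1, w2, w3⟩ := S.nc hk e hg i hr (dr.trans ck)
  have two : ∀ t, t.Prime → t ∣ #C[x] → t = q ∨ t = r := fun t ht hd => by
    by_contra! hc
    obtain ⟨h, hh, ho⟩ := exists_elt_of_prime_dvd ht hd
    have h1 : C[x] ≤ C[h] := by_contra fun h2 => qr ((S.pk hk hq px e ht hr hc.2 hc.1 (Ne.symm qr) hh (pElt ht ho) h2
      w1 w2 w3) r hr (dr.trans ck)).symm
    have e1 := S.eqb e h1 (ne_one ht ho)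
    rw [← e1] at e v1 v3 w1 w3
    exact hc.1 (S.pk hk ht (pElt ht ho) e hq hr qr hc.1.symm hc.2.symm v1 v2 v3 w1 w2 w3 q hq (dq.trans ck)).symm
  have pn : ¬ p ∣ #C[x] := fun h => by
    rcases two p hp h with rfl | rfl
    exacts [nd hp dq pb, nd hp dr pb]
  have key : ∀ z ∈ C[x] ⊓ C[y], z ≠ 1 → C[z] = C[y] := fun z hz z1 => by
    have pz : PiElt {p}ᶜ z := fun t ht hd e => pn (e ▸ hd.trans (orderOf_dvd_card' hz.1))
    have e1 := cen_mul (pElt hp yp) pz hz.2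
    have d : c ∣ C[y * z].index := by rw [e1, ← ey]; exact index_dvd_of_le inf_le_left
    rcases S.all _ (mul_ne (pElt hp yp) pz hz.2 y1) with k | k | k
    · exact absurd ((yp ▸ orderOf_dvd_card' (e1.ge ⟨mem_cen1.2 rfl, sym hz.2⟩)).trans (S.card_dvd hk e k)) pn
    · exact absurd (k ▸ d) S.cb
    · refine S.eqc ey ?_ z1
      rw [← eqi (e1.le.trans inf_le_left) (k.trans ey.symm), e1]; exact inf_le_right
  have := key x ⟨mem_cen1.2 rfl, (key z hz z1).le (sym hz.1)⟩ x1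
  exact S.bnc (by rw [← e, ← ey, this])

theorem dvd_a (S : St G a b c) (ca : c ∣ a) (ht : t.Prime) (hd : t ∣ Nat.card G) : t ∣ a := by_contra fun hc => by
  obtain ⟨x, hx⟩ := exists_prime_orderOf_dvd_card' (hp := ⟨ht⟩) t hd
  refine ne_one ht hx (S.z.le (mem_center_iff.2 fun g => (commutatorElement_eq_one_iff_mul_comm.1
    (comm_mem_of_forall_not_dvd (M := ⊥) ht (fun e he hd => hc ?_) (pElt ht hx) g)).symm))
  rcases S.all e he with k | k | k <;> rw [k] at hd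
  exacts [hd, hd.trans S.dvd, hd.trans ca]

theorem caseB (S : St G a b c) (ca : c ∣ a) : Group.IsSolvable G := by
  obtain ⟨p, hp, pb⟩ := Nat.exists_prime_and_dvd S.b1
  obtain ⟨q, hq, qc⟩ := Nat.exists_prime_and_dvd S.c1
  have hb : PiNat {p} b := fun t ht hd => (S.symm ca).one_prime S.dvd ht hp hd pb
  have hc : PiNat {q} c := fun t ht hd => S.one_prime ca ht hq hd qc
  haveI := H2.solvableRadical_characteristic (G := G)
  have hR : Sol (solvableRadical G) := H2.solvableRadical_isSolvable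
  have out : ∀ u : G, u ∉ solvableRadical G → C[u].index = a := fun u hu => by
    rcases S.all u (fun e => hu (e ▸ one_mem _)) with k | k | k
    exacts [k, absurd (mem_rad hp (k ▸ hb)) hu, absurd (mem_rad hq (k ▸ hc)) hu]
  by_contra hn
  have ex : ∀ {p q : ℕ}, p.Prime → q.Prime → ∃ t, t.Prime ∧ t ∣ (solvableRadical G).index ∧ t ≠ p ∧ t ≠ q :=
    fun hp hq => by
      by_contra! h
      exact hn (H8.Ito.sol_of_index hp hq hR fun t ht hd => or_iff_not_imp_left.2 (h t ht hd))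
  obtain ⟨k, hk⟩ := S.dvd
  rw [mul_comm] at hk
  obtain ⟨t, ht, td, tp, tq⟩ := ex hp hq
  have tk : t ∣ k := ((Nat.Prime.dvd_mul ht).1 (hk ▸ S.dvd_a ca ht (td.trans (index_dvd_card _)))).resolve_right
    fun h => tp (hb t ht h)
  obtain ⟨x, xq, e⟩ := (S.symm ca).cenb hq qc
  have px := pElt hq xq
  have nc : ∀ {r : ℕ}, r.Prime → r ∣ (solvableRadical G).index → r ≠ p → ∃ h ∈ C[x], PiElt {r} h ∧ ¬ C[x] ≤ C[h] :=
    fun hr hd rp => by
      obtain ⟨h, h1, h2, h3⟩ := pelt_out hr hd (H := C[x]) fun h => rp (hb _ hr (e ▸ h))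
      exact ⟨h, h1, h2, fun h4 => S.ne (by rw [← e, ← S.eqb e h4 (fun e => h3 (e ▸ one_mem _)), out h h3])⟩
  obtain ⟨w, w1, w2, w3⟩ := nc ht td tp
  have cen : ∀ {r : ℕ}, r.Prime → r ≠ q → r ≠ t → ∀ h ∈ C[x], PiElt {r} h → C[x] ≤ C[h] := fun hr rq rt h h1 h2 =>
    by_contra fun h3 => tq (S.pk hk hq px e hr ht rt rq tq h1 h2 h3 w1 w2 w3 t ht tk)
  obtain ⟨r, hr, rd, rq, rt⟩ := ex hq ht
  obtain rfl : r = p := by_contra fun rp => by
    obtain ⟨h, h1, h2, h3⟩ := nc hr rd rp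
    exact h3 (cen hr rq rt h h1 h2)
  obtain ⟨u, -, u1, u2⟩ := pelt_out hr rd (H := ⊤) (by rw [index_top]; exact hr.not_dvd_one)
  obtain ⟨g, hg, go⟩ := exists_elt_of_prime_dvd hr (((PiNat.dvd_of_ne_one u1 fun e => u2 (orderOf_eq_one_iff.1 e ▸ one_mem _)).trans
    (orderOf_dvd_card' (mem_cen1.2 rfl))).trans (S.card_dvd hk e (out u u2)))
  obtain ⟨v, v1, v2, v3⟩ := S.nc hk e w1 (S.inf_idx e px (w2.sub fun s hs e => tq (hs.symm.trans e)) w1 w3) hq
    (qc.trans (S.cop.symm.dvd_of_dvd_mul_right (hk ▸ ca)))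
  have e1 := S.eqb e (cen hr rq rt g hg (pElt hr go)) (ne_one hr go)
  rw [← e1] at e v1 v3 w1 w3
  exact tp (S.pk hk hr (pElt hr go) e hq ht tq.symm rq.symm tp v1 v2 v3 w1 w2 w3 t ht tk)

end St

end Cfsg.Agent.Cs3
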