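import Cfsg.Agent.H24.Cs0
import Cfsg.Agent.H24.Cs2
/-! Centreless groups with three nontrivial class sizes, III. -/
set_option autoImplicit false
set_option linter.unusedSectionVars false
namespace Cfsg.Agent.Cs3
open Cfsg Subgroup Cfsg.Agent.FT Cfsg.Agent.H28 Cfsg.Agent.H23.Ito
open scoped commutatorElement MatrixGroups

variable {G : Type*} [Group G] [Finite G] {a b c k p q r : ℕ} {g h s t u v w x y z : G} {π : Set ℕ}
  {A H K N T Y : Subgroup G}

theorem sol_of_not_le (cc : ∀ h ∈ H, h ≠ 1 → C[h] = H) (h1 : H ≠ ⊥) (hN : N ⊴ ⊤) (h2 : ¬ H ≤ N) : Sol N := by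
  have ab := ab_of_cc cc
  have nN : H ≤ N(N) := le_top.trans hN.nrm
  by_cases h3 : N ≤ H
  · exact (ab.mono h3).sol
  have cen : ∀ b : ↥(N ⊔ H), (b : G) ∈ H → b ≠ 1 → C[b] = H.subgroupOf (N ⊔ H) := fun b hb b1 => by
    ext z
    refine Iff.trans ?_ (SetLike.ext_iff.1 (cc b hb fun e => b1 (Subtype.ext e)) (z : G))
    simp only [mem_cen1, Subtype.ext_iff, coe_mul]
  obtain ⟨h, hh, h4⟩ := exists_ne_one h1
  have ne : H.subgroupOf (N ⊔ H) ≠ ⊤ := fun e => h3 (le_sup_left.trans (subgroupOf_eq_top.1 e))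
  refine Sol.mono (A := N ⊔ H) (H8.Ito.CA.sol (T := H.subgroupOf (N ⊔ H)) ⟨ab.so le_sup_right, fun z hz => ?_,
    fun b hb b1 => cen b hb fun e => b1 (e ▸ one_mem _)⟩ (fun e => ne ?_) ne fun e he => ?_) le_sup_left
  · rw [← cen ⟨h, mem_sup_right hh⟩ hh fun e => h4 (congrArg Subtype.val e)]
    exact mem_cen1.2 (mem_center_iff.1 hz _).symm
  · rw [← cen ⟨h, mem_sup_right hh⟩ hh fun e => h4 (congrArg Subtype.val e)]
    exact cen1_eq_top_iff.2 (e hh)
  · obtain ⟨n, hn, k, hk, e1⟩ := (mem_sup_norm nN).1 e.2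
    have e2 : (e : G) ∈ N(H) := (so_nrm le_sup_right).ge he
    have e3 : n ∈ N(H) := by simpa [e1] using mul_mem e2 (inv_mem (le_nrm H hk))
    rw [mem_subgroupOf, e1]
    refine mul_mem (by_contra fun e4 => h2 ?_) hk
    have inj : Function.Injective fun x : H => (⟨⁅(x : G), n⁆, by
        rw [← commutatorElement_inv]; exact H.inv_mem (H.mul_mem (FT.conj_mem e3 x.2) (H.inv_mem x.2)),
        N.mul_mem (FT.conj_mem (nN x.2) hn) (N.inv_mem hn)⟩ : ↥(H ⊓ N)) := fun x x' e5 => by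
      have e6 : ⁅(x : G), n⁆ = ⁅(x' : G), n⁆ := congrArg Subtype.val e5
      by_contra e7
      refine e4 ((cc ((x' : G)⁻¹ * x) (mul_mem (inv_mem x'.2) x.2) fun e8 => e7 (Subtype.ext
        (inv_mul_eq_one.1 e8).symm)).le (mem_cen1.2 ?_))
      simp only [commutatorElement_def, mul_left_inj] at e6
      calc n * ((x' : G)⁻¹ * x) = (x' : G)⁻¹ * (x' * n * (x' : G)⁻¹) * x := by group
        _ = _ := by rw [← e6]; group
    exact inf_eq_left.1 (eq_of_card_le inf_le_left (Nat.card_le_card_of_injective _ inj))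

theorem psl_of_ab' (hz : center G = ⊥) (hn : ¬ Group.IsSolvable G) (h : ∀ s : G, orderOf s = 2 → Ab C[s]) :
    ∃ (m : ℕ) (F : Type) (_ : Field F) (_ : Fintype F), 2 ≤ m ∧ Fintype.card F = 2 ^ m ∧ Nonempty (G ≃* PSL(2, F)) := by
  obtain ⟨S, hS⟩ := exists_syl 2 (⊤ : Subgroup G)
  have a : H23.AC S := ⟨hS, fun k => hn (sol_top.1 (GW.sol_npc (GW.npc_of_cyc hS k))), fun e => hn (sol_top.1
    (sol_of_quo e.ge hS.pi.sol (odd_order_solvable (odd_iff_piGrp.2 (hS.quo_pi' e.ge))))), h⟩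
  have b := a.ea_map (f := MonoidHom.id G) Function.surjective_id (by rw [MonoidHom.ker_id, hz]) (H23.AC.tic _ rfl a)
  obtain ⟨F, _, _, hF, e⟩ := b.psl
  obtain ⟨m, hm⟩ := b.syl.pi.card
  have := b.four_le
  rw [hm] at this
  exact ⟨m, F, _, ‹_›, (Nat.pow_le_pow_iff_right one_lt_two).1 this, hF.trans hm, e⟩

namespace St

theorem tail (S : St G a b c) (ey : C[y].index = c) (od : ¬ 2 ∣ #C[y]) (G2 : 2 ∣ Nat.card G)
    (niso : ∀ t : G, ¬ IsIsolatedInvolution t) (nc : ∀ x z : G, C[x].index = b → C[z].index = c → z ∉ C[x])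
    (iso : ∀ x : G, C[x].index = b → ∀ g, g⁻¹ * x * g ∈ C[x] → g ∈ C[x]) : False := by
  have h2 := Nat.prime_two
  have ia : ∀ t : G, orderOf t = 2 → C[t].index = a := fun t ht => by
    rcases S.all t (ne_one h2 ht) with k | k | k
    · exact k
    · refine absurd ⟨ht, fun g hg => ?_⟩ (niso t)
      have := inv_mem_iff.1 (iso t k g⁻¹ (by rw [inv_inv]; exact mem_cen1.2 hg.symm))
      rw [mem_cen1.1 this, mul_inv_cancel_right]
    · exact absurd (card_eq_of_index (k.trans ey.symm) ▸ ht ▸ orderOf_dvd_card' (mem_cen1.2 rfl)) od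
  obtain ⟨z, z2, hz⟩ := central h2 G2
  rw [ia z z2] at hz
  obtain ⟨xb, hb, eb⟩ := S.exb
  obtain ⟨x, hx, hp⟩ := exists_prime_order_zpowers hb
  have ex : C[x].index = b := by rw [S.eqb eb (cen_zp hx) (ne_one hp rfl), eb]
  have hM : ∀ t ∈ C[x], orderOf t = 2 → C[t] ≤ C[x] := fun t ht t2 => S.lea (ia t t2) (pElt h2 t2)
    ((piElt_of_orderOf_prime hp rfl).2 fun e => S.ne (ex.symm.trans (ia x e))) (sym ht)
  have ev' : 2 ∣ #C[x] := ((Nat.Prime.dvd_mul h2).1 (card_mul_index C[x] ▸ G2)).resolve_right fun e =>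
    hz ((ex ▸ e).trans S.dvd)
  have se : IsStronglyEmbedded C[x] := H20.isStronglyEmbedded_iff.2 ⟨fun e => S.b1 (by rw [← ex, e, index_top]),
    even_iff_two_dvd.2 ev', fun t ht t2 g hg => iso x ex g (hM t ht t2 (by
      rw [← conj_mem_cj (g := g), cj_cen1]
      simpa [mul_assoc] using sym hg))⟩
  obtain ⟨u, u2, hu⟩ := H20.se_exists_involution_notMem se
  obtain ⟨t, ht, t2⟩ := exists_elt_of_prime_dvd h2 ev'
  refine niso t ⟨t2, fun g hg => ?_⟩
  obtain ⟨d, hd', e1, e2⟩ := H20.se_exists_conj_inverted se u2 hu ht t2 (hM t ht t2 (mem_cen1.2 hg.symm))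
    ((orderOf_conj g t).trans t2)
  rw [← e2]
  by_cases d1 : d = 1
  · simp [d1]
  have od : ¬ 2 ∣ C[d].index := fun e => by
    rcases S.all d d1 with k | k | k <;> rw [k] at e
    exacts [hz e, hz (e.trans S.dvd), nc x d ex k hd']
  have hud : u ∈ C[d] := (pElt h2 u2).mem_of_relIndex (M := N(C[d]))
    (cj_eq_self.1 (by rw [cj_cen1, e1, cen1_inv])) le_rfl
    (p'nat_of_not_dvd fun e => od (e.trans (relIndex_dvd_index_of_le (le_nrm _))))
  rw [mem_cen1.1 hud, mul_inv_cancel_right] at e1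
  exact absurd (hM d hd' (orderOf_eq_prime (by rw [pow_two]; exact mul_eq_one_iff_eq_inv.2 e1) d1) hud) hu

theorem caseH (S : St G a b c) (ey : C[y].index = c) (cc : ∀ h ∈ C[y], h ≠ 1 → C[h] = C[y])
    (np : ∀ p, p.Prime → ¬ PGrp p C[y]) (od : ¬ 2 ∣ #C[y]) : Group.IsSolvable G := by
  have y1 : y ≠ 1 := fun e => S.c1 (by rw [← ey, e, cs_eq_one.2 (one_mem _)])
  have ab := ab_of_cc cc
  have hH : Hall (piOf C[y]) C[y] ⊤ := (H1.isHall_of_cen1_le le_top fun h hh h1 => inf_le_right.trans (cc h hh h1).le).hall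
  generalize piOf C[y] = π at hH
  have hb : PiNat π b := PiNat.of_dvd hH.pi (S.b_dvd ey)
  have hc : ∀ z : G, C[z].index = c → PiGrp π C[z] := fun z e => by
    rw [PiGrp, card_eq_of_index (e.trans ey.symm)]; exact hH.pi
  have conj : ∀ z : G, (orderOf z).Prime → orderOf z ∈ π → ∃ g, g * z * g⁻¹ ∈ C[y] := fun z hz h => by
    obtain ⟨T, hT, le⟩ := exists_syl_le_of_not_dvd hz ((relIndex_top_right C[y] ▸ hH.idx).not_dvd hz h)
    obtain ⟨g, -, hg⟩ := hT.syl_elt (mem_top z) (pElt hz rfl)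
    exact ⟨g, le hg⟩
  have hN' : ∀ N : Subgroup G, N ⊴ ⊤ → ¬ PiGrp πᶜ N → ∃ z ∈ N, z ∈ C[y] ∧ z ≠ 1 := fun N h1 h2 => by
    obtain ⟨z, hz, z1⟩ := exists_ne_one (H := N ⊓ C[y])
      fun e => h2 (by have := hH.inf_nml' h1; rw [e] at this; simpa [PiGrp] using this.idx)
    exact ⟨z, hz.1, hz.2, z1⟩
  by_cases h1 : O[πᶜ]((⊤ : Subgroup G)) = ⊥
  swap
  · exact S.kcase hc (fun N h1 h2 => let ⟨z, z1, z2, z3⟩ := hN' N h1 h2; ⟨z, z1, by rw [cc z z2 z3, ey]⟩) hH ab.nil hb h1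
  by_cases hR : ∃ N : Subgroup G, N ⊴ ⊤ ∧ N ≠ ⊥ ∧ Sol N
  · obtain ⟨N, n1, n2, n3⟩ := hR
    have nF : O[π](F(N)) ⊴ ⊤ := n1.fitting.pcore π
    have e : F(N) ≤ O[π](F(N)) := by
      have := ((fitting_nil N).dp_pcore π).sup
      rw [le_bot_iff.1 ((pcore_max (pcore_pi πᶜ F(N)) (n1.fitting.pcore _)).trans h1.le), sup_bot_eq] at this
      exact this.ge
    have le := hH.ge_of_nml (pcore_pi π F(N)) nF
    obtain ⟨z, hz, z1⟩ := exists_ne_one (n3.fitting_ne_bot n2)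
    have e2 : C(O[π](F(N))) = C[y] := le_antisymm (cc z (le (e hz)) z1 ▸ cen_le_cen1 (e hz)) (centsC (le.trans ab.le_cen))
    refine hallq (a := a) hH (e2 ▸ cen_nml nF) ab.sol hb fun u u1 hu => ?_
    rcases S.all u u1 with k | k | k
    exacts [Or.inl k, Or.inr k, absurd (hu.eq_one_of_mem' (hc u k) (mem_cen1.2 rfl)) u1]
  push Not at hR
  by_contra hn
  have hO : oddCore G = ⊥ := by_contra fun e => hR _ (nml_top_iff.2 inferInstance) e
    (odd_order_solvable H2.odd_card_oddCore)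
  have nc : ∀ x z : G, C[x].index = b → C[z].index = c → z ∉ C[x] := fun x z ex ez h => by
    have z1 : z ≠ 1 := fun e => S.c1 (by rw [← ez, e, cs_eq_one.2 (one_mem _)])
    have x1 : x ≠ 1 := fun e => S.b1 (by rw [← ex, e, cs_eq_one.2 (one_mem _)])
    obtain ⟨w, hw, wp⟩ := exists_prime_order_zpowers z1
    obtain ⟨g, hg⟩ := conj w wp (hc z ez _ wp (orderOf_dvd_card' (zpowers_le.2 (mem_cen1.2 rfl) hw)))
    have e1 := cc _ hg (by simpa using ne_one wp rfl)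
    rw [← cj_cen1, S.eqc ez (cen_zp hw) (ne_one wp rfl)] at e1
    have e2 := cc (g * x * g⁻¹) (e1.le (conj_mem_cj.2 (sym h))) (by simpa using x1)
    exact S.bnc (by rw [← ex, ← index_cen1_conj g, e2, ey])
  obtain ⟨v, hv, hr⟩ := exists_prime_order_zpowers y1
  refine S.tail ey od (by_contra fun e => hn (sol_top.1 (odd_order_solvable (by
    rw [card_top']; exact Nat.odd_iff.2 (by omega))))) (fun t ht => ne_one Nat.prime_two ht.1
      (S.z.le (H8.mem_center_of_isolated ht hO))) nc fun x e g => ?_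
  exact reg_class' (Q := O[{orderOf v}](C[y])) (fun N h1 h2 => by_contra fun h3 => hR N (nml_top_iff.2 h1) h2
      (sol_of_not_le cc (fun e => y1 (e.le (mem_cen1.2 rfl))) (nml_top_iff.2 h1) h3)) ab (fun h hh h1 => (cc h hh h1).le)
    (pcore_le _ _) (fun e => ne_one hr rfl (e.le (pcore_max (pElt hr rfl).zpowers
      (ab.nml (zpowers_le.2 (zpowers_le.2 (mem_cen1.2 rfl) hv))) (mem_zpowers v))))
    (fun e => np _ hr ((pcore_pi _ _).mono e)) (nrm_le_nrm_pcore _ _) (fun h => S.b1 (e ▸ cs_eq_one.2 h))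
    (H1.exists_mul_of_coprime_index (by rw [e, ey]; exact S.cop))
    (eq_bot_iff.2 fun h hh => by_contra fun h1 => nc x h e (by rw [cc h hh.2 h1, ey]) hh.1)

theorem main (S : St G a b c) (hn : ¬ Group.IsSolvable G) (hs : orderOf s = 2) : Ab C[s] := by
  by_cases ca : c ∣ a
  · exact absurd (S.caseB ca) hn
  have Mc : Mx G c := fun y hy e => by
    rcases S.all y hy with k | k | k <;> rw [k] at e ⊢
    exacts [absurd e ca, absurd e S.cb]
  obtain ⟨y, y1, ey⟩ := S.exc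
  have np : ∀ p, p.Prime → ¬ PGrp p C[y] := fun p hp h => hn (S.caseP hp ey h)
  have cc := (free (ey ▸ Mc) (ey ▸ S.mc) y1).resolve_left fun ⟨p, hp, h⟩ => np p hp h
  obtain ⟨t, ht, t2⟩ := exists_elt_of_prime_dvd Nat.prime_two (by_contra fun od => hn (S.caseH ey cc np od))
  exact all_of_cc t2 (cc t ht (ne_one Nat.prime_two t2) ▸ cc) hs

end St

theorem three' (hz : center G = ⊥) (hn : ¬ Group.IsSolvable G)
    (h : Nat.card {n : ℕ | 1 < n ∧ ∃ x : G, C[x].index = n} ≤ 3) (hs : orderOf s = 2) : Ab C[s] := by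
  by_cases k : ∀ x y : G, x ≠ 1 → y ≠ 1 → C[x].index ∣ C[y].index → C[y].index = C[x].index
  · exact anti k hs
  push Not at k
  obtain ⟨xb, xa, hb, ha, hd, hne⟩ := k
  have lt : ∀ x : G, x ≠ 1 → 1 < C[x].index := fun x hx =>
    (Nat.succ_le_of_lt (cs_pos x)).lt_of_ne fun e => hx (hz.le (cs_eq_one.1 e.symm))
  obtain ⟨p, hp, pb⟩ := Nat.exists_prime_and_dvd (lt xb hb).ne'
  obtain ⟨xc, cp, hc⟩ := central hp (pb.trans (index_dvd_card _))
  have c1 := ne_one hp cp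
  have fin : {n : ℕ | 1 < n ∧ ∃ x : G, C[x].index = n}.Finite :=
    (Set.finite_range fun x : G => C[x].index).subset fun n hn => hn.2
  have e := Set.eq_of_subset_of_ncard_le (s := {C[xa].index, C[xb].index, C[xc].index}) (by
    rintro n (rfl | rfl | rfl)
    exacts [⟨lt _ ha, _, rfl⟩, ⟨lt _ hb, _, rfl⟩, ⟨lt _ c1, _, rfl⟩]) (h.trans (Set.ncard_eq_three.2
      ⟨_, _, _, hne, fun e => hc ((pb.trans hd).trans e.dvd), fun e => hc (pb.trans e.dvd), rfl⟩).ge) fin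
  exact St.main ⟨hz, fun x hx => e.ge ⟨lt x hx, x, rfl⟩, ⟨xa, ha, rfl⟩, ⟨xb, hb, rfl⟩, ⟨xc, c1, rfl⟩, hd, hne.symm⟩ hn hs

end Cfsg.Agent.Cs3
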