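import Cfsg.Agent.H26.Lf1
import Cfsg.Prelude.Def_PLocal
import Cfsg.Prelude.Def_CaseTheorems

set_option autoImplicit false
set_option linter.unusedSectionVars false
set_option linter.unusedVariables false

namespace Cfsg.Agent.H26.Lf
open Subgroup
universe u
variable {G : Type u} [Group G] [Finite G] {S A B : Subgroup G}

theorem loc_le (h : St S A B) : Cfsg.pCore 2 G ≤ S := by
  refine sSup_le ?_
  rintro N ⟨hN, hp⟩
  have := hp.le_sylow_of_normal h.syl
  rwa [h.coe_syl] at this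

theorem loc_norm {H : Subgroup G} (hn : ∀ g : G, g ∈ normalizer (H : Set G)) : H.Normal :=
  normalizer_eq_top_iff.1 (eq_top_iff.2 fun g _ => hn g)

theorem loc_mem_norm {H : Subgroup G} (hH : H.Normal) (g : G) : g ∈ normalizer (H : Set G) := by
  rw [normalizer_eq_top_iff.2 hH]; trivial

theorem loc_S (h : St S A B) (hC : centralizer (Cfsg.pCore 2 G : Set G) ≤ Cfsg.pCore 2 G)
    (hZ : (A ⊓ B).Normal) : S.Normal := by
  have hQ := loc_le h
  have hZQ : A ⊓ B ≤ Cfsg.pCore 2 G := fun z hz =>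
    hC fun q hq => h.cenZ (hQ hq) hz
  refine loc_norm fun g => ?_
  obtain ⟨n, hn, c, hc, rfl⟩ := h.chain hZQ hQ (g := g) (loc_mem_norm inferInstance g)
    (loc_mem_norm hZ g)
  exact mul_mem hn (le_normalizer (hQ (hC hc)))

theorem loc_A (h : St S A B) (hC : centralizer (Cfsg.pCore 2 G : Set G) ≤ Cfsg.pCore 2 G)
    (hS : S.Normal) : A.Normal ∧ centralizer (A : Set G) ≤ A := by
  have hQ := loc_le h
  refine ⟨loc_norm fun g => h.wc g fun a ha => hS.conj_mem a (h.leA ha) g, fun c hc => ?_⟩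
  obtain ⟨ρ, hρ, s, hs, ho, e⟩ := h.oddpart (loc_mem_norm hS c)
  have hρc : ρ ∈ centralizer (A : Set G) := (zpowers_le.2 hc) hρ
  have h1 := h.triAZ (loc_mem_norm hS ρ) ho
    (fun a ha => by rw [← hρc a ha]; simp) (fun z hz => (hρc z hz.1).symm)
  have h2 : ρ ∈ S := hQ (hC fun q hq => (h1 q (hQ hq)).symm)
  have h3 : c ∈ S := e ▸ mul_mem h2 hs
  obtain ⟨a, ha, haB⟩ := h.exA
  exact h.cenA ha haB h3 (hc a ha).symm

theorem loc_v (h : St S A B) (hC : centralizer (Cfsg.pCore 2 G : Set G) ≤ Cfsg.pCore 2 G)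
    {v : G} (hv : v ∈ A) (hvB : v ∉ B) (hc : v ∈ centralizer (Cfsg.pCore 2 G : Set G)) :
    A.Normal ∧ centralizer (A : Set G) ≤ A := by
  have hQ := loc_le h
  have h1 : Cfsg.pCore 2 G ≤ A := fun q hq => h.cenA hv hvB (hQ hq) (hc q hq)
  have h2 : A ≤ Cfsg.pCore 2 G := fun a ha => hC fun q hq => h.commA (h1 hq) ha
  rw [← le_antisymm h1 h2]
  exact ⟨inferInstance, hC⟩

theorem loc_first (h : St S A B) (hC : centralizer (Cfsg.pCore 2 G : Set G) ≤ Cfsg.pCore 2 G) :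
    (A.Normal ∧ centralizer (A : Set G) ≤ A) ∨ (B.Normal ∧ centralizer (B : Set G) ≤ B) := by
  have hQ := loc_le h
  by_cases hv : ∃ v ∈ centralizer (Cfsg.pCore 2 G : Set G), v * v = 1 ∧ v ∉ A ⊓ B
  · obtain ⟨v, hc, h2, hZ⟩ := hv
    rcases h.invol (hQ (hC hc)) h2 with hA | hB
    · exact Or.inl (loc_v h hC hA (fun hB => hZ ⟨hA, hB⟩) hc)
    · exact Or.inr (loc_v h.symm hC hB (fun hA => hZ ⟨hA, hB⟩) hc)
  · push Not at hv
    refine Or.inl (loc_A h hC (loc_S h hC ⟨fun z hz g => hv _ ?_ ?_⟩))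
    · have : z ∈ centralizer (Cfsg.pCore 2 G : Set G) := fun q hq => h.cenZ (hQ hq) hz
      exact (inferInstance : (centralizer (Cfsg.pCore 2 G : Set G)).Normal).conj_mem z this g
    · calc g * z * g⁻¹ * (g * z * g⁻¹) = g * (z * z) * g⁻¹ := by group
        _ = 1 := by rw [h.sqA z hz.1]; group

theorem loc (h : St S A B) (hC : centralizer (Cfsg.pCore 2 G : Set G) ≤ Cfsg.pCore 2 G) :
    ((A.Normal ∧ centralizer (A : Set G) ≤ A) ∨ (B.Normal ∧ centralizer (B : Set G) ≤ B)) ∧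
    ∀ z ∈ S, z ≠ 1 → z ∈ center G → S.Normal := by
  refine ⟨loc_first h hC, fun z hz hz1 hc => loc_S h hC ?_⟩
  have hzZ : z ∈ A ⊓ B := h.mem_Z_of_cen hz fun t _ => mem_center_iff.1 hc t
  have e : ∀ g : G, g * z * g⁻¹ = z := fun g => by rw [mem_center_iff.1 hc g]; group
  rcases loc_first h hC with ⟨hA, -⟩ | ⟨hB, -⟩
  · exact loc_norm fun g => h.ti (loc_mem_norm hA g) hzZ hz1 (by rw [e]; exact hzZ)
  · rw [inf_comm] at hzZ ⊢
    exact loc_norm fun g => h.symm.ti (loc_mem_norm hB g) hzZ hz1 (by rw [e]; exact hzZ)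

end Cfsg.Agent.H26.Lf
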