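import Cfsg.Agent.H26.Lf1
import Cfsg.Agent.S0205

set_option autoImplicit false
set_option linter.unusedSectionVars false
set_option linter.unusedVariables false

namespace Cfsg.Agent.H26.Lf
open Subgroup
universe u

theorem notZ_odd_mem {G : Type u} [Group G] [Finite G] {S N : Subgroup G} [N.Normal]
    (hS : IsPGroup 2 S) (hK : N ⊔ S = ⊤) {ρ : G} (ho : Odd (orderOf ρ)) : ρ ∈ N := by
  have hρ : ρ ∈ N ⊔ S := hK ▸ mem_top ρ
  obtain ⟨n, hn, s, hs, rfl⟩ := mem_sup_of_normal_left.1 hρ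
  obtain ⟨k, hk⟩ := hS ⟨s, hs⟩
  have hk' : s ^ 2 ^ k = 1 := by simpa using congrArg Subtype.val hk
  have h1 : (QuotientGroup.mk (n * s) : G ⧸ N) = QuotientGroup.mk s := by
    rw [QuotientGroup.mk_mul, (QuotientGroup.eq_one_iff n).2 hn, one_mul]
  have h2 : orderOf (QuotientGroup.mk (n * s) : G ⧸ N) ∣ 2 ^ k := by
    rw [h1, orderOf_dvd_iff_pow_eq_one, ← QuotientGroup.mk_pow, hk', QuotientGroup.mk_one]
  have h3 : orderOf (QuotientGroup.mk (n * s) : G ⧸ N) ∣ orderOf (n * s) :=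
    orderOf_map_dvd (QuotientGroup.mk' N) (n * s)
  have h4 : Nat.Coprime (2 ^ k) (orderOf (n * s)) :=
    Nat.Coprime.pow_left _ (Nat.coprime_two_left.2 ho)
  have h5 := Nat.eq_one_of_dvd_coprimes h4 h2 h3
  exact (QuotientGroup.eq_one_iff _).1 (orderOf_eq_one_iff.1 h5)

theorem notZ_aux {G : Type u} [Group G] [Finite G] {S A B : Subgroup G} (h : St S A B)
    (N : Subgroup G) [hN : N.Normal] (hK : N ⊔ S = ⊤) (hR : S ⊓ N ≤ A ⊓ B) {g : G}
    (hg : g ∈ normalizer ((A ⊓ B : Subgroup G) : Set G)) :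
    g ∈ centralizer ((A ⊓ B : Subgroup G) : Set G) := by
  obtain ⟨n, hn, c, hc, rfl⟩ := h.chain le_rfl h.leZ hg hg
  obtain ⟨ρ, hρ, s, hs, ho, e⟩ := h.oddpart hn
  have hρN : ρ ∈ N := notZ_odd_mem h.pS hK ho
  have hρS : ρ ∈ normalizer (S : Set G) := (zpowers_le.2 hn) hρ
  have key : ∀ t ∈ S, ρ * t * ρ⁻¹ * t⁻¹ ∈ A ⊓ B := by
    intro t ht
    refine hR ⟨S.mul_mem ((mem_normalizer_iff.1 hρS t).1 ht) (S.inv_mem ht), ?_⟩
    have := mul_mem hρN (hN.conj_mem _ (inv_mem hρN) t)
    simpa [mul_assoc] using this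
  have h1 := h.triAB hρS ho (fun a ha => (key a (h.leA ha)).2) (fun b hb => (key b (h.leB hb)).1)
  refine mul_mem ?_ hc
  rw [e]
  exact mul_mem (fun z hz => (h1 z (h.leZ hz)).symm) (fun z hz => (h.cenZ hs hz).symm)

theorem notZ_burn {G : Type u} [Group G] [Finite G] (hp : commutator G = ⊤) (P : Sylow 2 G)
    (hP : normalizer ((P : Subgroup G) : Set G) ≤ centralizer ((P : Subgroup G) : Set G)) :
    Subsingleton G := by
  haveI : Fact (Nat.Prime 2) := ⟨Nat.prime_two⟩
  have hc := MonoidHom.ker_transferSylow_isComplement' P hP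
  haveI : IsMulCommutative (P : Subgroup G) :=
    ⟨⟨fun a b => Subtype.ext (hP (le_normalizer b.2) a a.2)⟩⟩
  have hk : (MonoidHom.transferSylow P hP).ker = ⊤ := by
    rw [eq_top_iff, ← hp, commutator_def, commutator_le]
    intro a _ b _
    rw [MonoidHom.mem_ker, map_commutatorElement, commutatorElement_eq_one_iff_mul_comm]
    exact mul_comm' _ _
  have h1 : (P : Subgroup G) = ⊥ := by
    have := hc.disjoint
    rw [hk] at this
    exact top_disjoint.1 this
  have h2 : Odd (Nat.card G) := by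
    have := P.not_dvd_index
    rw [h1, index_bot] at this
    exact Nat.odd_iff.2 (by omega)
  haveI := Cfsg.Agent.S0205.result h2
  by_contra hn
  rw [not_subsingleton_iff_nontrivial] at hn
  exact (Group.IsSolvable.commutator_lt_top_of_nontrivial G).ne hp

theorem notZ_rel {G : Type u} [Group G] [Finite G] (S N : Subgroup G) [N.Normal] :
    S.relIndex N ∣ S.index := by
  have e1 : (S ⊓ N).relIndex N * N.relIndex (S ⊔ N) = (S ⊓ N).relIndex (S ⊔ N) :=
    relIndex_mul_relIndex _ _ _ inf_le_right le_sup_right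
  have e2 : (S ⊓ N).relIndex S * S.relIndex (S ⊔ N) = (S ⊓ N).relIndex (S ⊔ N) :=
    relIndex_mul_relIndex _ _ _ inf_le_left le_sup_left
  rw [inf_relIndex_right, relIndex_sup_right] at e1
  rw [inf_relIndex_left, ← e1, mul_comm] at e2
  have hp : N.relIndex S ≠ 0 := index_ne_zero_of_finite
  rw [← Nat.eq_of_mul_eq_mul_right (Nat.pos_of_ne_zero hp) e2]
  exact relIndex_dvd_index_of_le le_sup_left

variable {G : Type u} [Group G] [Finite G] {S A B : Subgroup G}

theorem notZ (h : St S A B) (N : Subgroup G) [N.Normal] (hp : ⁅N, N⁆ = N) (h1 : N ≠ ⊥) :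
    ¬ S ⊓ N ≤ A ⊓ B := by
  intro hR
  haveI : Fact (Nat.Prime 2) := ⟨Nat.prime_two⟩
  have hcen : ∀ g ∈ N, g ∈ normalizer ((S ⊓ N : Subgroup G) : Set G) →
      ∀ r ∈ S ⊓ N, r * g = g * r := by
    intro g hgN hg r hr
    by_cases hZ : S ⊓ N = A ⊓ B
    · rw [hZ] at hg hr
      have hK : S ≤ N ⊔ S := le_sup_right
      have h' := h.sub (N ⊔ S) hK
      have hgK : g ∈ N ⊔ S := (le_sup_left : N ≤ N ⊔ S) hgN
      have hrK : r ∈ N ⊔ S := hK (h.leZ hr)
      have := notZ_aux h' (N.subgroupOf (N ⊔ S)) (by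
          rw [← subgroupOf_sup le_sup_left le_sup_right, subgroupOf_self])
        (fun x hx => hR ⟨hx.1, hx.2⟩) (g := ⟨g, hgK⟩) (by
          rw [mem_normalizer_iff] at hg ⊢
          intro x
          exact hg x.1)
      exact congrArg Subtype.val (this ⟨r, hrK⟩ hr)
    · by_cases hr1 : r = 1
      · simp [hr1]
      have hd : Nat.card ↥(S ⊓ N) ∣ 4 := h.cZ ▸ card_dvd_of_le hR
      have hne : Nat.card ↥(S ⊓ N) ≠ 4 := fun e =>
        hZ (eq_of_le_of_card_ge hR (by rw [h.cZ, e]))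
      have hle : Nat.card ↥(S ⊓ N) ≤ 2 := by
        have := Nat.le_of_dvd (by norm_num) hd
        interval_cases hh : Nat.card ↥(S ⊓ N) <;> simp_all
      have hr' : g * r * g⁻¹ ∈ S ⊓ N := (mem_normalizer_iff.1 hg r).1 hr
      have e : g * r * g⁻¹ = r := by
        by_contra hne2
        have h3 : g * r * g⁻¹ ≠ 1 := by simpa using hr1
        classical
        haveI := Fintype.ofFinite ↥(S ⊓ N)
        have : ({1, ⟨r, hr⟩, ⟨g * r * g⁻¹, hr'⟩} : Finset ↥(S ⊓ N)).card = 3 := by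
          rw [Finset.card_eq_three]
          refine ⟨_, _, _, ?_, ?_, ?_, rfl⟩
          · intro e; exact hr1 (congrArg Subtype.val e).symm
          · intro e; exact h3 (congrArg Subtype.val e).symm
          · intro e; exact hne2 (congrArg Subtype.val e).symm
        have h4 := Finset.card_le_univ ({1, ⟨r, hr⟩, ⟨g * r * g⁻¹, hr'⟩} : Finset ↥(S ⊓ N))
        rw [← Nat.card_eq_fintype_card] at h4
        omega
      calc r * g = g * r * g⁻¹ * g := by rw [e]
        _ = g * r := by group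
  have hperf : commutator N = ⊤ := by
    apply map_injective N.subtype_injective
    rw [commutator_def, map_commutator, ← MonoidHom.range_eq_map, range_subtype, hp]
  have hpg : IsPGroup 2 (S.subgroupOf N) := h.pS.comap_subtype
  have hidx : ¬ 2 ∣ (S.subgroupOf N).index := fun hd =>
    h.odd (hd.trans (notZ_rel S N))
  have := notZ_burn hperf (hpg.toSylow hidx) (by
    intro g hg x hx
    apply Subtype.ext
    refine hcen g.1 g.2 ?_ x.1 ⟨hx, x.2⟩
    rw [mem_normalizer_iff] at hg ⊢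
    intro y
    constructor
    · intro hy
      exact ⟨(hg ⟨y, hy.2⟩).1 hy.1, (inferInstance : N.Normal).conj_mem y hy.2 g⟩
    · intro hy
      have hyN : y ∈ N := by
        have := (inferInstance : N.Normal).conj_mem _ hy.2 (g : G)⁻¹
        simpa [mul_assoc] using this
      exact ⟨(hg ⟨y, hyN⟩).2 hy.1, hyN⟩)
  exact h1 (by
    rw [eq_bot_iff]
    intro x hx
    exact congrArg Subtype.val (Subsingleton.elim (⟨x, hx⟩ : N) 1))

end Cfsg.Agent.H26.Lf
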