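import Cfsg.Agent.H27.Mt0

set_option autoImplicit false
set_option linter.unusedSectionVars false
set_option linter.unusedVariables false
set_option linter.style.haveILetI false

namespace Cfsg.Agent.H27.Mt
open Matrix Cfsg.Agent.H13

universe u
variable {G : Type*} [Group G]

theorem core_mkA {Y : Type u} [Group Y] [Finite Y] (H : Subgroup Y)
    (hc : ∀ x ∈ H, ∀ y ∈ H, x * y = y * x) :
    ∃ (A : Type u) (_ : AddCommGroup A) (_ : Finite A) (ι : A → Y), Function.Injective ι ∧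
      (∀ a b, ι (a + b) = ι a * ι b) ∧ ∀ y, y ∈ H ↔ ∃ a, ι a = y := by
  letI : CommGroup H := { (inferInstance : Group H) with
    mul_comm := fun a b => Subtype.ext (hc a a.2 b b.2) }
  refine ⟨Additive H, inferInstance, inferInstance, fun a => (a.toMul : Y), ?_, fun a b => rfl, ?_⟩
  · intro a b h
    exact Additive.toMul.injective (Subtype.ext h)
  · intro y
    exact ⟨fun hy => ⟨Additive.ofMul ⟨y, hy⟩, rfl⟩, fun ⟨a, ha⟩ => ha ▸ a.toMul.2⟩

theorem core_zero {Y A : Type*} [Group Y] [AddCommGroup A] {ι : A → Y}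
    (hadd : ∀ a b, ι (a + b) = ι a * ι b) : ι 0 = 1 := by
  have := hadd 0 0
  rw [add_zero] at this
  exact mul_eq_left.1 this.symm

theorem core_pi {k A Y : Type*} {X : Type*} [CommRing k] [AddCommGroup A] [Module k A] [Group Y]
    [Group X] [Finite X] (hk : ∀ (f : A →+ A) (c : k) a, f (c • a) = c • f a)
    (H : Subgroup Y) [hH : H.Normal] {ι : A → Y} (hi : Function.Injective ι)
    (hadd : ∀ a b, ι (a + b) = ι a * ι b) (hmem : ∀ y, y ∈ H ↔ ∃ a, ι a = y) (φ : X →* Y)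
    (N : Subgroup X) [N.Normal] (hN : IsPGroup 2 N) (e : X ⧸ N ≃* G)
    (hcen : ∀ n ∈ N, ∀ y ∈ H, φ n * y = y * φ n)
    (hfix : ∀ x, Odd (orderOf x) → x ≠ 1 → ∀ y ∈ H, φ x * y = y * φ x → y = 1) :
    ∃ π : G →* (A →ₗ[k] A), Nz π ∧ ∀ (x : X) a, ι (π (e x) a) = φ x * ι a * (φ x)⁻¹ := by
  have h0 : ∀ (x : X) a, ∃ b, ι b = φ x * ι a * (φ x)⁻¹ := fun x a =>
    (hmem _).1 (hH.conj_mem _ ((hmem _).2 ⟨a, rfl⟩) _)
  choose r hr using h0
  have radd : ∀ x a b, r x (a + b) = r x a + r x b := fun x a b => hi (by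
    rw [hadd, hr, hr, hr, hadd]; group)
  let ρ : X →* (A →ₗ[k] A) :=
    { toFun := fun x =>
        { toFun := r x
          map_add' := radd x
          map_smul' := fun c a => hk (AddMonoidHom.mk' (r x) (radd x)) c a }
      map_one' := LinearMap.ext fun a => hi (by
        show ι (r 1 a) = ι a
        rw [hr, map_one]; group)
      map_mul' := fun x y => LinearMap.ext fun a => hi (by
        show ι (r (x * y) a) = ι (r x (r y a))
        rw [hr, hr, hr, map_mul]; group) }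
  have hρ : ∀ n ∈ N, ρ n = 1 := fun n hn => LinearMap.ext fun a => hi (by
    show ι (r n a) = ι a
    rw [hr, hcen n hn _ ((hmem _).2 ⟨a, rfl⟩)]; group)
  let π : G →* (A →ₗ[k] A) := (QuotientGroup.lift N ρ hρ).comp e.symm.toMonoidHom
  have hπ : ∀ (x : X) a, ι (π (e x) a) = φ x * ι a * (φ x)⁻¹ := fun x a => by
    have : π (e x) = ρ x := by
      show QuotientGroup.lift N ρ hρ (e.symm (e x)) = ρ x
      rw [MulEquiv.symm_apply_apply]; rfl
    rw [this]; exact hr x a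
  refine ⟨π, fun g ho g1 a => ?_, hπ⟩
  obtain ⟨x, hx, ox⟩ := lift hN e ho
  set s := ∑ i ∈ Finset.range (orderOf g), π (g ^ i) a with hs
  have h1 : π g s = s := by
    rw [hs, map_sum]
    have e1 := Finset.sum_range_succ (fun i => π (g ^ i) a) (orderOf g)
    have e2 := Finset.sum_range_succ' (fun i => π (g ^ i) a) (orderOf g)
    rw [e1, pow_orderOf_eq_one, pow_zero] at e2
    rw [add_right_cancel e2]
    refine Finset.sum_congr rfl fun i _ => ?_
    rw [pow_succ', map_mul, Module.End.mul_apply]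
  have h2 := hπ x s
  rw [hx, h1] at h2
  apply hi
  rw [core_zero hadd]
  refine hfix x (ox ▸ ho) (fun h => g1 ?_) _ ((hmem _).2 ⟨s, rfl⟩) ?_
  · rw [← hx, h, QuotientGroup.mk_one, map_one]
  · calc φ x * ι s = φ x * ι s * (φ x)⁻¹ * φ x := by group
      _ = ι s * φ x := by rw [← h2]

theorem core_fpq {X : Type*} [Group X] [Finite X] {N M : Subgroup X} [hM : M.Normal] (hf : Fp N)
    (hMN : M ≤ N) {x n : X} (ho : Odd (orderOf x)) (h1 : x ≠ 1) (hn : n ∈ N)
    (h : x * n * x⁻¹ * n⁻¹ ∈ M) : n ∈ M := by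
  have inj : ∀ a ∈ N, ∀ b ∈ N, x * a * x⁻¹ * a⁻¹ = x * b * x⁻¹ * b⁻¹ → a = b := by
    intro a ha b hb e
    have := hf x ho h1 (b⁻¹ * a) (N.mul_mem (N.inv_mem hb) ha) (by
      calc x * (b⁻¹ * a) = x * b⁻¹ * x⁻¹ * (x * a * x⁻¹ * a⁻¹) * a * x := by group
        _ = b⁻¹ * a * x := by rw [e]; group)
    exact (inv_mul_eq_one.1 this).symm
  let f : M → M := fun m => ⟨x * m * x⁻¹ * (m : X)⁻¹, M.mul_mem (hM.conj_mem _ m.2 x) (M.inv_mem m.2)⟩
  have hfi : Function.Injective f := fun a b e =>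
    Subtype.ext (inj a (hMN a.2) b (hMN b.2) (congrArg Subtype.val e))
  obtain ⟨m, hm⟩ := Finite.surjective_of_injective hfi ⟨_, h⟩
  rw [← inj m (hMN m.2) n hn (congrArg Subtype.val hm)]
  exact m.2

theorem core_cen {X : Type*} [Group X] [Finite X] (N M : Subgroup X) [N.Normal] [hM : M.Normal]
    (hN : IsPGroup 2 N) (hMN : M ≤ N)
    (hmin : ∀ K : Subgroup X, K.Normal → K ≤ M → K = ⊥ ∨ K = M) :
    (∀ n ∈ N, ∀ m ∈ M, n * m = m * n) ∧ ∀ m ∈ M, m * m = 1 := by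
  haveI : Fact (Nat.Prime 2) := ⟨Nat.prime_two⟩
  by_cases hb : M = ⊥
  · subst hb
    exact ⟨fun n _ m hm => by rw [Subgroup.mem_bot.1 hm]; simp,
      fun m hm => by rw [Subgroup.mem_bot.1 hm]; simp⟩
  have h1 : ∀ n ∈ N, ∀ m ∈ M, n * m = m * n := by
    have := (hmin (M ⊓ Subgroup.centralizer (N : Set X)) inferInstance inf_le_left).resolve_left ?_
    · intro n hn m hm
      exact (this.ge hm).2 n hn
    · intro e
      letI : MulAction N M := MulAction.compHom M ((MulAut.conjNormal (H := M)).comp N.subtype)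
      have hd : 2 ∣ Nat.card M := ((hN.to_le hMN).card_eq_or_dvd).resolve_left fun h =>
        hb (Subgroup.card_eq_one.1 h)
      obtain ⟨b, hb1, hb2⟩ := hN.exists_fixed_point_of_prime_dvd_card_of_fixed_point M hd
        (a := 1) (fun g => map_one (MulAut.conjNormal (H := M) (g : X)))
      have : (b : X) ∈ M ⊓ Subgroup.centralizer (N : Set X) := ⟨b.2, fun n hn => by
        have h3 : n * b * n⁻¹ = b := congrArg Subtype.val (hb1 ⟨n, hn⟩)
        calc n * b = n * b * n⁻¹ * n := by group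
          _ = b * n := by rw [h3]⟩
      rw [e] at this
      exact hb2 (Subtype.ext (Subgroup.mem_bot.1 this).symm)
  refine ⟨h1, ?_⟩
  let K : Subgroup X :=
    { carrier := {m | m ∈ M ∧ m * m = 1}
      mul_mem' := fun {a b} ha hb => ⟨M.mul_mem ha.1 hb.1, by
        calc a * b * (a * b) = a * (b * a) * b := by group
          _ = (a * a) * (b * b) := by rw [h1 b (hMN hb.1) a ha.1]; group
          _ = 1 := by rw [ha.2, hb.2, one_mul]⟩
      one_mem' := ⟨M.one_mem, one_mul 1⟩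
      inv_mem' := fun {a} ha => ⟨M.inv_mem ha.1, by rw [← _root_.mul_inv_rev, ha.2, inv_one]⟩ }
  have hK : K.Normal := ⟨fun a ha g => ⟨hM.conj_mem a ha.1 g, by
    calc g * a * g⁻¹ * (g * a * g⁻¹) = g * (a * a) * g⁻¹ := by group
      _ = 1 := by rw [ha.2]; group⟩⟩
  have := (hmin K hK fun a ha => ha.1).resolve_left ?_
  · intro m hm
    exact (this.ge hm).2
  · intro e
    have hd : 2 ∣ Nat.card M := ((hN.to_le hMN).card_eq_or_dvd).resolve_left fun h =>
      hb (Subgroup.card_eq_one.1 h)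
    obtain ⟨a, ha⟩ := exists_prime_orderOf_dvd_card' 2 hd
    have h2 : (a : X) ∈ K := ⟨a.2, by
      have := pow_orderOf_eq_one a
      rw [ha, pow_two] at this
      exact congrArg Subtype.val this⟩
    rw [e] at h2
    rw [show a = 1 from Subtype.ext (Subgroup.mem_bot.1 h2)] at ha
    simp at ha

theorem core_two {Y A : Type*} [Group Y] [AddCommGroup A] {ι : A → Y}
    (hadd : ∀ a b, ι (a + b) = ι a * ι b) (a : A) : ι (2 • a) = ι a * ι a := by
  rw [two_nsmul, hadd]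

theorem coreB {X : Type u} [Group X] [Finite X] (N M : Subgroup X) [N.Normal] [M.Normal] (hN : IsPGroup 2 N) (e : X ⧸ N ≃* G) (hf : Fp N) (hMN : M ≤ N) (hmin : ∀ K : Subgroup X, K.Normal → K ≤ M → K = ⊥ ∨ K = M) (hsq : ∀ x ∈ N, x * x ∈ M) (hc : ∀ x ∈ N, ∀ y ∈ N, x * y = y * x) (b : DB.{u} G) : ∀ x ∈ N, x * x = 1 := by
  obtain ⟨A, _, _, ι, hi, hadd, hmem⟩ := core_mkA N hc
  obtain ⟨π, hπ, hι⟩ := core_pi (k := ℤ) (A := A) (fun f c a => map_zsmul f c a) N hi hadd hmem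
    (MonoidHom.id X) N hN e hc hf
  have h2 := (core_cen N M hN hMN hmin).2
  have mN : ∀ a, ι a ∈ N := fun a => (hmem _).2 ⟨a, rfl⟩
  have := b A π hπ (fun a => hi (by
      rw [show (4 : ℕ) • a = 2 • (2 • a) by rw [← mul_nsmul], core_two hadd, core_two hadd,
        core_zero hadd]
      exact h2 _ (hsq _ (mN a)))) (fun B hB hinv => by
    let K : Subgroup X :=
      { carrier := ι '' B
        mul_mem' := by
          rintro _ _ ⟨a, ha, rfl⟩ ⟨c, hc, rfl⟩
          exact ⟨a + c, B.add_mem ha hc, hadd a c⟩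
        one_mem' := ⟨0, B.zero_mem, core_zero hadd⟩
        inv_mem' := by
          rintro _ ⟨a, ha, rfl⟩
          refine ⟨-a, B.neg_mem ha, ?_⟩
          rw [eq_inv_iff_mul_eq_one, ← hadd, neg_add_cancel, core_zero hadd] }
    have hK : K.Normal := ⟨by
      rintro _ ⟨a, ha, rfl⟩ g
      exact ⟨π (e g) a, hinv _ a ha, hι g a⟩⟩
    have hKM : K ≤ M := by
      rintro _ ⟨a, ha, rfl⟩
      obtain ⟨c, rfl⟩ := hB a ha
      rw [core_two hadd]
      exact hsq _ (mN c)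
    rcases hmin K hK hKM with h | h
    · left
      rw [eq_bot_iff]
      intro a ha
      have : ι a ∈ K := ⟨a, ha, rfl⟩
      rw [h, Subgroup.mem_bot, ← core_zero hadd] at this
      exact hi this
    · right
      intro a
      have : ι (2 • a) ∈ K := by rw [h, core_two hadd]; exact hsq _ (mN a)
      obtain ⟨c, hc, e⟩ := this
      rw [← hi e]; exact hc)
  intro x hx
  obtain ⟨a, rfl⟩ := (hmem x).1 hx
  rw [← core_two hadd, this a, core_zero hadd]

theorem coreA {X : Type u} [Group X] [Finite X] (N M : Subgroup X) [N.Normal] [M.Normal] (hN : IsPGroup 2 N) (e : X ⧸ N ≃* G) (hf : Fp N) (hMN : M ≤ N) (hmin : ∀ K : Subgroup X, K.Normal → K ≤ M → K = ⊥ ∨ K = M) (hsq : ∀ x ∈ N, x * x ∈ M) (a : DA.{u} G) : ∀ x ∈ N, ∀ y ∈ N, x * y = y * x := by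
  obtain ⟨h1, h2⟩ := core_cen N M hN hMN hmin
  let q := QuotientGroup.mk' M
  have hq : Function.Surjective q := QuotientGroup.mk'_surjective M
  have q1 : ∀ x, q x = 1 ↔ x ∈ M := fun x => QuotientGroup.eq_one_iff x
  haveI : (N.map q).Normal := Subgroup.Normal.map inferInstance q hq
  have sq : ∀ y ∈ N.map q, y * y = 1 := by
    rintro _ ⟨x, hx, rfl⟩
    rw [← map_mul, q1]; exact hsq x hx
  have cm : ∀ x ∈ N.map q, ∀ y ∈ N.map q, x * y = y * x := by
    intro x hx y hy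
    have e1 := sq _ ((N.map q).mul_mem hx hy)
    calc x * y = (x * y)⁻¹ := eq_inv_of_mul_eq_one_left e1
      _ = y * x := by
        rw [_root_.mul_inv_rev, inv_eq_of_mul_eq_one_right (sq x hx), inv_eq_of_mul_eq_one_right (sq y hy)]
  obtain ⟨U, _, _, ιU, hiU, haU, hmU⟩ := core_mkA (N.map q) cm
  obtain ⟨A, _, _, ι, hi, hadd, hmem⟩ := core_mkA M fun x hx y hy => h1 x (hMN hx) y hy
  letI : Module (ZMod 2) U := AddCommGroup.zmodModule fun u => hiU (by
    rw [core_two haU, core_zero haU]; exact sq _ ((hmU _).2 ⟨u, rfl⟩))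
  letI : Module (ZMod 2) A := AddCommGroup.zmodModule fun u => hi (by
    rw [core_two hadd, core_zero hadd]; exact h2 _ ((hmem _).2 ⟨u, rfl⟩))
  obtain ⟨πU, hU, hιU⟩ := core_pi (k := ZMod 2) (A := U) (fun f c a => ZMod.map_smul f c a) (N.map q) hiU haU hmU
    q N hN e (fun n hn y hy => cm _ ⟨n, hn, rfl⟩ y hy) (by
      rintro x ho x1 _ ⟨n, hn, rfl⟩ h
      refine (q1 n).2 (core_fpq hf hMN ho x1 hn ((q1 _).1 ?_))
      rw [map_mul, map_mul, map_mul, map_inv, map_inv, h]; group)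
  obtain ⟨πM, hM, hι⟩ := core_pi (k := ZMod 2) (A := A) (fun f c a => ZMod.map_smul f c a) M hi hadd hmem
    (MonoidHom.id X) N hN e h1 (fun x ho x1 y hy => hf x ho x1 y (hMN hy))
  have cM : ∀ x ∈ N, ∀ y ∈ N, x * y * x⁻¹ * y⁻¹ ∈ M := fun x hx y hy => (q1 _).1 (by
    rw [map_mul, map_mul, map_mul, map_inv, map_inv, cm _ ⟨x, hx, rfl⟩ _ ⟨y, hy, rfl⟩]; group)
  have hs : ∀ u, ∃ x ∈ N, q x = ιU u := fun u => (hmU _).2 ⟨u, rfl⟩
  choose s hsN hs using hs
  have hb : ∀ u v, ∃ c, ι c = s u * s v * (s u)⁻¹ * (s v)⁻¹ := fun u v =>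
    (hmem _).1 (cM _ (hsN u) _ (hsN v))
  choose b hb using hb
  have key : ∀ u v, ∀ x ∈ N, ∀ y ∈ N, q x = ιU u → q y = ιU v → ι (b u v) = x * y * x⁻¹ * y⁻¹ := by
    intro u v x hx y hy ex ey
    have m1 : x⁻¹ * s u ∈ M := (q1 _).1 (by rw [map_mul, map_inv, hs, ex, inv_mul_cancel])
    have m2 : y⁻¹ * s v ∈ M := (q1 _).1 (by rw [map_mul, map_inv, hs, ey, inv_mul_cancel])
    obtain ⟨m, hm, e1⟩ : ∃ m ∈ M, s u = x * m := ⟨_, m1, by group⟩
    obtain ⟨m', hm', e2⟩ : ∃ m ∈ M, s v = y * m := ⟨_, m2, by group⟩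
    rw [hb, e1, e2]
    have c1 := h1 (y * m') (N.mul_mem hy (hMN hm')) m hm
    have c2 := h1 x⁻¹ (N.inv_mem hx) m' hm'
    calc x * m * (y * m') * (x * m)⁻¹ * (y * m')⁻¹ = x * (m * (y * m')) * m⁻¹ * x⁻¹ * m'⁻¹ * y⁻¹ := by group
      _ = x * y * (m' * x⁻¹) * m'⁻¹ * y⁻¹ := by rw [← c1]; group
      _ = x * y * x⁻¹ * y⁻¹ := by rw [← c2]; group
  have b1 : ∀ u u' v, b (u + u') v = b u v + b u' v := fun u u' v => hi (by
    rw [hadd, key _ _ _ (N.mul_mem (hsN u) (hsN u')) _ (hsN v) (by rw [map_mul, hs, hs, haU]) (hs v),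
      hb, hb]
    have c1 := h1 (s u) (hsN u) _ (cM _ (hsN u') _ (hsN v))
    have c2 := h1 _ (N.mul_mem (N.mul_mem (N.mul_mem (hsN u) (hsN v)) (N.inv_mem (hsN u)))
      (N.inv_mem (hsN v))) _ (cM _ (hsN u') _ (hsN v))
    rw [c2]
    calc s u * s u' * s v * (s u * s u')⁻¹ * (s v)⁻¹
        = s u * (s u' * s v * (s u')⁻¹ * (s v)⁻¹) * (s v * (s u)⁻¹ * (s v)⁻¹) := by group
      _ = _ := by rw [c1]; group)
  have b2 : ∀ u v v', b u (v + v') = b u v + b u v' := fun u v v' => hi (by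
    rw [hadd, key _ _ _ (hsN u) _ (N.mul_mem (hsN v) (hsN v')) (hs u) (by rw [map_mul, hs, hs, haU]),
      hb, hb]
    have c1 := h1 (s v) (hsN v) _ (cM _ (hsN u) _ (hsN v'))
    calc s u * (s v * s v') * (s u)⁻¹ * (s v * s v')⁻¹
        = s u * s v * (s u)⁻¹ * (s v)⁻¹ * (s v * (s u * s v' * (s u)⁻¹ * (s v')⁻¹)) * (s v)⁻¹ := by group
      _ = _ := by rw [c1]; group)
  let β : U →ₗ[ZMod 2] U →ₗ[ZMod 2] A := LinearMap.mk₂ (ZMod 2) b b1
    (fun c u v => ZMod.map_smul (AddMonoidHom.mk' (fun u => b u v) fun u u' => b1 u u' v) c u) b2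
    (fun c u v => ZMod.map_smul (AddMonoidHom.mk' (b u) (b2 u)) c v)
  have hβ := a U A πU πM hU hM β (fun g u v => by
    obtain ⟨y, rfl⟩ := e.surjective g
    obtain ⟨x, rfl⟩ := QuotientGroup.mk_surjective y
    apply hi
    show ι (b _ _) = ι (πM _ (b u v))
    rw [hι, hb u v, key _ _ _ ((inferInstance : N.Normal).conj_mem _ (hsN u) x) _
      ((inferInstance : N.Normal).conj_mem _ (hsN v) x)
      (by rw [hιU, map_mul, map_mul, map_inv, hs]) (by rw [hιU, map_mul, map_mul, map_inv, hs])]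
    simp only [MonoidHom.id_apply]
    group)
  intro x hx y hy
  obtain ⟨u, hu⟩ := (hmU _).1 ⟨x, hx, rfl⟩
  obtain ⟨v, hv⟩ := (hmU _).1 ⟨y, hy, rfl⟩
  have h3 := key u v x hx y hy hu.symm hv.symm
  have h4 : b u v = 0 := by
    show β u v = 0
    rw [hβ]; rfl
  rw [h4, core_zero hadd] at h3
  calc x * y = x * y * x⁻¹ * y⁻¹ * (y * x) := by group
    _ = y * x := by rw [← h3, one_mul]

theorem grp (c : Core.{u} G) {X : Type u} [Group X] [Finite X] (N : Subgroup X) [N.Normal] (hN : IsPGroup 2 N) (e : X ⧸ N ≃* G) (hf : Fp N) : ∀ x ∈ N, x * x = 1 := by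
  induction hn : Nat.card X using Nat.strong_induction_on generalizing X with
  | _ n ih =>
  by_cases hb : N = ⊥
  · intro x hx
    rw [hb] at hx
    rw [Subgroup.mem_bot.1 hx, one_mul]
  obtain ⟨M, ⟨hMn, hM1, hMN⟩, hmin⟩ := exists_minimal_of_wellFoundedLT
    (fun K : Subgroup X => K.Normal ∧ K ≠ ⊥ ∧ K ≤ N) ⟨N, inferInstance, hb, le_rfl⟩
  let q := QuotientGroup.mk' M
  have hq : Function.Surjective q := QuotientGroup.mk'_surjective M
  have q1 : ∀ x, q x = 1 ↔ x ∈ M := fun x => QuotientGroup.eq_one_iff x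
  haveI : (N.map q).Normal := Subgroup.Normal.map inferInstance q hq
  have hlt : Nat.card (X ⧸ M) < n := by
    rw [← hn, Subgroup.card_eq_card_quotient_mul_card_subgroup M]
    have h1 : 1 < Nat.card M := (Subgroup.one_lt_card_iff_ne_bot M).2 hM1
    have h2 : 0 < Nat.card (X ⧸ M) := Nat.card_pos
    nlinarith
  have := ih _ hlt (N.map q) (hN.map q)
    ((QuotientGroup.quotientQuotientEquivQuotient M N hMN).trans e) (by
      rintro g ho g1 _ ⟨m, hm, rfl⟩ h
      obtain ⟨x, hx, ox⟩ := lift (hN.to_le hMN) (MulEquiv.refl (X ⧸ M)) ho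
      have hx' : q x = g := hx
      refine (q1 m).2 (core_fpq hf hMN (ox ▸ ho) (fun h => g1 ?_) hm ((q1 _).1 ?_))
      · rw [← hx', h, map_one]
      · rw [map_mul, map_mul, map_mul, map_inv, map_inv, hx', h]; group) rfl
  refine c X N M hN ⟨e⟩ hf hMN (fun K hK hKM => ?_) fun x hx => (q1 _).1 ?_
  · by_cases hK1 : K = ⊥
    · exact Or.inl hK1
    · exact Or.inr (le_antisymm hKM (hmin ⟨hK, hK1, hKM.trans hMN⟩ hKM))
  · rw [map_mul]; exact this _ ⟨x, hx, rfl⟩

end Cfsg.Agent.H27.Mt
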