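import Cfsg.Agent.H18.MaxUnif
import Cfsg.Agent.H3.Blk2
import Cfsg.Agent.H4.HW2
import Cfsg.Agent.H2.Pump
/-! Sylow subgroups of rank two with a central element fixed by the normaliser: transfer and the small families. -/
set_option autoImplicit false
set_option linter.unusedSectionVars false
namespace Cfsg.Agent.Rk2
open Cfsg Subgroup Cfsg.Agent.FT Cfsg.Agent.H3 Cfsg.Agent.H18
open scoped commutatorElement

universe u
variable {G : Type u} [Group G] [Finite G] {p n : ℕ} {A B P T W X Y : Subgroup G} {a b c g w x y : G}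

/-- `N(P)` has no fixed points on `P / P'` -/
def Star (P : Subgroup G) : Prop := ∀ Y, Y ≤ P → ⁅Y, N(P)⁆ ≤ ⁅P, P⁆ → Y ≤ ⁅P, P⁆

theorem star_of (hS : Syl p P ⊤) (h : P ≤ ⁅N(P), N(P)⁆) : Star P := fun Y hY hc => by
  have hn : N(P) ≤ N(⁅P, P⁆) := norms_der le_rfl
  have hP : P ≤ N(⁅P, P⁆) := (le_nrm P).trans hn
  have h1 := ((hS.subl (le_nrm P) le_top).isHall.quo hn).inf_der_center_ab (ab_quo_der P)
  refine (quo_eq_bot (hY.trans hP)).1 (eq_bot_iff.2 (le_trans (le_inf (le_inf (quo_mono _ hY) ?_) ?_) h1.le))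
  · rw [← quo_der hn]; exact quo_mono _ (hY.trans h)
  · exact quo_cents_of_comm_le hc

theorem iter_mem (hx : x ∈ P) (hy : y ∈ P) (k : ℕ) : (fun t : G => t⁻¹ * y⁻¹ * t * y)^[k] x ∈ γ[k](P) := by
  induction k with
  | zero => exact hx
  | succ k ih =>
    rw [Function.iterate_succ_apply', lcs_succ]
    have := commutator_mem_commutator (inv_mem ih) (inv_mem hy)
    rwa [commutatorElement_def, inv_inv, inv_inv] at this

theorem yosh [hp : Fact p.Prime] (h2 : p ≠ 2) (S : Sylow p G) (hG : _root_.commutator G = ⊤)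
    (h : ∀ W, W ≤ (S : Subgroup G) → W.relIndex S = p → γ[2]((S : Subgroup G)) ≤ Phi W) :
    (S : Subgroup G) ≤ ⁅N((S : Subgroup G)), N((S : Subgroup G))⁆ := by
  by_contra hn
  obtain ⟨x, hx, z, hz, W, a1, a2, a3, A, _, ψ, a4, a5, a6⟩ := H4.hall_wielandt S (W := S)
    ⟨le_rfl, fun g hg => eq_of_card_le hg (FT.card_cj g _).ge⟩ (fun e => hn (by
      rw [hG, inf_top_eq] at e; exact e.le.trans inf_le_right))
  let φ : W →* A := MonoidHom.mk' (fun a => ψ a) fun a b => a5 _ a.2 _ b.2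
  have h3 : 2 ≤ p - 1 := by have := hp.out.two_le; omega
  have h4 := h W a1 a2 (lcs_anti _ h3 (iter_mem hx hz _))
  have h5 : Phi W ≤ pker φ := by
    refine (((syl_top hp.out S).pi.mono a1).Phi_le_iff hp.out).2 ⟨?_, fun y hy => ?_⟩
    · rw [← pmap_eq_bot (der_le W), pmap_comm φ le_rfl le_rfl, comm_eq_bot]
      exact fun u _ => mem_cen.2 fun v _ => mul_comm v u
    · rw [← pfun_eq_one_iff (pow_mem hy p), pfun_pow φ hy, a4]
  have h6 := (mem_pker.1 (h5 h4)).2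
  rw [pfun_of_mem φ a3] at h6
  exact a6 h6

/-- the standing hypotheses -/
structure Ctx (p : ℕ) (P : Subgroup G) (x : G) : Prop where
  prime : p.Prime
  ne : p ≠ 2
  syl : Syl p P ⊤
  rk : ∀ A, A ≤ P → Abelem p A → #A ≤ p ^ 2
  mem : x ∈ P
  ord : orderOf x = p
  nrm : N(P) ≤ C[x]
  star : (∀ W, W ≤ P → W.relIndex P = p → γ[2](P) ≤ Phi W) → Star P

theorem Ctx.pi (h : Ctx p P x) : PGrp p P := h.syl.pi
theorem Ctx.ne_one (h : Ctx p P x) : x ≠ 1 := fun e => h.prime.one_lt.ne' (by rw [← h.ord, e, orderOf_one])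
theorem Ctx.cen (h : Ctx p P x) : x ∈ Z(P) := ⟨h.mem, le_cen1.1 ((le_nrm P).trans h.nrm)⟩

theorem Ctx.odd (h : Ctx p P x) : Odd #P := by
  obtain ⟨k, e⟩ := h.pi.card
  rw [e]; exact (h.prime.odd_of_ne_two h.ne).pow

theorem Phi_le_of_idx (hp : p.Prime) (hW : W ≤ P) (hi : W.relIndex P = p) : Phi P ≤ W :=
  (maxIn_of_prime_relIndex (hi ▸ hp) hW).Phi_le

theorem Ctx.der_le (h : Ctx p P x) (hW : W ≤ P) (hi : W.relIndex P = p) : ⁅P, P⁆ ≤ W :=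
  h.pi.der_le_Phi.trans (Phi_le_of_idx h.prime hW hi)

theorem Ctx.not_ab (h : Ctx p P x) : ¬ Ab P := fun hab => by
  have e : ⁅P, P⁆ = ⊥ := ab_iff_der.1 hab
  have h1 := h.star (fun W _ _ => by rw [lcs_succ, lcs_succ, lcs_zero, e, commutator_bot_left]; exact bot_le) ⟪x⟫
    (zpowers_le.2 h.mem) ((comm_eq_bot'.2 (by rw [cen_zpowers]; exact h.nrm)).le.trans bot_le)
  rw [e] at h1
  exact h.ne_one (mem_bot.1 (h1 (mem_zpowers x)))

theorem Ctx.compl (h : Ctx p P x) : ∃ H, PiGrp {p}ᶜ H ∧ H ≤ N(P) ∧ P ⊔ H = N(P) := by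
  obtain ⟨H, h1, h2⟩ := (h.syl.subl (le_nrm P) le_top).exists_compl le_rfl
  exact ⟨H, h1.pi, h2.right, h2.sup⟩

theorem cent_le_der (hs : Star P) {H : Subgroup G} (e : P ⊔ H = N(P)) (hY : Y ≤ P) (hc : H ≤ C(Y)) : Y ≤ ⁅P, P⁆ := by
  refine hs Y hY ?_
  rw [← e]
  exact comm_sup_le' (e.le.trans (norms_der le_rfl)) (commSS hY le_rfl) ((comm_eq_bot'.2 hc).le.trans bot_le)

theorem Ctx.not_metacyc (h : Ctx p P x) : ¬ Metacyc P := fun hm => by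
  have hs : Star P := h.star fun W hW hi => by
    have hc := hm.der_cyc
    have hD : PGrp p ⁅P, P⁆ := h.pi.mono (FT.der_le P)
    refine le_trans ?_ ((h.pi.mono hW).Phi_mono (h.der_le hW hi))
    by_cases h1 : ⁅P, P⁆ = ⊥
    · rw [lcs_succ, lcs_succ, lcs_zero, h1, commutator_bot_left]; exact bot_le
    have hlt : ⁅⁅P, P⁆, P⁆ < ⁅P, P⁆ := h.pi.comm_lt hD (der_nml P).nrm h1
    refine le_Phi hlt.le fun M hM => ?_
    rcases hc.le_or_le hD hlt.le hM.lt.le with e | e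
    · exact e
    · exact (e.eq_or_lt.resolve_right fun e' => hlt.ne (hM.max _ e' hlt.le)).ge
  obtain ⟨H, h1, h2, h3⟩ := h.compl
  obtain ⟨-, hsd⟩ := coprime_metacyclic_cent_sdprod h.prime h.pi h.odd h1 hm h2
  have h4 : P ⊓ C(H) ≤ Phi P := (cent_le_der hs h3 inf_le_left (centsC inf_le_right)).trans h.pi.der_le_Phi
  have h5 : ⁅P, H⁆ = P := Phi_nongen hsd.left (hsd.sup.ge.trans (sup_le le_sup_right (h4.trans le_sup_left)))
  have h6 := hsd.inf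
  rw [h5] at h6
  exact h.ne_one (mem_bot.1 (h6.le ⟨h.mem, h.mem, le_cen1.1 (h2.trans h.nrm)⟩))

/-- either `N(P)` centralises `Z(P)` or the elements of order `p` are central -/
theorem Ctx.center (h : Ctx p P x) : N(P) ≤ C(Z(P)) ∨ ∀ y ∈ P, y ^ p = 1 → y ∈ C(P) := by
  by_cases hc : Cyc Z(P)
  · obtain ⟨H, h1, h2, h3⟩ := h.compl
    have hZ : PGrp p Z(P) := h.pi.mono inf_le_left
    refine Or.inl (h3.ge.trans (sup_le (le_cen_center le_rfl) (coprime_cyclic_faithful (norms_center h2)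
      (hZ.cop h1) hc hZ fun e => h.ne_one (mem_bot.1 (e.le ⟨h.cen, le_cen1.1 (h2.trans h.nrm)⟩)))))
  · refine Or.inr fun y hy e => ?_
    have hE := abelem_Ohm_center p P
    have hle : Ω[p](Z(P)) ≤ P := (Ohm_le p _).trans inf_le_left
    have h1 : p ^ 2 ≤ #Ω[p](Z(P)) := by
      refine Nat.le_of_dvd Nat.card_pos (hE.sq_dvd_card h.prime fun h2 => hc ?_)
      exact (ab_center P).cyc_of_card_Ohm (h.pi.mono inf_le_left) h.prime (hE.card_dvd_of_cyc h2)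
    have h2 := eq_of_card_le (le_sup_left : Ω[p](Z(P)) ≤ Ω[p](Z(P)) ⊔ ⟪y⟫) ((h.rk _ (sup_le hle (zpowers_le.2 hy))
      (hE.sup_zpowers (centsC (Ohm_center_le_cen p le_rfl) hy) e)).trans h1)
    exact ((Ohm_le p _).trans inf_le_right) (h2.ge (mem_sup_right (mem_zpowers y)))

theorem comm_clo_le {s t : Set G} (hs : closure s ≤ N(X)) (ht : closure t ≤ N(X)) (h : ∀ u ∈ s, ∀ v ∈ t, ⁅u, v⁆ ∈ X) :
    ⁅closure s, closure t⁆ ≤ X := by
  refine (quo_cents_iff hs ht).1 ((quo_le_iff hs).2 ((closure_le _).2 fun u hu => ?_))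
  have hu' := hs (subset_closure hu)
  refine mem_qpre.2 ⟨hu', le_cen1.1 ((quo_le_iff ht).2 ((closure_le _).2 fun v hv => ?_))⟩
  have hv' := ht (subset_closure hv)
  exact mem_qpre.2 ⟨hv', mem_cen1.2 ((coset_commute_iff hu' hv').2 (h u hu v hv)).symm⟩

theorem clo3 (a b c : G) : closure ({a, b, c} : Set G) = (⟪b⟫ ⊔ ⟪c⟫) ⊔ ⟪a⟫ := by
  rw [Set.insert_eq, Set.insert_eq, Subgroup.closure_union, Subgroup.closure_union, sup_comm, zpowers_eq_closure, zpowers_eq_closure,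
    zpowers_eq_closure]

theorem card3 (hbc : b * c = c * b) (ha : a ∈ N(⟪b⟫ ⊔ ⟪c⟫)) :
    #(closure ({a, b, c} : Set G)) ∣ orderOf b * orderOf c * orderOf a := by
  rw [clo3]
  refine (card_sup_dvd (zpowers_le.2 ha)).trans (Nat.mul_dvd_mul ?_ (card_zpowers' a).dvd)
  rw [← card_zpowers', ← card_zpowers']
  exact card_sup_dvd (norms_zpowers_of_cen1 (zpowers_le.2 (mem_cen1.2 hbc.symm)))

theorem ab_of_cen (ha : a ∈ C(closure ({a, b, c} : Set G))) (hbc : b * c = c * b) : Ab (closure ({a, b, c} : Set G)) := by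
  rw [clo3] at ha ⊢
  exact ((ab_zpowers b).sup (ab_zpowers c) (by rw [cen_zpowers]; exact zpowers_le.2 (mem_cen1.2 hbc.symm))).sup
    (ab_zpowers a) (zpowers_le.2 (cen_anti le_sup_left ha))

theorem mem_cen_clo (h1 : a * w = w * a) (h2 : b * w = w * b) (h3 : c * w = w * c) :
    w ∈ C(closure ({a, b, c} : Set G)) := by
  refine le_cen1.1 ((closure_le _).2 ?_)
  rintro u (rfl | rfl | rfl)
  exacts [mem_cen1.2 h1, mem_cen1.2 h2, mem_cen1.2 h3]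

theorem der_clo3 (hn : closure ({a, b, c} : Set G) ≤ N(X)) (h1 : ⁅a, b⁆ ∈ X) (h2 : ⁅a, c⁆ ∈ X) (h3 : b * c = c * b) :
    ⁅closure ({a, b, c} : Set G), closure ({a, b, c} : Set G)⁆ ≤ X := by
  have h4 : ⁅b, c⁆ ∈ X := by rw [commutatorElement_eq_one_iff_mul_comm.2 h3]; exact one_mem X
  have i : ∀ u v : G, ⁅u, v⁆ ∈ X → ⁅v, u⁆ ∈ X := fun u v h => by rw [← commutatorElement_inv]; exact inv_mem h
  have o : ∀ u : G, ⁅u, u⁆ ∈ X := fun u => by rw [commutatorElement_self]; exact one_mem X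
  refine comm_clo_le hn hn ?_
  rintro u (rfl | rfl | rfl) v (rfl | rfl | rfl)
  exacts [o _, h1, h2, i _ _ h1, o _, h4, i _ _ h2, i _ _ h4, o _]

theorem nrm_of_comm (h1 : ⁅a, b⁆ ∈ ⟪b⟫ ⊔ ⟪c⟫) (h2 : ⁅a, c⁆ ∈ ⟪b⟫ ⊔ ⟪c⟫) : a ∈ N(⟪b⟫ ⊔ ⟪c⟫) := by
  refine mem_nrm_of_cj_le ?_
  rw [FT.cj_sup, FT.cj_zpowers, FT.cj_zpowers]
  refine sup_le (zpowers_le.2 ?_) (zpowers_le.2 ?_)
  · have := mul_mem h1 (mem_sup_left (mem_zpowers b))
    rwa [commutatorElement_def, inv_mul_cancel_right] at this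
  · have := mul_mem h2 (mem_sup_right (mem_zpowers c))
    rwa [commutatorElement_def, inv_mul_cancel_right] at this

theorem Ctx.type2 (h : Ctx p P x) (hn : #P = p ^ n) (h3 : 3 ≤ n) (e : closure ({a, b, c} : Set G) = P) (ea : a ^ p = 1)
    (eb : b ^ p = 1) (ec : c ^ p ^ (n - 2) = 1) (ac : a * c = c * a) (bc : b * c = c * b)
    (ab : ⁅a, b⁆ = c ^ p ^ (n - 3)) : n = 3 ∧ ∀ y ∈ P, y ^ p = 1 := by
  subst e
  have hc : c ∈ C(closure ({a, b, c} : Set G)) := mem_cen_clo ac bc rfl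
  have ha : a ∈ closure ({a, b, c} : Set G) := subset_closure (by simp)
  have hb : b ∈ closure ({a, b, c} : Set G) := subset_closure (by simp)
  have hc' : c ∈ closure ({a, b, c} : Set G) := subset_closure (by simp)
  have ac' : ⁅a, c⁆ = 1 := commutatorElement_eq_one_iff_mul_comm.2 ac
  have hwc : ⁅a, b⁆ ∈ C(closure ({a, b, c} : Set G)) := ab ▸ pow_mem hc _
  have wp : ⁅a, b⁆ ^ p = 1 := by rw [ab, ← pow_mul, ← pow_succ, show n - 3 + 1 = n - 2 by omega, ec]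
  have hD := der_clo3 (norms_zpowers_of_cen1 (le_cen1.2 hwc)) (mem_zpowers _) (ac' ▸ one_mem _) bc
  have hcl := hD.trans (zpowers_le.2 hwc)
  have hs := h.star fun W _ _ => (comm_eq_bot.2 hcl).le.trans bot_le
  rcases h.center with h1 | h1
  · obtain ⟨k, hk⟩ := mem_zpowers_iff.1 (hD (hs _ inf_le_left ((comm_eq_bot'.2 h1).le.trans bot_le) ⟨hc', hc⟩))
    have cp : c ^ p = 1 := by rw [← hk, ← zpow_natCast, ← zpow_mul, mul_comm, zpow_mul, zpow_natCast, wp, one_zpow]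
    have h2 := (card3 bc (nrm_of_comm (ab ▸ pow_mem (mem_sup_right (mem_zpowers c)) _) (ac' ▸ one_mem _))).trans
      (Nat.mul_dvd_mul (Nat.mul_dvd_mul (orderOf_dvd_of_pow_eq_one eb) (orderOf_dvd_of_pow_eq_one cp))
        (orderOf_dvd_of_pow_eq_one ea))
    rw [hn, show p * p * p = p ^ 3 by ring, Nat.pow_dvd_pow_iff_le_right h.prime.one_lt] at h2
    refine ⟨by omega, fun y hy => exponent_odd_nil23 h.prime h.pi h.odd (Or.inl (clsLE_two.2 hcl)) y ?_⟩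
    refine (closure_le _).2 ?_ hy
    rintro u (rfl | rfl | rfl)
    exacts [mem_Ohm ha ea, mem_Ohm hb eb, mem_Ohm hc' cp]
  · exact absurd (ab_of_cen (h1 a ha ea) bc) h.not_ab

theorem Ctx.type3 {s : ℕ} (h : Ctx p P x) (hn : #P = p ^ n) (h4 : 4 ≤ n) (e : closure ({a, b, c} : Set G) = P)
    (ea : a ^ p = 1) (eb : b ^ p = 1) (ec : c ^ p ^ (n - 2) = 1) (bc : b * c = c * b)
    (ab : ⁅a, b⁆ = c ^ (s * p ^ (n - 3))) (ac : ⁅a, c⁆ = b) : False := by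
  have hp := h.prime
  have hP := h.pi
  have hm := h.not_metacyc
  have e' := e
  rw [clo3] at e'
  have ha : a ∈ P := e ▸ subset_closure (by simp)
  have hb : b ∈ P := e ▸ subset_closure (by simp)
  have hc : c ∈ P := e ▸ subset_closure (by simp)
  have cbc : Commute b c := bc
  have e1 : a * c * a⁻¹ = b * c := by rw [← ac, commutatorElement_def, inv_mul_cancel_right]
  have hcp : c ^ p ∈ C(P) := e ▸ mem_cen_clo (mul_inv_eq_iff_eq_mul.1 (by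
    rw [← conj_pow, e1, cbc.mul_pow, eb, one_mul])) (cbc.pow_right p) ((Commute.refl c).pow_right p)
  have e2 : s * p ^ (n - 3) = p * (s * p ^ (n - 4)) := by
    rw [show n - 3 = n - 4 + 1 by omega, pow_succ]; ring
  have hwc : ⁅a, b⁆ ∈ C(P) := by rw [ab, e2, pow_mul]; exact pow_mem hcp _
  have wp : ⁅a, b⁆ ^ p = 1 := by
    rw [ab, ← pow_mul, mul_assoc, ← pow_succ, show n - 3 + 1 = n - 2 by omega, mul_comm, pow_mul, ec, one_pow]
  have hT : Ab (⟪b⟫ ⊔ ⟪c⟫) := (ab_zpowers b).sup (ab_zpowers c) (by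
    rw [cen_zpowers]; exact zpowers_le.2 (mem_cen1.2 bc.symm))
  have wT : ⁅a, b⁆ ∈ ⟪b⟫ ⊔ ⟪c⟫ := ab ▸ pow_mem (mem_sup_right (mem_zpowers c)) _
  have hTP : ⟪b⟫ ⊔ ⟪c⟫ ≤ P := sup_le (zpowers_le.2 hb) (zpowers_le.2 hc)
  have haT : a ∈ N(⟪b⟫ ⊔ ⟪c⟫) := nrm_of_comm wT (by rw [ac]; exact mem_sup_left (mem_zpowers b))
  have hi : (⟪b⟫ ⊔ ⟪c⟫).relIndex P ∣ p := e' ▸ relIndex_sup_zpowers_dvd (hp := ⟨hp⟩) haT (ea ▸ one_mem _)
  have hi' : (⟪b⟫ ⊔ ⟪c⟫).relIndex P = p := ((Nat.dvd_prime hp).1 hi).resolve_left fun h1 =>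
    h.not_ab (hT.mono (relIndex_eq_one.1 h1))
  have hB : Abelem p (⟪b⟫ ⊔ ⟪⁅a, b⁆⟫) := (abelem_zpowers eb).sup_zpowers (cen_anti (zpowers_le.2 hb) hwc) wp
  have hBT : ⟪b⟫ ⊔ ⟪⁅a, b⁆⟫ ≤ ⟪b⟫ ⊔ ⟪c⟫ := sup_le le_sup_left (zpowers_le.2 wT)
  have hwn : P ≤ N(⟪⁅a, b⁆⟫) := norms_zpowers_of_cen1 (le_cen1.2 hwc)
  have hBP : ⁅⟪b⟫ ⊔ ⟪⁅a, b⁆⟫, P⁆ ≤ ⟪⁅a, b⁆⟫ := by
    refine comm_sup_le ((hBT.trans hTP).trans hwn) ?_ ((comm_eq_bot.2 (zpowers_le.2 hwc)).le.trans bot_le)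
    rw [← e', commC]
    refine comm_sup_le (e'.le.trans hwn) ((comm_eq_bot.2 (hT.cents le_sup_left le_rfl)).le.trans bot_le) ?_
    rw [zpowers_eq_closure a, zpowers_eq_closure b]
    refine comm_clo_le (((closure_le _).2 (by simpa using ha)).trans hwn) (((closure_le _).2 (by simpa using hb)).trans hwn) ?_
    rintro u rfl v rfl
    exact mem_zpowers _
  have hD : ⁅P, P⁆ ≤ ⟪b⟫ ⊔ ⟪⁅a, b⁆⟫ := by
    have := der_clo3 (e.le.trans (norms_of_comm_le (hBP.trans le_sup_right))) (mem_sup_right (mem_zpowers _))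
      (by rw [ac]; exact mem_sup_left (mem_zpowers b)) bc
    rwa [e] at this
  have hg : γ[2](P) ≤ ⟪⁅a, b⁆⟫ := (commSS hD le_rfl).trans hBP
  have bD : b ∈ ⁅P, P⁆ := ac ▸ commutator_mem_commutator ha hc
  have hs : Star P := h.star fun W hW hiW => by
    have pW := hP.mono hW
    by_cases h1 : W ≤ C(⁅P, P⁆)
    · by_cases h2 : W ≤ ⟪b⟫ ⊔ ⟪c⟫
      · have h3 : W = ⟪b⟫ ⊔ ⟪c⟫ := eq_of_card_le h2 (Nat.le_of_mul_le_mul_right (c := p) (by
          have q1 := FT.card_mul_relIndex hTP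
          have q2 := FT.card_mul_relIndex hW
          rw [hi'] at q1
          rw [hiW] at q2
          rw [q1, q2]) hp.pos)
        refine hg.trans (zpowers_le.2 ?_)
        rw [ab, e2, pow_mul]
        exact pow_mem (pW.pow_mem_Phi (h3.ge (mem_sup_right (mem_zpowers c)))) _
      · have h3 := (maxIn_of_prime_relIndex (hi' ▸ hp) hTP).sup_eq hW h2
        have h5 : P ≤ C(⁅P, P⁆) := h3.ge.trans (sup_le (hT.cents (hD.trans hBT) le_rfl) h1)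
        exact (comm_eq_bot'.2 h5).le.trans bot_le
    · have h2 : ⁅⁅P, P⁆, W⁆ ≠ ⊥ := fun e => h1 (comm_eq_bot'.1 e)
      have h3 : ⁅⁅P, P⁆, W⁆ ≤ ⟪⁅a, b⁆⟫ := (commSS le_rfl hW).trans hg
      have h5 : ⁅a, b⁆ ≠ 1 := fun e => h2 (eq_bot_iff.2 (h3.trans (by rw [e, zpowers_one_eq_bot])))
      have h6 := eq_of_le_prime (by rw [card_zpowers', orderOf_eq_prime (hp := ⟨hp⟩) wp h5]; exact hp) h3 h2
      exact hg.trans (h6.ge.trans ((commSS (h.der_le hW hiW) le_rfl).trans pW.der_le_Phi))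
  rcases h.center with h1 | h1
  swap
  · exact h.not_ab (e ▸ ab_of_cen (e.symm ▸ h1 a ha ea) bc)
  have hZD : Z(P) ≤ ⁅P, P⁆ := hs _ inf_le_left ((comm_eq_bot'.2 h1).le.trans bot_le)
  have hcard : #(⟪b⟫ ⊔ ⟪c⟫) = p ^ (n - 1) := Nat.eq_of_mul_eq_mul_right hp.pos (by
    rw [← pow_succ, show n - 1 + 1 = n by omega, ← hn, ← FT.card_mul_relIndex hTP, hi'])
  have hO := h.rk _ ((Ohm_le p _).trans hTP) (hT.abelem_Ohm p)
  have hDO : ⁅P, P⁆ ≤ Ω[p](⟪b⟫ ⊔ ⟪c⟫) := hD.trans (hB.le_Ohm hBT)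
  by_cases h2 : P ≤ C(⁅P, P⁆)
  · -- class two: `b` is central, `P' = ⟨b⟩`
    have bC : b ∈ C(P) := centsC h2 bD
    have h5 : ⁅a, b⁆ = 1 := commutatorElement_eq_one_iff_mul_comm.2 (mem_cen.1 bC a ha)
    rw [h5, zpowers_one_eq_bot, sup_bot_eq] at hD
    have h6 := hD (hZD ⟨pow_mem hc p, hcp⟩)
    have h7 : #(⟪b⟫ ⊔ ⟪c⟫) ≤ p * p := by
      rw [← FT.card_mul_relIndex (le_sup_left : ⟪b⟫ ≤ ⟪b⟫ ⊔ ⟪c⟫), card_zpowers']
      exact Nat.mul_le_mul (orderOf_le_of_pow_eq_one hp.pos eb) (Nat.le_of_dvd hp.pos (relIndex_sup_zpowers_dvd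
        (hp := ⟨hp⟩) (norms_zpowers_of_cen1 le_rfl (mem_cen1.2 bc.symm)) h6))
    rw [hcard, ← pow_two, Nat.pow_le_pow_iff_right hp.one_lt] at h7
    omega
  · have h3 : P ⊓ C(⁅P, P⁆) = ⟪b⟫ ⊔ ⟪c⟫ := by
      have hle : ⟪b⟫ ⊔ ⟪c⟫ ≤ P ⊓ C(⁅P, P⁆) := le_inf hTP (hT.cents (hD.trans hBT) le_rfl)
      refine (hle.eq_or_lt.resolve_right fun hlt => h2 ?_).symm
      exact ((maxIn_of_prime_relIndex (hi' ▸ hp) hTP).max _ hlt inf_le_left).ge.trans inf_le_right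
    have hNT : N(P) ≤ N(⟪b⟫ ⊔ ⟪c⟫) := h3 ▸ norms_subcent le_rfl (norms_der le_rfl)
    have h5 : p ^ 2 ≤ #⁅P, P⁆ := pow_le_card_lcs (k := 2) hP (fun e => h2 (comm_eq_bot'.1 e)) 1 (by norm_num)
    have h6 := eq_of_card_le hDO (hO.trans h5)
    have h7 : ∀ t ∈ ⟪b⟫ ⊔ ⟪c⟫, t ^ p ∈ Z(P) := fun t ht => by
      obtain ⟨u, ⟨i, rfl⟩, v, ⟨j, rfl⟩, rfl⟩ := (mem_sup_norm (hT.norms le_sup_left |> le_sup_right.trans)).1 ht
      refine ⟨pow_mem (hTP ht) p, ?_⟩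
      dsimp only
      rw [(cbc.zpow_zpow i j).mul_pow, ← zpow_natCast, ← zpow_natCast, ← zpow_mul, ← zpow_mul, mul_comm i, mul_comm j,
        zpow_mul, zpow_mul, zpow_natCast, zpow_natCast, eb, one_zpow, one_mul]
      exact zpow_mem hcp j
    have h8 : ⟪b⟫ ⊔ ⟪c⟫ ≤ ⁅P, P⁆ := hs _ hTP (h6 ▸ commutator_le.2 fun t ht g hg => by
      have m : g * t⁻¹ * g⁻¹ ∈ ⟪b⟫ ⊔ ⟪c⟫ := FT.conj_mem (hNT hg) (inv_mem ht)
      have q : ⁅t, g⁆ = t * (g * t⁻¹ * g⁻¹) := by rw [commutatorElement_def]; group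
      rw [q]
      refine mem_Ohm (mul_mem ht m) ?_
      rw [(show Commute t _ from hT.comm ht m).mul_pow, conj_pow, inv_pow,
        ← mem_cen.1 (h1 hg) _ (inv_mem (h7 t ht)), mul_inv_cancel_right, mul_inv_cancel])
    have h9 := (card_le (h8.trans hDO)).trans hO
    rw [hcard, Nat.pow_le_pow_iff_right hp.one_lt] at h9
    omega

end Cfsg.Agent.Rk2
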