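import Cfsg.Agent.H24.Rk1
/-! Sylow `3`-subgroups of maximal class with a central element fixed by the normaliser. -/
set_option autoImplicit false
set_option linter.unusedSectionVars false
namespace Cfsg.Agent.Rk2
open Cfsg Subgroup Cfsg.Agent.FT Cfsg.Agent.H3 Cfsg.Agent.H18
open scoped commutatorElement

universe u
variable {G : Type u} [Group G] [Finite G] {p n i j k : ℕ} {A B D K P U V W X Y : Subgroup G} {a b c g s t u v x y : G}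

instance : Fact (Nat.Prime 3) := ⟨Nat.prime_three⟩

theorem nml_cases (h : MaxCl p n P) (hK : K ⊴ P) (hle : K ≤ ⁅P, P⁆) (k : ℕ) : γ[k](P) ≤ K ∨ K ≤ γ[k + 1](P) := by
  obtain ⟨j, hj⟩ := (h.pGrp.mono hK.le).card
  have h1 := card_le hle
  rw [hj, h.card_der, Nat.pow_le_pow_iff_right h.prime.one_lt] at h1
  have := h.two_le
  rw [h.eq_lcs hK hj (by omega)]
  by_cases e : n - 1 - j ≤ k
  · exact Or.inl (lcs_anti _ e)
  · exact Or.inr (lcs_anti _ (by omega))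

theorem exists_tsc [Fact p.Prime] (h : MaxCl p n P) (hn : 4 ≤ n) : ∃ t ∈ tsc 1 P, t ∉ γ[1](P) := by
  by_contra hc
  push Not at hc
  have h1 := card_le (show tsc 1 P ≤ γ[1](P) from hc)
  rw [card_tsc h le_rfl (by omega), h.card_lcs le_rfl, Nat.pow_le_pow_iff_right h.prime.one_lt] at h1
  omega

theorem comm_not_mem [Fact p.Prime] (h : MaxCl p n P) (hn : 4 ≤ n) (ht : t ∈ tsc 1 P) (t1 : t ∉ γ[1](P)) (hs : s ∈ P)
    (s1 : s ∉ tsc 1 P) : ⁅t, s⁆ ∉ γ[2](P) := fun hc => by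
  have hPhi : Phi P = γ[1](P) := h.Phi_eq (by omega)
  have e := gen_of_not_mem h.pGrp (by rw [h.Phi_eq (by omega), h.relIndex_der]) (tsc_le _ _ ht) hs (hPhi ▸ t1)
    fun hm => s1 (sup_le (hPhi.le.trans (der_le_tsc 1 P)) (zpowers_le.2 ht) hm)
  have e' : closure ({s, t, 1} : Set G) = P := by rw [clo3, zpowers_one_eq_bot, sup_bot_eq, e]
  have := der_clo3 (X := γ[2](P)) (e'.le.trans (lcs_nml 2 P).nrm) (by rw [← commutatorElement_inv]; exact inv_mem hc)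
    (by rw [commutatorElement_one_right]; exact one_mem _) (by rw [mul_one, one_mul])
  rw [e'] at this
  exact not_lcs_le h (k := 1) (by omega) this

theorem pow_mem_three [Fact p.Prime] (h : MaxCl p n P) (hn : 3 ≤ n) (hs : s ∈ P) (s1 : s ∉ tsc 1 P) (s2 : s ∉ tsc 2 P) :
    s ^ p ∈ γ[3](P) := by
  have h1 : s ^ p ∈ γ[1](P) := (h.Phi_eq hn).le (h.pGrp.pow_mem_Phi hs)
  have e : ⁅s ^ p, s⁆ = 1 := commutatorElement_eq_one_iff_mul_comm.2 ((Commute.refl s).pow_left p)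
  have h2 : s ^ p ∈ γ[2](P) := by_contra fun hc => s1 (mem_tsc_of h le_rfl h1 hc hs (e ▸ one_mem _))
  exact by_contra fun hc => s2 (mem_tsc_of h (by norm_num) h2 hc hs (e ▸ one_mem _))

theorem cube_calc {Q : Type*} [Group Q] {σ τ : Q} (h1 : σ ^ 3 = 1) (h2 : (τ * σ) ^ 3 = 1)
    (c1 : Commute τ (σ * τ * σ⁻¹)) (c2 : Commute τ (σ * (σ * τ * σ⁻¹) * σ⁻¹))
    (c3 : Commute (σ * τ * σ⁻¹) (σ * (σ * τ * σ⁻¹) * σ⁻¹)) (h3 : (σ * τ * σ⁻¹) ^ 3 = 1) : ⁅⁅σ, τ⁆, σ⁆ = 1 := by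
  have e : τ * (σ * τ * σ⁻¹) * (σ * (σ * τ * σ⁻¹) * σ⁻¹) = 1 := by
    have : τ * (σ * τ * σ⁻¹) * (σ * (σ * τ * σ⁻¹) * σ⁻¹) = (τ * σ) ^ 3 * (σ ^ 3)⁻¹ := by
      simp only [pow_succ, pow_zero, one_mul]; group
    rw [this, h1, h2, inv_one, one_mul]
  have q : ⁅⁅σ, τ⁆, σ⁆ = (σ * τ * σ⁻¹) * τ⁻¹ * ((σ * τ * σ⁻¹) * (σ * (σ * τ * σ⁻¹) * σ⁻¹)⁻¹) := by
    simp only [commutatorElement_def]; group
  rw [q]
  generalize σ * (σ * τ * σ⁻¹) * σ⁻¹ = t2 at *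
  generalize σ * τ * σ⁻¹ = t1 at *
  rw [eq_inv_of_mul_eq_one_right e, inv_inv, ← h3]
  simp only [pow_succ, pow_zero, one_mul]
  rw [c1.eq, ← mul_assoc t1 t1 τ, mul_assoc t1 τ⁻¹, ← mul_assoc τ⁻¹, ← (c1.mul_right c1).inv_left.eq.symm]
  group

theorem Ctx.maxY (h : Ctx 3 P x) (hm : MaxCl 3 n P) (hn : 4 ≤ n) (W : Subgroup G) (hW : W ≤ P) (hi : W.relIndex P = 3) :
    γ[2](P) ≤ Phi W := by
  have hD := h.der_le hW hi
  have hWn : W ⊴ P := nml_of_der_le hD hW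
  have pW := h.pi.mono hW
  by_cases h1 : W ≤ tsc 1 P
  swap
  · refine ((nml_cases hm hWn.der (der_mono hW) 2).resolve_right fun e => h1 ?_).trans pW.der_le_Phi
    exact le_tsc.2 ⟨hW, (commSS hD le_rfl).trans e⟩
  have h2 : W = tsc 1 P := eq_of_card_le h1 (Nat.le_of_mul_le_mul_right (c := 3) (by
    have q1 := FT.card_mul_relIndex hW
    have q2 := FT.card_mul_relIndex (tsc_le 1 P)
    rw [hi] at q1
    rw [tsc_idx hm le_rfl (by omega)] at q2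
    rw [q1, q2]) (by norm_num))
  refine (nml_cases hm hWn.Phi ((h.pi.Phi_mono hW).trans (hm.Phi_eq (by omega)).le) 2).resolve_right fun e => ?_
  by_cases h3 : n = 4
  · subst h3
    have e1 : γ[3](P) = ⊥ := hm.eq_bot
    have := h.rk W hW ((pW.Phi_eq_bot_iff h.prime).1 (eq_bot_iff.2 (e.trans e1.le)))
    rw [h2, card_tsc hm le_rfl (by omega)] at this
    norm_num at this
  obtain ⟨s, hs, s12⟩ := exists_not_mem_of_card_le h.pi {1, 2} (fun k => tsc k P) (by simp) (by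
    rintro i hi
    simp only [Finset.mem_insert, Finset.mem_singleton] at hi
    exact tsc_lt hm (by omega))
  have s1 : s ∉ tsc 1 P := s12 1 (by simp)
  have s2 : s ∉ tsc 2 P := s12 2 (by simp)
  obtain ⟨t, ht, t1, t2⟩ : ∃ t ∈ tsc 1 P, t ∉ γ[1](P) ∧ t * s ∉ tsc 2 P := by
    obtain ⟨t, ht, t1⟩ := exists_tsc hm hn
    by_cases q1 : t * s ∈ tsc 2 P
    · refine ⟨t⁻¹, inv_mem ht, fun q => t1 (inv_mem_iff.1 q), fun q2 => s2 ?_⟩
      have q3 : t ^ 3 ∈ tsc 2 P := der_le_tsc 2 P ((hm.Phi_eq (by omega)).le (h.pi.pow_mem_Phi (tsc_le _ _ ht)))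
      have q4 := mul_mem (inv_mem (mul_mem q3 (mul_mem q2 (inv_mem q1)))) q1
      rwa [show (t ^ 3 * (t⁻¹ * s * (t * s)⁻¹))⁻¹ * (t * s) = s by simp only [pow_succ, pow_zero, one_mul]; group] at q4
    · exact ⟨t, ht, t1, q1⟩
  have hn3 : P ≤ N(γ[3](P)) := (lcs_nml 3 P).nrm
  have htP := tsc_le _ _ ht
  have hab := (abelem_quo_iff (p := 3) (hW.trans hn3)).2 ((pW.Phi_le_iff h.prime).1 e)
  have m0 : coset(γ[3](P), t) ∈ W /ₛ γ[3](P) := mem_quo_of_mem (hn3 htP) (h2 ▸ ht)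
  have hσ : coset(γ[3](P), s) ∈ N(W /ₛ γ[3](P)) := quo_norms _ hWn.nrm (mem_quo_of_mem (hn3 hs) hs)
  have m1 := FT.conj_mem hσ m0
  have m2 := FT.conj_mem hσ m1
  have key := cube_calc (σ := coset(γ[3](P), s)) (τ := coset(γ[3](P), t))
    (by rw [← coset_pow (hn3 hs)]; exact coset_of_mem (pow_mem_three hm (by omega) hs s1 s2))
    (by rw [← coset_mul (hn3 htP) (hn3 hs), ← coset_pow (hn3 (mul_mem htP hs))]
        exact coset_of_mem (pow_mem_three hm (by omega) (mul_mem htP hs) (fun q => s1 ((mul_mem_cancel_left ht).1 q)) t2))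
    (hab.ab.comm m0 m1) (hab.ab.comm m0 m2) (hab.ab.comm m1 m2) (hab.pow m1)
  have y1 : ⁅s, t⁆ ∈ γ[1](P) := commutator_mem_commutator hs htP
  have y1' : ⁅s, t⁆ ∈ P := lcs_le 1 P y1
  rw [← coset_comm (hn3 hs) (hn3 htP), ← coset_comm (hn3 y1') (hn3 hs),
    coset_eq_one_iff (hn3 (comm_le_of_le le_rfl le_rfl (commutator_mem_commutator y1' hs)))] at key
  refine s1 (mem_tsc_of hm le_rfl y1 (fun q => comm_not_mem hm hn ht t1 hs s1 ?_) hs key)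
  rw [← commutatorElement_inv]; exact inv_mem q

theorem bil0 (hA : A ≤ P) (hB : B ≤ P) (hU : U ≤ A) (hc : ⁅A, B⁆ ≤ C(P)) (h1 : U ≤ C(B)) (h2 : V ≤ C(A)) (hV : V ≤ B)
    (ha : a ∈ A) (hb : b ∈ B) (hu : u ∈ U) (hv : v ∈ V) : ⁅a ^ i * u, b ^ j * v⁆ = ⁅a, b⁆ ^ (i * j) := by
  have c1 : Commute u (b ^ j * v) := (mem_cen.1 (h1 hu) _ (mul_mem (pow_mem hb j) (hV hv))).symm
  have c2 : Commute (a ^ i) v := mem_cen.1 (h2 hv) _ (pow_mem ha i)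
  have z := hc (commutator_mem_commutator ha hb)
  rw [← comm_pow_pow (mem_cen.1 z a (hA ha)) (mem_cen.1 z b (hB hb))]
  simp only [commutatorElement_def, mul_inv_rev]
  calc a ^ i * u * (b ^ j * v) * (u⁻¹ * (a ^ i)⁻¹) * (v⁻¹ * (b ^ j)⁻¹)
      = a ^ i * (u * (b ^ j * v) * u⁻¹) * ((a ^ i)⁻¹ * v⁻¹) * (b ^ j)⁻¹ := by group
    _ = a ^ i * (b ^ j * v) * (v⁻¹ * (a ^ i)⁻¹) * (b ^ j)⁻¹ := by rw [c1.eq, mul_inv_cancel_right, c2.inv_inv.eq]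
    _ = _ := by group

theorem bil (hA : A ≤ P) (hB : B ≤ P) (hU : U ≤ A) (hV : V ≤ B) (hn : P ≤ N(D)) (hc : ⁅⁅A, B⁆, P⁆ ≤ D) (h1 : ⁅U, B⁆ ≤ D)
    (h2 : ⁅A, V⁆ ≤ D) (ha : a ∈ A) (hb : b ∈ B) (hu : (a ^ i)⁻¹ * u ∈ U) (hv : (b ^ j)⁻¹ * v ∈ V) :
    (⁅a, b⁆ ^ (i * j))⁻¹ * ⁅u, v⁆ ∈ D := by
  have a' := hn (hA ha)
  have b' := hn (hB hb)
  have u' := hn (hA (hU hu))
  have v' := hn (hB (hV hv))
  have ab' : ⁅a, b⁆ ∈ N(D) := comm_le_of_le le_rfl le_rfl (commutator_mem_commutator a' b')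
  have key := bil0 (i := i) (j := j) (quo_mono D hA) (quo_mono D hB) (quo_mono D hU)
    (by rw [← quo_comm (hA.trans hn) (hB.trans hn)]; exact quo_cents_of_comm_le hc) (quo_cents_of_comm_le h1)
    (centsC (quo_cents_of_comm_le h2)) (quo_mono D hV) (mem_quo_of_mem a' ha) (mem_quo_of_mem b' hb)
    (mem_quo_of_mem u' hu) (mem_quo_of_mem v' hv)
  rw [← coset_pow a', ← coset_pow b', ← coset_mul (pow_mem a' i) u', ← coset_mul (pow_mem b' j) v', mul_inv_cancel_left,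
    mul_inv_cancel_left, ← coset_comm a' b', ← coset_pow ab'] at key
  have u'' : u ∈ N(D) := by simpa using mul_mem (pow_mem a' i) u'
  have v'' : v ∈ N(D) := by simpa using mul_mem (pow_mem b' j) v'
  rw [← coset_comm u'' v''] at key
  exact (coset_eq_iff (pow_mem ab' _) (comm_le_of_le le_rfl le_rfl (commutator_mem_commutator u'' v''))).1 key.symm

theorem res3 (hX : X ⊴ Y) (hi : X.relIndex Y = 3) (ha : a ∈ Y) (a1 : a ∉ X) (hb : b ∈ Y) (b1 : b ∉ X) :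
    (a ^ 1)⁻¹ * b ∈ X ∨ (a ^ 2)⁻¹ * b ∈ X := by
  classical
  have hc : #(Y /ₛ X) = 3 := (card_quo hX.nrm).trans hi
  have a' := hX.nrm ha
  have b' := hX.nrm hb
  have a2 : coset(X, a) ≠ 1 := fun e => a1 ((coset_eq_one_iff a').1 e)
  have e := eq_zpowers_of_prime (hc ▸ Nat.prime_three) (mem_quo_of_mem a' ha) a2
  have ho : orderOf coset(X, a) = 3 := by rw [← card_zpowers', ← e, hc]
  have hm := mem_zpowers_iff_mem_range_orderOf.1 (e.le (mem_quo_of_mem b' hb))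
  obtain ⟨k, hk, e2⟩ := Finset.mem_image.1 hm
  rw [ho, Finset.mem_range] at hk
  rw [← coset_pow a', coset_eq_iff (pow_mem a' k) b'] at e2
  interval_cases k
  · exact absurd (by simpa using e2) b1
  · exact Or.inl e2
  · exact Or.inr e2

theorem norms_tsc (hg : X ≤ N(P)) (k : ℕ) : X ≤ N(tsc k P) :=
  normsI hg (norms_qpre (norms_lcs _ hg) (norms_cent (quo_norms _ (norms_lcs _ hg))))

/-- `g` inverts the factor `γ[k] / γ[k + 1]` -/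
def Inv (P : Subgroup G) (g : G) (k : ℕ) : Prop := ∃ y ∈ γ[k](P), y ∉ γ[k + 1](P) ∧ (y ^ 2)⁻¹ * (g * y * g⁻¹) ∈ γ[k + 1](P)

theorem Inv.step (h : Inv P g k) (hm : MaxCl 3 n P) (h1 : 1 ≤ k) (hk : k + 4 ≤ n) : Inv P g (k + 2) := by
  obtain ⟨y, y0, y1, y2⟩ := h
  obtain ⟨s, hs, c⟩ := exists_unif (p := 3) (by norm_num) n hm
  obtain ⟨q1, q2⟩ := shift hm hs c h1 y0
  have q3 := (shift hm hs c (by omega) y2).1
  refine ⟨y ^ 3, q1, q2 y1 (lcs_ne hm (by omega)), ?_⟩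
  have hn : P ≤ N(γ[k + 2 + 1](P)) := (lcs_nml _ P).nrm
  have m1 := hn (pow_mem (lcs_le _ _ y0) 2)
  have m2 := hn (lcs_le _ _ y2)
  have e : g * y ^ 3 * g⁻¹ = (y ^ 2 * ((y ^ 2)⁻¹ * (g * y * g⁻¹))) ^ 3 := by rw [mul_inv_cancel_left, conj_pow]
  have cm := (coset_commute_iff m1 m2).2 (lcs_comm (pow_mem y0 2) y2 (by omega))
  rw [e, ← coset_eq_iff (hn (pow_mem (pow_mem (lcs_le _ _ y0) 3) 2)) (pow_mem (mul_mem m1 m2) 3),
    coset_pow (mul_mem m1 m2), coset_mul m1 m2, (show Commute _ _ from cm).mul_pow, ← coset_pow m2,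
    coset_of_mem (show _ ∈ γ[k + 2 + 1](P) from q3), mul_one, ← coset_pow m1, ← pow_mul, ← pow_mul]

theorem Inv.iter (h : Inv P g 2) (hm : MaxCl 3 n P) (j : ℕ) (hj : 2 * j + 4 ≤ n) : Inv P g (2 + 2 * j) := by
  induction j with
  | zero => exact h
  | succ j ih => exact (ih (by omega)).step hm (by omega) (by omega)

theorem Ctx.odd_of_max (h : Ctx 3 P x) (hm : MaxCl 3 n P) (hn : 4 ≤ n) : n % 2 = 1 := by
  by_contra hodd
  have hs := h.star (h.maxY hm hn)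
  obtain ⟨t, ht, t1⟩ := exists_tsc hm hn
  have htP := tsc_le _ _ ht
  have hT : γ[1](P) ⊴ tsc 1 P := (lcs_nml 1 P).mono (der_le_tsc 1 P) (tsc_le 1 P)
  have hi : (γ[1](P)).relIndex (tsc 1 P) = 3 := by
    have q := FT.card_mul_relIndex hT.le
    rw [card_tsc hm le_rfl (by omega), hm.card_lcs le_rfl, show n - 1 = n - 1 - 1 + 1 by omega, pow_succ] at q
    exact Nat.eq_of_mul_eq_mul_left (by positivity) q
  obtain ⟨g, hg, g1⟩ : ∃ g ∈ N(P), (t ^ 2)⁻¹ * (g * t * g⁻¹) ∈ γ[1](P) := by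
    by_contra hc
    push Not at hc
    refine t1 (hs ⟪t⟫ (zpowers_le.2 htP) ?_ (mem_zpowers t))
    rw [commC]
    refine comm_zpowers_le ((lcs_nml 1 P).nrm htP) (norms_lcs 1 le_rfl) fun g hg => ?_
    have q := (res3 hT hi ht t1 (FT.conj_mem (norms_tsc le_rfl 1 hg) ht)
      fun e => t1 (by simpa [mul_assoc] using FT.conj_mem' (norms_lcs 1 le_rfl hg) e)).resolve_right (hc g hg)
    have q2 := FT.conj_mem ((lcs_nml 1 P).nrm htP) (inv_mem q)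
    rwa [show t * ((t ^ 1)⁻¹ * (g * t * g⁻¹))⁻¹ * t⁻¹ = ⁅t, g⁆ by rw [commutatorElement_def]; group] at q2
  obtain ⟨s, hs, s1⟩ := SetLike.exists_of_lt (tsc_lt hm (k := 1) (by omega))
  obtain ⟨j, hj, g2⟩ : ∃ j, j * j % 3 = 1 ∧ (s ^ j)⁻¹ * (g * s * g⁻¹) ∈ tsc 1 P := by
    rcases res3 (tsc_nml 1 P) (tsc_idx hm le_rfl (by omega)) hs s1 (FT.conj_mem hg hs)
      (fun e => s1 (by simpa [mul_assoc] using FT.conj_mem' (norms_tsc le_rfl 1 hg) e)) with q | q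
    exacts [⟨1, rfl, q⟩, ⟨2, rfl, q⟩]
  have hTT : ⁅tsc 1 P, tsc 1 P⁆ ≤ γ[2](P) := by
    have e : γ[1](P) ⊔ ⟪t⟫ = tsc 1 P := (maxIn_of_prime_relIndex (hi ▸ Nat.prime_three) hT.le).sup_eq (zpowers_le.2 ht)
      fun q => t1 (q (mem_zpowers t))
    have hn2 : tsc 1 P ≤ N(γ[2](P)) := lcs_nrm 2 (tsc_le 1 P)
    have q1 : ⁅γ[1](P), tsc 1 P⁆ ≤ γ[2](P) := commSS le_rfl (tsc_le 1 P)
    nth_rw 1 [← e]
    refine comm_sup_le (e.le.trans hn2) q1 ?_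
    rw [← e]
    refine comm_sup_le' (e.le.trans hn2) (by rw [commC]; exact (commSS le_rfl (zpowers_le.2 ht)).trans q1)
      ((ab_iff_der.1 (ab_zpowers t)).le.trans bot_le)
  have y1 : ⁅t, s⁆ ∈ γ[1](P) := commutator_mem_commutator htP hs
  have y1' := comm_not_mem hm hn ht t1 hs s1
  have b1 := bil (D := γ[2](P)) (tsc_le 1 P) le_rfl hT.le (tsc_le 1 P) (lcs_nml 2 P).nrm
    (commSS (commSS (tsc_le 1 P) le_rfl) le_rfl) le_rfl hTT ht hs g1 g2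
  have b2 := bil (D := γ[3](P)) (lcs_le 1 P) le_rfl (lcs_anti P (by norm_num : 1 ≤ 2)) (tsc_le 1 P) (lcs_nml 3 P).nrm
    le_rfl le_rfl (le_tsc.1 le_rfl).2 y1 hs b1 g2
  have y2 : ⁅⁅t, s⁆, s⁆ ∈ γ[2](P) := commutator_mem_commutator y1 hs
  have y2' : ⁅⁅t, s⁆, s⁆ ∉ γ[3](P) := fun q => s1 (mem_tsc_of hm le_rfl y1 y1' hs q)
  have hI : Inv P g 2 := by
    refine ⟨_, y2, y2', ?_⟩
    have q1 : ⁅⁅t, s⁆, s⁆ ^ 3 ∈ γ[3](P) := by
      have := FT.pow_relIndex_mem (K := γ[3](P)) (lcs_nrm 3 (lcs_le 2 P)) y2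
      rwa [show γ[3](P) = γ[2 + 1](P) from rfl, idx_lcs hm (k := 2) (j := 1) (by norm_num) (by omega), pow_one] at this
    have q2 : 2 * j * j = 2 + 3 * (2 * (j * j / 3)) := by have := Nat.div_add_mod (j * j) 3; rw [mul_assoc]; omega
    have q3 := mul_mem (pow_mem q1 (2 * (j * j / 3))) b2
    rw [q2, pow_add, pow_mul _ 3] at q3
    rwa [show g * ⁅⁅t, s⁆, s⁆ * g⁻¹ = ⁅⁅g * t * g⁻¹, g * s * g⁻¹⁆, g * s * g⁻¹⁆ by
      simp only [commutatorElement_def]; group, ← mul_inv_cancel_left ((⁅⁅t, s⁆, s⁆ ^ 3) ^ (2 * (j * j / 3)))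
        (⁅⁅t, s⁆, s⁆ ^ 2)⁻¹, ← mul_inv_rev, mul_assoc]
  obtain ⟨y, y0, y3, y4⟩ := hI.iter hm ((n - 4) / 2) (by omega)
  rw [show 2 + 2 * ((n - 4) / 2) = n - 2 by omega] at y0 y3 y4
  rw [show n - 2 + 1 = n - 1 by omega, hm.eq_bot] at y3 y4
  rw [← hm.center_eq (by omega), eq_zpowers_of_prime (hm.card_center (by omega) ▸ Nat.prime_three) h.cen h.ne_one] at y0
  have q : g * y = y * g := mem_cen1.1 (cen1_le_cen1_of_mem_zpowers y0 (h.nrm hg))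
  rw [q, mul_inv_cancel_right, show (y ^ 2)⁻¹ * y = y⁻¹ by rw [pow_two]; group] at y4
  exact y3 (inv_mem_iff.1 y4)

end Cfsg.Agent.Rk2
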