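import Mathlib
import Cfsg.Agent.H3.Two

/-! Semidihedral Sylow 2-subgroups: the class of a non-central involution in the centraliser of the central one. -/

set_option autoImplicit false

namespace Cfsg.Agent.H24.SwJ

open Cfsg Subgroup Cfsg.Agent.FT

universe u

theorem four_dvd {G : Type u} [Group G] [Finite G] {S : Sylow 2 G} {a b : G} {m : ℕ}
    (h : H3.MCS (S : Subgroup G) a b m) :
    4 ∣ (Subgroup.centralizer ({b} : Set G)).relIndex (Subgroup.centralizer ({a ^ 2 ^ (m - 1)} : Set G)) := by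
  have hm := h.toMC
  set t := a ^ 2 ^ (m - 1) with ht
  have hSH : (S : Subgroup G) ≤ C[t] := le_cen1.2 hm.z_cen
  have hS : Syl 2 (S : Subgroup G) C[t] := (syl_top Nat.prime_two S).subl hSH le_top
  obtain ⟨P, hP⟩ := exists_syl 2 (C[b] ⊓ C[t])
  have hbD : b ∈ C[b] ⊓ C[t] := ⟨self_mem_cen1 b, hSH hm.b_mem⟩
  have hbP : b ∈ P := hP.mem_of_cen hbD (hm.pGrp.piElt hm.b_mem) (le_cen1.1 (hP.le.trans inf_le_left))
  obtain ⟨g, hg, hgP⟩ := hS.syl_Jsub hP.pi (hP.le.trans inf_le_right)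
  have h1 : g * b * g⁻¹ ∈ (S : Subgroup G) := hgP (conj_mem_cj.2 hbP)
  have h2 : g * b * g⁻¹ ∉ ⟪a⟫ := fun e => by
    have e1 : g * b * g⁻¹ = t := hm.eq_z e (by rw [conj_pow, h.sq]; simp) (conj_ne_one.2 hm.b_ne)
    have e2 : b = t := by
      rw [mem_cen1] at hg
      calc b = g⁻¹ * (g * b * g⁻¹) * g := by group
        _ = g⁻¹ * (t * g) := by rw [e1]; group
        _ = t := by rw [← hg]; group
    exact hm.nmem (e2 ▸ hm.z_mem)
  have h3 : cj g P ≤ (S : Subgroup G) ⊓ C[g * b * g⁻¹] :=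
    le_inf hgP (by rw [← cj_cen1]; exact cj_mono g (hP.le.trans inf_le_left))
  have h4 : #P ∣ 4 := by
    rw [← card_cj g P, ← (hm.out h1 h2).card_cen1_b]; exact card_dvd_of_le h3
  have h5 : 16 ∣ #C[t] := by
    refine Dvd.dvd.trans ?_ (card_dvd_of_le hSH)
    rw [hm.card]
    exact pow_dvd_pow 2 (show 4 ≤ m + 1 by have := h.three_le; omega)
  have h6 := FT.card_mul_relIndex hP.le
  have h7 := FT.card_mul_relIndex (inf_le_right : C[b] ⊓ C[t] ≤ C[t])
  rw [inf_relIndex_right] at h7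
  have h8 := hP.not_dvd Nat.prime_two
  rw [← h7, ← h6] at h5
  obtain ⟨k, hk⟩ := h4
  have h9 : 4 * 4 ∣ 4 * (P.relIndex (C[b] ⊓ C[t]) * C[b].relIndex C[t]) := by
    refine h5.trans ?_
    rw [hk]
    exact ⟨k, by ring⟩
  have h10 := Nat.dvd_of_mul_dvd_mul_left (by norm_num) h9
  refine Nat.Coprime.dvd_of_dvd_mul_left ?_ h10
  exact Nat.Coprime.pow_left 2 ((Nat.Prime.coprime_iff_not_dvd Nat.prime_two).2 h8)

end Cfsg.Agent.H24.SwJ
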