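import Mathlib

/-!
At least half of the elements have even order (counting piece).
-/

set_option autoImplicit false
set_option linter.unusedSectionVars false
set_option linter.unusedVariables false

namespace Cfsg.Agent.H24.TpE

open Subgroup MulAction

variable {G : Type*} [Group G] [Finite G]

theorem fib (H : Subgroup G) (P : G → Prop) (f : G → G) (w : G)
    (hP : ∀ h ∈ H, ∀ x, P x → P (h * x * h⁻¹))
    (hf : ∀ h x, f (h * x * h⁻¹) = h * f x * h⁻¹)
    (hw : ∀ x, P x → ∃ h ∈ H, h * w * h⁻¹ = f x) :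
    Nat.card {x : G // P x} * Nat.card (H ⊓ centralizer ({w} : Set G) : Subgroup G) =
      Nat.card H * Nat.card {x : G // P x ∧ f x = w} := by
  classical
  rw [← Nat.card_prod, ← Nat.card_prod]
  choose t ht using hw
  refine Nat.card_congr (Equiv.ofBijective
    (fun p : {x : G // P x} × (H ⊓ centralizer ({w} : Set G) : Subgroup G) =>
      ((⟨t p.1.1 p.1.2 * p.2.1, H.mul_mem (ht _ _).1 p.2.2.1⟩ : H),
        (⟨(t p.1.1 p.1.2 * p.2.1)⁻¹ * p.1.1 * (t p.1.1 p.1.2 * p.2.1)⁻¹⁻¹,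
          hP _ (H.inv_mem (H.mul_mem (ht _ _).1 p.2.2.1)) _ p.1.2, by
            have h1 := (ht p.1.1 p.1.2).2
            have h2 : w * p.2.1 = p.2.1 * w := p.2.2.2 w rfl
            rw [hf, ← h1]
            calc (t p.1.1 p.1.2 * p.2.1)⁻¹ * (t p.1.1 p.1.2 * w * (t p.1.1 p.1.2)⁻¹) *
                  (t p.1.1 p.1.2 * p.2.1)⁻¹⁻¹ = (p.2.1 : G)⁻¹ * (w * p.2.1) := by group
              _ = w := by rw [h2]; group⟩ : {x : G // P x ∧ f x = w}))) ⟨?_, ?_⟩)
  · rintro ⟨⟨x, hx⟩, ⟨c, hc⟩⟩ ⟨⟨y, hy⟩, ⟨d, hd⟩⟩ h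
    simp only [Prod.mk.injEq, Subtype.mk.injEq] at h
    obtain ⟨h1, h2⟩ := h
    rw [h1] at h2
    have hxy : x = y := by simpa using h2
    subst hxy
    have hcd : c = d := by simpa using h1
    subst hcd
    rfl
  · rintro ⟨⟨k, hk⟩, ⟨x, hx, hfx⟩⟩
    have hx' : P (k * x * k⁻¹) := hP k hk x hx
    have h1 := (ht _ hx').2
    rw [hf, hfx] at h1
    refine ⟨(⟨k * x * k⁻¹, hx'⟩, ⟨(t _ hx')⁻¹ * k, H.mul_mem (H.inv_mem (ht _ hx').1) hk, ?_⟩), ?_⟩
    · intro u hu
      rw [Set.mem_singleton_iff.1 hu]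
      calc w * ((t _ hx')⁻¹ * k) = (t _ hx')⁻¹ * (t _ hx' * w * (t _ hx')⁻¹) * k := by group
        _ = (t _ hx')⁻¹ * k * w := by rw [h1]; group
    · simp only [Prod.mk.injEq, Subtype.mk.injEq]
      constructor
      · group
      · group

theorem eq_of_sq {y y' : G} (hy : Odd (orderOf y)) (hy' : Odd (orderOf y'))
    (h : y ^ 2 = y' ^ 2) : y = y' := by
  obtain ⟨m, hm⟩ := hy.mul hy'
  have h1 : y ^ (2 * m + 1) = 1 := by
    rw [← hm]; exact orderOf_dvd_iff_pow_eq_one.1 (dvd_mul_right _ _)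
  have h2 : y' ^ (2 * m + 1) = 1 := by
    rw [← hm]; exact orderOf_dvd_iff_pow_eq_one.1 (dvd_mul_left _ _)
  have h3 : y ^ (2 * m) = y' ^ (2 * m) := by rw [pow_mul, pow_mul, h]
  rw [pow_succ] at h1 h2
  rw [h3, ← h2] at h1
  exact mul_left_cancel h1

theorem odd_mul (H : Subgroup G) (V : Finset G)
    (hV : ∀ v ∈ V, v ∈ H ∧ v * v = 1 ∧ ∀ h ∈ H, Commute h v) :
    Nat.card {y : G // y ∈ H ∧ Odd (orderOf y)} * V.card ≤ Nat.card H := by
  classical
  rw [← Nat.card_eq_finsetCard V, ← Nat.card_prod]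
  refine Nat.card_le_card_of_injective
    (fun p : {y : G // y ∈ H ∧ Odd (orderOf y)} × V =>
      (⟨p.1.1 * p.2.1, H.mul_mem p.1.2.1 (hV _ p.2.2).1⟩ : H)) ?_
  rintro ⟨⟨y, hy, hyo⟩, ⟨v, hv⟩⟩ ⟨⟨y', hy', hyo'⟩, ⟨v', hv'⟩⟩ h
  simp only [Subtype.mk.injEq] at h
  have e1 : (y * v) ^ 2 = y ^ 2 := by
    rw [((hV v hv).2.2 y hy).mul_pow, pow_two v, (hV v hv).2.1, mul_one]
  have e2 : (y' * v') ^ 2 = y' ^ 2 := by
    rw [((hV v' hv').2.2 y' hy').mul_pow, pow_two v', (hV v' hv').2.1, mul_one]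
  have hyy : y = y' := eq_of_sq hyo hyo' (by rw [← e1, ← e2, h])
  subst hyy
  have hvv : v = v' := mul_left_cancel h
  subst hvv
  rfl

/-- the involution of a cyclic group of even order -/
noncomputable def iv (g : G) : G := g ^ (orderOf g / 2)

theorem orderOf_cj (h x : G) : orderOf (h * x * h⁻¹) = orderOf x :=
  (MulAut.conj h).orderOf_eq x

theorem iv_cj (h x : G) : iv (h * x * h⁻¹) = h * iv x * h⁻¹ := by
  unfold iv
  rw [orderOf_cj, conj_pow]

theorem orderOf_iv {g : G} (hg : Even (orderOf g)) : orderOf (iv g) = 2 := by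
  obtain ⟨m, hm⟩ := hg
  have hp := orderOf_pos g
  have e : orderOf g / 2 = m := by omega
  unfold iv
  rw [e]
  refine orderOf_eq_prime ?_ ?_
  · rw [← pow_mul]
    have : m * 2 = orderOf g := by omega
    rw [this, pow_orderOf_eq_one]
  · intro h
    have := Nat.le_of_dvd (by omega) (orderOf_dvd_iff_pow_eq_one.2 h)
    omega

theorem mem_cz {z g : G} : g ∈ centralizer ({z} : Set G) ↔ z * g = g * z :=
  ⟨fun h => h z rfl, fun h u hu => by rw [Set.mem_singleton_iff.1 hu]; exact h⟩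

theorem tpE {G : Type*} [Group G] [Finite G] (hconj : ∀ i j : G, orderOf i = 2 → orderOf j = 2 → IsConj i j) {z : G} (hz : orderOf z = 2) {D : Subgroup G} (hD : D ≤ centralizer ({z} : Set G)) (hi : D.relIndex (centralizer ({z} : Set G)) = 2) (hzD : z ∈ D) (hu : ∀ w ∈ D, orderOf w = 2 → w = z) (hcl : ∀ s ∈ centralizer ({z} : Set G), ∀ s' ∈ centralizer ({z} : Set G), s ∉ D → s' ∉ D → orderOf s = 2 → orderOf s' = 2 → ∃ g ∈ centralizer ({z} : Set G), g * s * g⁻¹ = s') : Nat.card G ≤ 2 * Nat.card {g : G // Even (orderOf g)} := by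
  classical
  set C := centralizer ({z} : Set G) with hC
  have hsq : ∀ g ∈ C, g ^ 2 ∈ D := by
    intro g hg
    have h1 : (D.subgroupOf C).index = 2 := hi
    have := Subgroup.sq_mem_of_index_two h1 ⟨g, hg⟩
    simpa [mem_subgroupOf] using this
  have hDC : Nat.card D * 2 = Nat.card C := by
    rw [← hi]
    have := Subgroup.card_mul_index (D.subgroupOf C)
    rw [Nat.card_congr (subgroupOfEquivOfLe hD).toEquiv] at this
    exact this
  have hz2 : z * z = 1 := by rw [← pow_two, ← hz, pow_orderOf_eq_one]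
  have hz1 : z ≠ 1 := by rintro rfl; simp at hz
  -- step 1
  have s1 := fib (⊤ : Subgroup G) (fun g => Even (orderOf g)) iv z
    (fun h _ x hx => by simpa only [orderOf_cj] using hx) iv_cj
    (fun x hx => by
      obtain ⟨c, hc⟩ := isConj_iff.1 (hconj z (iv x) hz (orderOf_iv hx))
      exact ⟨c, trivial, hc⟩)
  rw [top_inf_eq, card_top, ← hC] at s1
  -- odd elements
  have s2 := odd_mul D {1, z} (by
    intro v hv
    simp only [Finset.mem_insert, Finset.mem_singleton] at hv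
    rcases hv with rfl | rfl
    · exact ⟨D.one_mem, mul_one _, fun h _ => Commute.one_right h⟩
    · exact ⟨hzD, hz2, fun h hh => (mem_cz.1 (hD hh)).symm⟩)
  rw [Finset.card_pair hz1.symm] at s2
  -- the elements whose involution is outside `D`
  have hivC : ∀ g ∈ C, iv g ∈ C := fun g hg => C.pow_mem hg _
  have s3 : 4 * Nat.card {g : G // g ∈ C ∧ Even (orderOf g) ∧ iv g ∉ D} ≤ Nat.card C := by
    rcases isEmpty_or_nonempty {g : G // g ∈ C ∧ Even (orderOf g) ∧ iv g ∉ D} with he | ⟨⟨g0, hg0, hg1, hg2⟩⟩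
    · simp
    set w := iv g0 with hw
    have hwo : orderOf w = 2 := orderOf_iv hg1
    have hwC : w ∈ C := hivC g0 hg0
    have hw2 : w * w = 1 := by rw [← pow_two, ← hwo, pow_orderOf_eq_one]
    have hN : ∀ h ∈ C, ∀ d ∈ D, h * d * h⁻¹ ∈ D := by
      intro h hh d hd
      have h1 : (D.subgroupOf C).index = 2 := hi
      have h2 := (Subgroup.normal_of_index_eq_two h1).conj_mem ⟨d, hD hd⟩
        (mem_subgroupOf.2 hd) ⟨h, hh⟩
      exact mem_subgroupOf.1 h2
    have f1 := fib C (fun g => g ∈ C ∧ Even (orderOf g) ∧ iv g ∉ D) iv w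
      (fun h hh x hx => ⟨C.mul_mem (C.mul_mem hh hx.1) (C.inv_mem hh),
        by simpa only [orderOf_cj] using hx.2.1, by
          rw [iv_cj]
          intro hm
          have := hN h⁻¹ (C.inv_mem hh) _ hm
          apply hx.2.2
          simpa [mul_assoc] using this⟩) iv_cj
      (fun x hx => hcl w hwC (iv x) (hivC x hx.1) hg2 hx.2.2 hwo (orderOf_iv hx.2.1))
    set M := C ⊓ centralizer ({w} : Set G) with hM
    have hzw : z * w = w * z := mem_cz.1 hwC
    have hw1 : w ≠ 1 := by intro h; rw [h] at hwo; simp at hwo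
    have hwz : w ≠ z := by intro h; exact hg2 (h ▸ hzD)
    have f2 := odd_mul M {1, z, w, z * w} (by
      have a1 : ∀ h ∈ M, Commute h z := fun h hh => (mem_cz.1 hh.1).symm
      have a2 : ∀ h ∈ M, Commute h w := fun h hh => (mem_cz.1 hh.2).symm
      have b1 : z ∈ M := ⟨hD hzD, mem_cz.2 hzw.symm⟩
      have b2 : w ∈ M := ⟨hwC, mem_cz.2 rfl⟩
      intro v hv
      simp only [Finset.mem_insert, Finset.mem_singleton] at hv
      rcases hv with rfl | rfl | rfl | rfl
      · exact ⟨M.one_mem, mul_one _, fun h _ => Commute.one_right h⟩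
      · exact ⟨b1, hz2, a1⟩
      · exact ⟨b2, hw2, a2⟩
      · refine ⟨M.mul_mem b1 b2, ?_, fun h hh => (a1 h hh).mul_right (a2 h hh)⟩
        calc z * w * (z * w) = z * (w * z) * w := by group
          _ = (z * z) * (w * w) := by rw [← hzw]; group
          _ = 1 := by rw [hz2, hw2, mul_one])
    have hc4 : ({1, z, w, z * w} : Finset G).card = 4 := by
      have n1 : z * w ≠ 1 := by
        intro h
        apply hwz
        calc w = z * (z * w) := by rw [← mul_assoc, hz2, one_mul]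
          _ = z := by rw [h, mul_one]
      have n2 : z * w ≠ z := by simpa using hw1
      have n3 : z * w ≠ w := by simpa using hz1
      rw [Finset.card_eq_four]
      exact ⟨1, z, w, z * w, hz1.symm, hw1.symm, n1.symm, hwz.symm, n2.symm, n3.symm, rfl⟩
    rw [hc4] at f2
    have f3 : Nat.card {x : G // (x ∈ C ∧ Even (orderOf x) ∧ iv x ∉ D) ∧ iv x = w} ≤
        Nat.card {y : G // y ∈ M ∧ Odd (orderOf y)} := by
      refine Nat.card_le_card_of_injective (fun x => ⟨x.1 * w, ?_, ?_⟩) ?_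
      · obtain ⟨x, ⟨hx1, hx2, hx3⟩, hx4⟩ := x
        refine ⟨C.mul_mem hx1 hwC, mem_cz.2 ?_⟩
        have : Commute x w := by rw [← hx4]; exact Commute.self_pow _ _
        show w * (x * w) = x * w * w
        rw [← mul_assoc, this.eq]
      · obtain ⟨x, ⟨hx1, hx2, hx3⟩, hx4⟩ := x
        show Odd (orderOf (x * w))
        obtain ⟨m, hm⟩ := hx2
        have e : orderOf x / 2 = m := by omega
        have e2 : iv x = x ^ m := by unfold iv; rw [e]
        have hmo : Odd m := by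
          rw [← Nat.not_even_iff_odd]
          rintro ⟨k, hk⟩
          apply hx3
          rw [e2, hk, ← two_mul, pow_mul]
          exact D.pow_mem (hsq x hx1) _
        refine Odd.of_dvd_nat hmo (orderOf_dvd_iff_pow_eq_one.2 ?_)
        rw [← hx4, e2, ← pow_succ', ← pow_mul, ← orderOf_dvd_iff_pow_eq_one, hm]
        obtain ⟨k, hk⟩ := hmo
        exact ⟨k + 1, by rw [hk]; ring⟩
      · intro x y h
        simp only [Subtype.mk.injEq] at h
        exact Subtype.ext (mul_right_cancel h)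
    have hMp : 0 < Nat.card M := Nat.card_pos
    refine Nat.le_of_mul_le_mul_right ?_ hMp
    rw [mul_assoc, f1]
    nlinarith
  have s4 : Nat.card C ≤ Nat.card {g : G // Even (orderOf g) ∧ iv g = z} +
      Nat.card {y : G // y ∈ D ∧ Odd (orderOf y)} +
      Nat.card {g : G // g ∈ C ∧ Even (orderOf g) ∧ iv g ∉ D} := by
    have e0 : Nat.card C = (C : Set G).ncard := rfl
    have e1 : Nat.card {g : G // Even (orderOf g) ∧ iv g = z} =
      {g : G | Even (orderOf g) ∧ iv g = z}.ncard := rfl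
    have e2 : Nat.card {y : G // y ∈ D ∧ Odd (orderOf y)} =
      {y : G | y ∈ D ∧ Odd (orderOf y)}.ncard := rfl
    have e3 : Nat.card {g : G // g ∈ C ∧ Even (orderOf g) ∧ iv g ∉ D} =
      {g : G | g ∈ C ∧ Even (orderOf g) ∧ iv g ∉ D}.ncard := rfl
    rw [e0, e1, e2, e3]
    refine le_trans (Set.ncard_le_ncard (t := ({g : G | Even (orderOf g) ∧ iv g = z} ∪
      {y : G | y ∈ D ∧ Odd (orderOf y)}) ∪ {g : G | g ∈ C ∧ Even (orderOf g) ∧ iv g ∉ D}) ?_)
      (le_trans (Set.ncard_union_le _ _) (Nat.add_le_add_right (Set.ncard_union_le _ _) _))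
    intro g hg
    rcases Nat.even_or_odd (orderOf g) with he | ho
    · by_cases hd : iv g ∈ D
      · exact Or.inl (Or.inl ⟨he, hu _ hd (orderOf_iv he)⟩)
      · exact Or.inr ⟨hg, he, hd⟩
    · refine Or.inl (Or.inr ⟨?_, ho⟩)
      obtain ⟨k, hk⟩ := ho
      have : g = (g ^ 2) ^ (k + 1) := by
        rw [← pow_mul, show 2 * (k + 1) = orderOf g + 1 by omega, pow_succ, pow_orderOf_eq_one,
          one_mul]
      rw [this]
      exact D.pow_mem (hsq g hg) _
  have hCp : 0 < Nat.card C := Nat.card_pos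
  refine Nat.le_of_mul_le_mul_right ?_ hCp
  rw [mul_assoc, s1]
  have : Nat.card C ≤ 2 * Nat.card {g : G // Even (orderOf g) ∧ iv g = z} := by omega
  nlinarith

end Cfsg.Agent.H24.TpE
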